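import Mathlib
import Cfsg.Agent.H84.PslStmt

set_option autoImplicit false

/-!
# S5163: entries of root elements, the unitriangular group is generated by them (helper97)
-/

namespace Cfsg.Agent.Lib.Helper97.PslAux

open Cfsg.Agent.H84.PslDefs Matrix

universe u

variable (n : ℕ) (K : Type u) [Field K]

lemma tv_apply {i j : Fin n} (hij : i ≠ j) (c : K) (a b : Fin n) :
    (SpecialLinearGroup.transvection hij c : SpecialLinearGroup (Fin n) K) a b =
      (if a = b then 1 else 0) + (if i = a ∧ j = b then c else 0) := by
  show ((1 : Matrix (Fin n) (Fin n) K) + Matrix.single i j c) a b = _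
  rw [Matrix.add_apply, Matrix.one_apply, Matrix.single_apply]

lemma tv_mem_Uni {i j : Fin n} (h : i < j) (c : K) :
    SpecialLinearGroup.transvection (ne_of_lt h) c ∈ Uni n K := by
  rw [mem_Uni]
  refine ⟨fun a b hba => ?_, fun a => ?_⟩
  · rw [tv_apply, if_neg (ne_of_gt hba), if_neg, add_zero]
    rintro ⟨rfl, rfl⟩
    exact lt_asymm h hba
  · rw [tv_apply, if_pos rfl, if_neg, add_zero]
    rintro ⟨rfl, h2⟩
    exact (ne_of_lt h) h2.symm

lemma tv_mul_apply_same {i j : Fin n} (hij : i ≠ j) (c : K) (g : SpecialLinearGroup (Fin n) K)
    (b : Fin n) : (SpecialLinearGroup.transvection hij c * g) i b = g i b + c * g j b :=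
  Matrix.transvection_mul_apply_same i j b c (g : Matrix (Fin n) (Fin n) K)

lemma tv_mul_apply_of_ne {i j : Fin n} (hij : i ≠ j) (c : K)
    (g : SpecialLinearGroup (Fin n) K) (a b : Fin n) (ha : a ≠ i) :
    (SpecialLinearGroup.transvection hij c * g) a b = g a b :=
  Matrix.transvection_mul_apply_of_ne i j a b ha c (g : Matrix (Fin n) (Fin n) K)

/-- the nontrivial upper root elements of `SL_n(K)` -/
def X0 : Set (SpecialLinearGroup (Fin n) K) :=
  {x | ∃ (i j : Fin n) (h : i < j) (c : K), c ≠ 0 ∧
    x = SpecialLinearGroup.transvection (ne_of_lt h) c}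

lemma tv_mem_closure {i j : Fin n} (h : i < j) (c : K) :
    SpecialLinearGroup.transvection (ne_of_lt h) c ∈ Subgroup.closure (X0 n K) := by
  by_cases hc : c = 0
  · rw [hc, SpecialLinearGroup.transvection_coeff_zero]
    exact one_mem _
  · exact Subgroup.subset_closure ⟨i, j, h, c, hc, rfl⟩

lemma mem_closure_of_zero (m : ℕ) : ∀ g ∈ Uni n K,
    (∀ a b : Fin n, a < b → m ≤ a.val * n + b.val → g a b = 0) →
      g ∈ Subgroup.closure (X0 n K) := by
  induction m with
  | zero =>
    intro g hg h0
    obtain ⟨h1, h2⟩ := (mem_Uni n K g).mp hg
    have : g = 1 := by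
      apply Subtype.ext
      ext a b
      show g a b = (1 : Matrix (Fin n) (Fin n) K) a b
      rw [Matrix.one_apply]
      rcases lt_trichotomy a b with hab | hab | hab
      · rw [if_neg (ne_of_lt hab)]
        exact h0 a b hab (Nat.zero_le _)
      · subst hab
        rw [if_pos rfl]
        exact h2 a
      · rw [if_neg (ne_of_gt hab)]
        exact h1 a b hab
    rw [this]
    exact one_mem _
  | succ m ih =>
    intro g hg h0
    obtain ⟨h1, h2⟩ := (mem_Uni n K g).mp hg
    by_cases hex : ∃ a b : Fin n, a < b ∧ a.val * n + b.val = m
    · obtain ⟨a, b, hab, hm⟩ := hex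
      have hmem : SpecialLinearGroup.transvection (ne_of_lt hab) (-(g a b)) * g ∈
          Subgroup.closure (X0 n K) := by
        apply ih _ (mul_mem (tv_mem_Uni n K hab _) hg)
        intro x y hxy hle
        have hb : ∀ y : Fin n, y ≠ b → g b y = 0 := by
          intro y hy
          rcases lt_or_gt_of_ne hy with hlt | hgt
          · exact h1 b y hlt
          · apply h0 b y hgt
            have h3 : a.val < b.val := hab
            have h4 : b.val < n := b.isLt
            have h5 : (a.val + 1) * n ≤ b.val * n := Nat.mul_le_mul_right n h3
            have h6 : (a.val + 1) * n = a.val * n + n := Nat.succ_mul _ _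
            omega
        by_cases hxa : x = a
        · subst hxa
          rw [tv_mul_apply_same]
          by_cases hyb : y = b
          · subst hyb
            rw [h2 y]
            ring
          · rw [hb y hyb, mul_zero, add_zero]
            apply h0 x y hxy
            have hne : x.val * n + y.val ≠ m := by
              intro he
              apply hyb
              apply Fin.ext
              omega
            omega
        · rw [tv_mul_apply_of_ne _ _ _ _ _ _ _ hxa]
          apply h0 x y hxy
          have hne : x.val * n + y.val ≠ m := by
            intro he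
            apply hxa
            apply Fin.ext
            have hy : y.val < n := y.isLt
            have hb' : b.val < n := b.isLt
            rw [← hm] at he
            rcases Nat.lt_trichotomy x.val a.val with hlt | heq | hgt
            · have h5 : (x.val + 1) * n ≤ a.val * n := Nat.mul_le_mul_right n hlt
              have h6 : (x.val + 1) * n = x.val * n + n := Nat.succ_mul _ _
              omega
            · exact heq
            · have h5 : (a.val + 1) * n ≤ x.val * n := Nat.mul_le_mul_right n hgt
              have h6 : (a.val + 1) * n = a.val * n + n := Nat.succ_mul _ _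
              omega
          omega
      have ht := tv_mem_closure n K hab (-(g a b))
      have e : g = (SpecialLinearGroup.transvection (ne_of_lt hab) (-(g a b)))⁻¹ *
          (SpecialLinearGroup.transvection (ne_of_lt hab) (-(g a b)) * g) := by group
      rw [e]
      exact mul_mem (inv_mem ht) hmem
    · apply ih g hg
      intro a b hab hle
      apply h0 a b hab
      have hne : a.val * n + b.val ≠ m := fun he => hex ⟨a, b, hab, he⟩
      omega

theorem closure_X0 : Subgroup.closure (X0 n K) = Uni n K := by
  apply le_antisymm
  · rw [Subgroup.closure_le]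
    rintro x ⟨i, j, h, c, -, rfl⟩
    exact tv_mem_Uni n K h c
  · intro g hg
    apply mem_closure_of_zero n K (n * n) g hg
    intro a b _ hle
    exfalso
    have h3 : a.val < n := a.isLt
    have h4 : b.val < n := b.isLt
    have h5 : (a.val + 1) * n ≤ n * n := Nat.mul_le_mul_right n h3
    have h6 : (a.val + 1) * n = a.val * n + n := Nat.succ_mul _ _
    omega

end Cfsg.Agent.Lib.Helper97.PslAux
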