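import Mathlib
import Cfsg.Agent.H84.PslStmt
import Cfsg.Agent.Lib.Helper97.PslAux

set_option autoImplicit false

/-!
# S5163, piece P1: the image of the unitriangular group is a Sylow `p`-subgroup of `PSL_n(K)`
(helper97)
-/

namespace Cfsg.Agent.Lib.Helper97.PslP1

open Cfsg.Agent.H84.PslDefs Matrix Cfsg.Agent.Lib.Helper97.PslAux

universe u

/-- the strictly upper triangular positions -/
abbrev Pos (n : ℕ) : Type := {x : Fin n × Fin n // x.1 < x.2}

lemma card_Pos (n : ℕ) : Fintype.card (Pos n) = n * (n - 1) / 2 := by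
  have e : Pos n ≃ (Σ j : Fin n, Fin j.val) :=
    { toFun := fun x => ⟨x.1.2, ⟨x.1.1.val, x.2⟩⟩
      invFun := fun y => ⟨(⟨y.2.val, lt_trans y.2.isLt y.1.isLt⟩, y.1), y.2.isLt⟩
      left_inv := fun x => Subtype.ext (Prod.ext (Fin.ext rfl) rfl)
      right_inv := fun y => rfl }
  rw [Fintype.card_congr e, Fintype.card_sigma]
  simp only [Fintype.card_fin]
  rw [Fin.sum_univ_eq_sum_range (fun i => i) n, Finset.sum_range_id]

theorem card_GL_split' {F : Type*} [Field F] [Fintype F] (n : ℕ) :
    Nat.card (GL (Fin n) F) = Fintype.card F ^ (n * (n - 1) / 2) *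
      ∏ i : Fin n, (Fintype.card F ^ (n - i.val) - 1) := by
  rw [Matrix.card_GL_field]
  have h1 : ∀ i : Fin n, Fintype.card F ^ n - Fintype.card F ^ (i : ℕ) =
      Fintype.card F ^ (i : ℕ) * (Fintype.card F ^ (n - i.val) - 1) := by
    intro i
    rw [Nat.mul_sub, ← pow_add, mul_one]
    congr 2
    omega
  rw [Finset.prod_congr rfl (fun i _ => h1 i), Finset.prod_mul_distrib, Finset.prod_pow_eq_pow_sum,
    Fin.sum_univ_eq_sum_range (fun i => i) n, Finset.sum_range_id]

theorem not_dvd_prod' {F : Type*} [Field F] [Fintype F] (p : ℕ) [Fact p.Prime] [CharP F p]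
    (n : ℕ) : ¬ p ∣ ∏ i : Fin n, (Fintype.card F ^ (n - i.val) - 1) := by
  have hp : p.Prime := Fact.out
  obtain ⟨f, -, hf⟩ := FiniteField.card F p
  intro h
  obtain ⟨i, -, hi⟩ := (Nat.Prime.prime hp).exists_mem_finset_dvd h
  have h1 : p ∣ Fintype.card F ^ (n - i.val) := by
    rw [hf, ← pow_mul]
    apply dvd_pow_self
    have := f.pos
    have : 0 < n - i.val := by have := i.isLt; omega
    positivity
  have h2 : 0 < Fintype.card F ^ (n - i.val) := by
    have : 0 < Fintype.card F := Fintype.card_pos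
    positivity
  have h3 : p ∣ 1 := by
    have := (Nat.dvd_sub h1 hi)
    rwa [Nat.sub_sub_self h2] at this
  exact hp.one_lt.ne' (Nat.dvd_one.mp h3)

section

variable (n : ℕ) (K : Type u) [Field K]

/-- the unitriangular matrix with given entries above the diagonal -/
def uMat (f : Pos n → K) : Matrix (Fin n) (Fin n) K :=
  fun i j => if h : i < j then f ⟨(i, j), h⟩ else if i = j then 1 else 0

lemma uMat_lower (f : Pos n → K) {i j : Fin n} (hji : j < i) : uMat n K f i j = 0 := by
  rw [uMat, dif_neg (not_lt.mpr (le_of_lt hji)), if_neg (ne_of_gt hji)]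

lemma uMat_diag (f : Pos n → K) (i : Fin n) : uMat n K f i i = 1 := by
  rw [uMat, dif_neg (lt_irrefl i), if_pos rfl]

lemma uMat_upper (f : Pos n → K) {i j : Fin n} (hij : i < j) :
    uMat n K f i j = f ⟨(i, j), hij⟩ := by
  rw [uMat, dif_pos hij]

lemma det_uMat (f : Pos n → K) : (uMat n K f).det = 1 := by
  have hb : (uMat n K f).BlockTriangular id := fun i j hij => uMat_lower n K f hij
  rw [Matrix.det_of_isUpperTriangular hb]
  exact Finset.prod_eq_one (fun i _ => uMat_diag n K f i)

/-- the unitriangular element of `SL_n(K)` with given entries above the diagonal -/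
def uSL (f : Pos n → K) : SpecialLinearGroup (Fin n) K := ⟨uMat n K f, det_uMat n K f⟩

lemma uSL_mem (f : Pos n → K) : uSL n K f ∈ Uni n K := by
  rw [mem_Uni]
  exact ⟨fun i j hji => uMat_lower n K f hji, fun i => uMat_diag n K f i⟩

/-- the parametrisation of the unitriangular group -/
def uEquiv : (Pos n → K) ≃ ↥(Uni n K) where
  toFun f := ⟨uSL n K f, uSL_mem n K f⟩
  invFun g := fun x => (g : SpecialLinearGroup (Fin n) K) x.1.1 x.1.2
  left_inv f := by
    funext x
    exact uMat_upper n K f x.2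
  right_inv g := by
    obtain ⟨h1, h2⟩ := (mem_Uni n K g.1).mp g.2
    apply Subtype.ext
    apply Subtype.ext
    ext i j
    show uMat n K (fun x => (g : SpecialLinearGroup (Fin n) K) x.1.1 x.1.2) i j =
      (g : SpecialLinearGroup (Fin n) K) i j
    rcases lt_trichotomy i j with hij | hij | hij
    · rw [uMat_upper n K _ hij]
    · subst hij
      rw [uMat_diag, h2 i]
    · rw [uMat_lower n K _ hij, h1 i j hij]

lemma card_Uni [Fintype K] :
    Nat.card (Uni n K) = Fintype.card K ^ (n * (n - 1) / 2) := by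
  classical
  rw [← Nat.card_congr (uEquiv n K), Nat.card_eq_fintype_card, Fintype.card_fun, card_Pos]

end

theorem main : Cfsg.Agent.H84.PslStmt.SylowUbar.{u} := by
  intro n K _ _ p _ _
  classical
  have hp : p.Prime := Fact.out
  obtain ⟨f, -, hf⟩ := FiniteField.card K p
  have hU : Nat.card (Uni n K) = Fintype.card K ^ (n * (n - 1) / 2) := card_Uni n K
  have hUp : IsPGroup p (Uni n K) :=
    IsPGroup.of_card (n := (f : ℕ) * (n * (n - 1) / 2)) (by rw [hU, hf, pow_mul])
  obtain ⟨P, hP⟩ := hUp.exists_le_sylow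
  have hPU : (P : Subgroup (SpecialLinearGroup (Fin n) K)) = Uni n K := by
    symm
    apply Subgroup.eq_of_le_of_card_ge hP
    obtain ⟨k, hk⟩ := IsPGroup.iff_card.mp P.isPGroup'
    have h1 : Nat.card (P : Subgroup (SpecialLinearGroup (Fin n) K)) ∣
        Nat.card (SpecialLinearGroup (Fin n) K) := Subgroup.card_subgroup_dvd_card _
    have h2 : Nat.card (SpecialLinearGroup (Fin n) K) ∣ Nat.card (GL (Fin n) K) :=
      Subgroup.card_dvd_of_injective SpecialLinearGroup.toGL SpecialLinearGroup.toGL_injective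
    have h3 := h1.trans h2
    rw [card_GL_split', hk] at h3
    have hcop : Nat.Coprime (p ^ k) (∏ i : Fin n, (Fintype.card K ^ (n - i.val) - 1)) :=
      Nat.Coprime.pow_left k ((Nat.Prime.coprime_iff_not_dvd hp).mpr (not_dvd_prod' p n))
    have h4 := hcop.dvd_of_dvd_mul_right h3
    rw [hk, hU]
    exact Nat.le_of_dvd (pow_pos Fintype.card_pos _) h4
  refine ⟨⟨Sylow.mapSurjective (proj_surjective n K) P, ?_⟩, ?_⟩
  · rw [Sylow.coe_mapSurjective, hPU]
    rfl
  · intro hn hbot
    have h01 : (⟨0, by omega⟩ : Fin n) < ⟨1, by omega⟩ := by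
      show (0 : ℕ) < 1
      exact Nat.zero_lt_one
    have hmem : proj n K (SpecialLinearGroup.transvection (ne_of_lt h01) (1 : K)) ∈ Ubar n K :=
      ⟨_, tv_mem_Uni n K h01 1, rfl⟩
    rw [hbot, Subgroup.mem_bot, ← MonoidHom.mem_ker, ker_proj,
      Matrix.SpecialLinearGroup.mem_center_iff] at hmem
    obtain ⟨r, -, hr⟩ := hmem
    have h5 := congrArg (fun A : Matrix (Fin n) (Fin n) K => A ⟨0, by omega⟩ ⟨1, by omega⟩) hr
    simp only [Matrix.scalar_apply] at h5
    rw [Matrix.diagonal_apply_ne _ (ne_of_lt h01)] at h5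
    have h6 := tv_apply n K (ne_of_lt h01) (1 : K) ⟨0, by omega⟩ ⟨1, by omega⟩
    rw [if_neg (ne_of_lt h01), if_pos ⟨rfl, rfl⟩, zero_add] at h6
    have h7 : (0 : K) = 1 := h5.trans h6
    exact zero_ne_one h7

end Cfsg.Agent.Lib.Helper97.PslP1
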