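import Mathlib
import Cfsg.Agent.Lib.Helper32.D8Stmt

/-!
# S3716 (call by helper32): local pair sums in `N = 3^2 : D8` through the normal form

`I = Fin 3 × Fin 3 × Fin 2 × Fin 2 × Fin 2` indexes `N` (`E p = x^i y^j a^k b^l w^m`), `mu` is the
product rule of `D8Stmt.NF` on `I`.  `locp_of_cnt` reduces every `D8Stmt.LocP` statement to the
evaluation (by `decide +kernel`) of the integer counts `cnt`.
-/

set_option autoImplicit false

namespace Cfsg.Agent.Lib.Helper97.D8Loc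

open Cfsg Cfsg.Agent.Lib.Helper32.D8Stmt

universe u

/-- index type of the normal form -/
abbrev I : Type := Fin 3 × Fin 3 × Fin 2 × Fin 2 × Fin 2

/-- the product rule on indices -/
def mu (p q : I) : I :=
  if p.2.2.2.2 = 0 then
    (p.1 + (if p.2.2.1 = 0 then q.1 else 2 * q.1),
      p.2.1 + (if p.2.2.2.1 = 0 then q.2.1 else 2 * q.2.1),
      p.2.2.1 + q.2.2.1, p.2.2.2.1 + q.2.2.2.1, p.2.2.2.2 + q.2.2.2.2)
  else
    (p.1 + (if p.2.2.1 = 0 then q.2.1 else 2 * q.2.1),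
      p.2.1 + (if p.2.2.2.1 = 0 then q.1 else 2 * q.1),
      p.2.2.1 + q.2.2.2.1, p.2.2.2.1 + q.2.2.1, p.2.2.2.2 + q.2.2.2.2)

/-- the conjugacy class of `c` on indices -/
def clsI (c : I) : Finset I := Finset.univ.filter (fun v => ∃ n : I, mu v n = mu n c)

/-- signed count of the pairs of the two classes whose product lies in `C_G(x)` and has
`x`-exponent `t` (sign `(-1)^l` if `sg`) -/
def cnt (sg : Bool) (c d : I) (t : Fin 3) : ℤ :=
  ∑ p ∈ clsI c, ∑ q ∈ clsI d,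
    (if (mu p q).2.2.1 = 0 ∧ (mu p q).2.2.2.2 = 0 ∧ (mu p q).1 = t then
      (if sg = true ∧ (mu p q).2.2.2.1 = 1 then (-1 : ℤ) else 1) else 0)

/-- the value of the extended function at the index `r` -/
noncomputable def val (sg : Bool) (ζ : ℂ) (r : I) : ℂ :=
  if r.2.2.1 = 0 ∧ r.2.2.2.2 = 0 then
    ((if sg = true ∧ r.2.2.2.1 = 1 then (-1 : ℤ) else 1 : ℤ) : ℂ) * (1 - ζ ^ (r.1 : ℕ))
  else 0

theorem val_eq (sg : Bool) (ζ : ℂ) (r : I) :
    val sg ζ r = ∑ t : Fin 3,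
      ((if r.2.2.1 = 0 ∧ r.2.2.2.2 = 0 ∧ r.1 = t then
        (if sg = true ∧ r.2.2.2.1 = 1 then (-1 : ℤ) else 1) else 0 : ℤ) : ℂ) *
        (1 - ζ ^ (t : ℕ)) := by
  unfold val
  by_cases h : r.2.2.1 = 0 ∧ r.2.2.2.2 = 0
  · rw [if_pos h, Finset.sum_eq_single r.1]
    · rw [if_pos (show r.2.2.1 = 0 ∧ r.2.2.2.2 = 0 ∧ r.1 = r.1 from ⟨h.1, h.2, rfl⟩)]
    · intro t _ ht
      rw [if_neg (fun hh => ht hh.2.2.symm)]
      simp
    · intro hh
      exact absurd (Finset.mem_univ _) hh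
  · rw [if_neg h]
    symm
    apply Finset.sum_eq_zero
    intro t _
    rw [if_neg (fun hh => h ⟨hh.1, hh.2.1⟩)]
    simp

theorem regroup (sg : Bool) (c d : I) (ζ : ℂ) :
    ∑ p ∈ clsI c, ∑ q ∈ clsI d, val sg ζ (mu p q)
      = ∑ t : Fin 3, (cnt sg c d t : ℂ) * (1 - ζ ^ (t : ℕ)) := by
  unfold cnt
  simp only [Int.cast_sum, Finset.sum_mul]
  refine (Finset.sum_congr rfl (fun p _ => Finset.sum_congr rfl
    (fun q _ => val_eq sg ζ (mu p q)))).trans ?_
  refine (Finset.sum_congr rfl (fun p _ => Finset.sum_comm)).trans ?_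
  exact Finset.sum_comm

theorem aux3 (i i' : Fin 3) (k : Fin 2) :
    ((i : ℕ) + if (k : ℕ) % 2 = 0 then (i' : ℕ) else 2 * (i' : ℕ)) % 3
      = ((i + if k = 0 then i' else 2 * i' : Fin 3) : ℕ) % 3 := by
  revert i i' k
  decide

theorem aux2 (k k' : Fin 2) : ((k : ℕ) + (k' : ℕ)) % 2 = ((k + k' : Fin 2) : ℕ) % 2 := by
  revert k k'
  decide

section grp
variable {G : Type u} [Group G]

/-- the normal form element -/
def E (x y a b w : G) (p : I) : G :=
  x ^ (p.1 : ℕ) * y ^ (p.2.1 : ℕ) * a ^ (p.2.2.1 : ℕ) * b ^ (p.2.2.2.1 : ℕ) *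
    w ^ (p.2.2.2.2 : ℕ)

theorem E_congr {x y a b w : G} (hx : x ^ 3 = 1) (hy : y ^ 3 = 1) (ha : a ^ 2 = 1)
    (hb : b ^ 2 = 1) (hw : w ^ 2 = 1) {i j k l m i' j' k' l' m' : ℕ}
    (h1 : i % 3 = i' % 3) (h2 : j % 3 = j' % 3) (h3 : k % 2 = k' % 2) (h4 : l % 2 = l' % 2)
    (h5 : m % 2 = m' % 2) :
    x ^ i * y ^ j * a ^ k * b ^ l * w ^ m = x ^ i' * y ^ j' * a ^ k' * b ^ l' * w ^ m' := by
  rw [pow_eq_pow_mod i hx, pow_eq_pow_mod i' hx, pow_eq_pow_mod j hy, pow_eq_pow_mod j' hy,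
    pow_eq_pow_mod k ha, pow_eq_pow_mod k' ha, pow_eq_pow_mod l hb, pow_eq_pow_mod l' hb,
    pow_eq_pow_mod m hw, pow_eq_pow_mod m' hw, h1, h2, h3, h4, h5]

end grp

section transport
variable {G : Type u} [Group G] [Fintype G] {T N : Subgroup G} {x y a b w : G}

/-- every `LocP` statement follows from the values of the integer counts `cnt` -/
theorem locp_of_cnt (hNF : NF.{u}) (h : Cfg T N x y a b w)
    (f g : Subgroup.centralizer ({x} : Set G) →* ℂˣ) (om : Om2 x y b f g) (c d : I) (n n' : ℤ)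
    (h1 : cnt false c d 1 = n) (h2 : cnt false c d 2 = n)
    (h1' : cnt true c d 1 = n') (h2' : cnt true c d 2 = n') :
    LocP N x f g (E x y a b w c) (E x y a b w d) (3 * n) (3 * n') := by
  classical
  obtain ⟨nf1, nf2, nf3, nf4, nf5, nf6, nf7⟩ := hNF h
  have hx3 := h.x3
  have hy3 := h.y3
  have ha2 := h.a2
  have hb2 := h.b2
  have hw2 := h.w2
  have hEmul : ∀ p q : I, E x y a b w p * E x y a b w q = E x y a b w (mu p q) := by
    rintro ⟨i, j, k, l, m⟩ ⟨i', j', k', l', m'⟩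
    unfold E
    rw [nf4]
    dsimp only
    by_cases hm : m = 0
    · have hm' : ((m : Fin 2) : ℕ) % 2 = 0 := by rw [hm]; rfl
      have hmu : mu (i, j, k, l, m) (i', j', k', l', m') =
          (i + (if k = 0 then i' else 2 * i'), j + (if l = 0 then j' else 2 * j'), k + k',
            l + l', m + m') := by
        unfold mu
        rw [if_pos hm]
      rw [if_pos hm', hmu]
      exact E_congr hx3 hy3 ha2 hb2 hw2 (aux3 i i' k) (aux3 j j' l) (aux2 k k') (aux2 l l')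
        (aux2 m m')
    · have hm' : ¬ ((m : Fin 2) : ℕ) % 2 = 0 := by
        intro h0
        apply hm
        apply Fin.ext
        have := m.isLt
        simp only [Fin.val_zero]
        omega
      have hmu : mu (i, j, k, l, m) (i', j', k', l', m') =
          (i + (if k = 0 then j' else 2 * j'), j + (if l = 0 then i' else 2 * i'), k + l',
            l + k', m + m') := by
        unfold mu
        rw [if_neg hm]
      rw [if_neg hm', hmu]
      exact E_congr hx3 hy3 ha2 hb2 hw2 (aux3 i j' k) (aux3 j i' l) (aux2 k l') (aux2 l k')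
        (aux2 m m')
  have hEinj : Function.Injective (E x y a b w) := by
    rintro ⟨i, j, k, l, m⟩ ⟨i', j', k', l', m'⟩ hpq
    have hpq' : x ^ (i : ℕ) * y ^ (j : ℕ) * a ^ (k : ℕ) * b ^ (l : ℕ) * w ^ (m : ℕ)
        = x ^ (i' : ℕ) * y ^ (j' : ℕ) * a ^ (k' : ℕ) * b ^ (l' : ℕ) * w ^ (m' : ℕ) := hpq
    obtain ⟨e1, e2, e3, e4, e5⟩ := nf3 _ _ _ _ _ _ _ _ _ _ hpq'
    have := i.isLt
    have := i'.isLt
    have := j.isLt
    have := j'.isLt
    have := k.isLt
    have := k'.isLt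
    have := l.isLt
    have := l'.isLt
    have := m.isLt
    have := m'.isLt
    simp only [Prod.mk.injEq, Fin.ext_iff]
    omega
  have hEN : ∀ p : I, E x y a b w p ∈ N := fun p => (nf2 _).2 ⟨_, _, _, _, _, rfl⟩
  have hexE : ∀ v ∈ N, ∃ p : I, v = E x y a b w p := by
    intro v hv
    obtain ⟨i, j, k, l, m, rfl⟩ := (nf2 v).1 hv
    refine ⟨(⟨i % 3, Nat.mod_lt _ (by norm_num)⟩, ⟨j % 3, Nat.mod_lt _ (by norm_num)⟩,
      ⟨k % 2, Nat.mod_lt _ (by norm_num)⟩, ⟨l % 2, Nat.mod_lt _ (by norm_num)⟩,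
      ⟨m % 2, Nat.mod_lt _ (by norm_num)⟩), ?_⟩
    exact E_congr hx3 hy3 ha2 hb2 hw2 (Nat.mod_mod _ _).symm (Nat.mod_mod _ _).symm
      (Nat.mod_mod _ _).symm (Nat.mod_mod _ _).symm (Nat.mod_mod _ _).symm
  have hncl : ∀ c0 : I, ncl N (E x y a b w c0) = Finset.image (E x y a b w) (clsI c0) := by
    intro c0
    ext v
    unfold ncl clsI
    simp only [Finset.mem_filter, Finset.mem_univ, true_and, Finset.mem_image]
    constructor
    · rintro ⟨n, hn, hv⟩
      obtain ⟨q, rfl⟩ := hexE n hn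
      have hvN : v ∈ N := by
        rw [hv]
        exact N.mul_mem (N.mul_mem hn (hEN c0)) (N.inv_mem hn)
      obtain ⟨p, rfl⟩ := hexE v hvN
      refine ⟨p, ⟨q, ?_⟩, rfl⟩
      apply hEinj
      rw [← hEmul, ← hEmul, hv]
      group
    · rintro ⟨p, ⟨q, hq⟩, rfl⟩
      refine ⟨E x y a b w q, hEN q, ?_⟩
      apply eq_mul_inv_of_mul_eq
      rw [hEmul, hEmul, hq]
  have hC : ∀ p : I, E x y a b w p ∈ Subgroup.centralizer ({x} : Set G) ↔
      p.2.2.1 = 0 ∧ p.2.2.2.2 = 0 := by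
    rintro ⟨i, j, k, l, m⟩
    dsimp only
    constructor
    · intro hp
      obtain ⟨i', j', l', he⟩ := (nf5 _).1 hp
      have he' : x ^ (i : ℕ) * y ^ (j : ℕ) * a ^ (k : ℕ) * b ^ (l : ℕ) * w ^ (m : ℕ)
          = x ^ i' * y ^ j' * a ^ 0 * b ^ l' * w ^ 0 := by
        rw [pow_zero, pow_zero, mul_one, mul_one]
        exact he
      obtain ⟨-, -, e3, -, e5⟩ := nf3 _ _ _ _ _ _ _ _ _ _ he'
      have := k.isLt
      have := m.isLt
      constructor
      · apply Fin.ext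
        simp only [Fin.val_zero]
        omega
      · apply Fin.ext
        simp only [Fin.val_zero]
        omega
    · rintro ⟨hk, hm⟩
      apply (nf5 _).2
      refine ⟨i, j, l, ?_⟩
      subst hk
      subst hm
      simp [E]
  have hxC : x ∈ Subgroup.centralizer ({x} : Set G) := by
    rw [Subgroup.mem_centralizer_iff]
    intro z hz
    rw [Set.mem_singleton_iff.1 hz]
  obtain ⟨ζ, hζ⟩ : ∃ ζ : ℂ, ζ = ((f ⟨x, hxC⟩ : ℂˣ) : ℂ) := ⟨_, rfl⟩
  have hζ3 : ζ ^ 3 = 1 := by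
    rw [hζ, ← Units.val_pow_eq_pow_val, ← map_pow]
    have h3 : (⟨x, hxC⟩ : Subgroup.centralizer ({x} : Set G)) ^ 3 = 1 := by
      apply Subtype.ext
      rw [Subgroup.coe_pow]
      exact hx3
    rw [h3, map_one, Units.val_one]
  have hζ1 : ζ ≠ 1 := by
    rw [hζ]
    intro h1
    exact om.fx hxC (Units.val_eq_one.1 h1)
  have hζs : 1 + ζ + ζ ^ 2 = 0 := by
    have h3 : (ζ - 1) * (1 + ζ + ζ ^ 2) = 0 := by linear_combination hζ3
    rcases mul_eq_zero.1 h3 with h | h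
    · exact absurd (sub_eq_zero.1 h) hζ1
    · exact h
  have hvals : ∀ p : I, p.2.2.1 = 0 ∧ p.2.2.2.2 = 0 →
      ∀ hmem : E x y a b w p ∈ Subgroup.centralizer ({x} : Set G),
      ((f ⟨E x y a b w p, hmem⟩ : ℂˣ) : ℂ) = ζ ^ (p.1 : ℕ) ∧
      ((g ⟨E x y a b w p, hmem⟩ : ℂˣ) : ℂ) = (-1) ^ (p.2.2.2.1 : ℕ) := by
    rintro ⟨i, j, k, l, m⟩ ⟨hk, hm⟩ hmem
    dsimp only at hk hm
    subst hk
    subst hm
    have he : E x y a b w (i, j, 0, l, 0) = x ^ (i : ℕ) * y ^ (j : ℕ) * b ^ (l : ℕ) := by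
      simp [E]
    have hmem' : x ^ (i : ℕ) * y ^ (j : ℕ) * b ^ (l : ℕ) ∈
        Subgroup.centralizer ({x} : Set G) := he ▸ hmem
    have hsub : (⟨E x y a b w (i, j, 0, l, 0), hmem⟩ : Subgroup.centralizer ({x} : Set G))
        = ⟨x ^ (i : ℕ) * y ^ (j : ℕ) * b ^ (l : ℕ), hmem'⟩ := Subtype.ext he
    obtain ⟨hf, hg⟩ := nf6 f g om i j l hmem' hxC
    rw [hsub, hf, hg, Units.val_pow_eq_pow_val, ← hζ]
    exact ⟨rfl, rfl⟩
  have hv1 : ∀ p : I, extendByZero (Subgroup.centralizer ({x} : Set G)) (ph1 x f)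
      (E x y a b w p) = val false ζ p := by
    intro p
    unfold val
    by_cases hp : p.2.2.1 = 0 ∧ p.2.2.2.2 = 0
    · have hmem := (hC p).2 hp
      rw [if_pos hp]
      have h3 : extendByZero (Subgroup.centralizer ({x} : Set G)) (ph1 x f) (E x y a b w p)
          = ph1 x f ⟨E x y a b w p, hmem⟩ :=
        Subtype.val_injective.extend_apply (ph1 x f) 0 ⟨E x y a b w p, hmem⟩
      rw [h3]
      unfold ph1
      rw [(hvals p hp hmem).1]
      simp
    · rw [if_neg hp]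
      apply Function.extend_apply'
      rintro ⟨⟨z, hz⟩, hz'⟩
      exact hp ((hC p).1 (hz' ▸ hz))
  have hv2 : ∀ p : I, extendByZero (Subgroup.centralizer ({x} : Set G)) (ph2 x f g)
      (E x y a b w p) = val true ζ p := by
    intro p
    unfold val
    by_cases hp : p.2.2.1 = 0 ∧ p.2.2.2.2 = 0
    · have hmem := (hC p).2 hp
      rw [if_pos hp]
      have h3 : extendByZero (Subgroup.centralizer ({x} : Set G)) (ph2 x f g) (E x y a b w p)
          = ph2 x f g ⟨E x y a b w p, hmem⟩ :=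
        Subtype.val_injective.extend_apply (ph2 x f g) 0 ⟨E x y a b w p, hmem⟩
      rw [h3]
      unfold ph2
      rw [(hvals p hp hmem).1, (hvals p hp hmem).2]
      obtain ⟨i, j, k, l, m⟩ := p
      dsimp only
      fin_cases l
      · simp
      · simp
        ring
    · rw [if_neg hp]
      apply Function.extend_apply'
      rintro ⟨⟨z, hz⟩, hz'⟩
      exact hp ((hC p).1 (hz' ▸ hz))
  have hls : ∀ (sg : Bool) (φ : Subgroup.centralizer ({x} : Set G) → ℂ),
      (∀ p : I, extendByZero (Subgroup.centralizer ({x} : Set G)) φ (E x y a b w p)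
        = val sg ζ p) →
      lsum N (Subgroup.centralizer ({x} : Set G)) φ (E x y a b w c) (E x y a b w d)
        = ∑ t : Fin 3, (cnt sg c d t : ℂ) * (1 - ζ ^ (t : ℕ)) := by
    intro sg φ hφ
    unfold lsum
    rw [hncl c, hncl d, Finset.sum_image (fun p _ q _ hpq => hEinj hpq), ← regroup]
    apply Finset.sum_congr rfl
    intro p _
    rw [Finset.sum_image (fun p _ q _ hpq => hEinj hpq)]
    apply Finset.sum_congr rfl
    intro q _
    rw [hEmul, hφ]
  constructor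
  · rw [hls false _ hv1, Fin.sum_univ_three, h1, h2]
    simp only [Fin.val_zero, Fin.val_one, Fin.val_two, pow_zero, pow_one]
    linear_combination (-(n : ℂ)) * hζs
  · rw [hls true _ hv2, Fin.sum_univ_three, h1', h2']
    simp only [Fin.val_zero, Fin.val_one, Fin.val_two, pow_zero, pow_one]
    linear_combination (-(n' : ℂ)) * hζs

end transport

end Cfsg.Agent.Lib.Helper97.D8Loc
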