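import Mathlib
import Cfsg.Agent.Lib.Helper32.D8Stmt
import Cfsg.Agent.Lib.Helper97.D8Loc

/-!
# S3716 / LOCzz (call by helper32): local pair sum, through `D8Loc.locp_of_cnt`
-/

set_option autoImplicit false

namespace Cfsg.Agent.Lib.Helper97.D8LOCzz

open Cfsg Cfsg.Agent.Lib.Helper32.D8Stmt Cfsg.Agent.Lib.Helper97.D8Loc

universe u

set_option maxRecDepth 100000 in
theorem c1 : cnt false (0, 0, 1, 1, 0) (0, 0, 1, 1, 0) 1 = 27 := by decide +kernel

set_option maxRecDepth 100000 in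
theorem c2 : cnt false (0, 0, 1, 1, 0) (0, 0, 1, 1, 0) 2 = 27 := by decide +kernel

set_option maxRecDepth 100000 in
theorem c1' : cnt true (0, 0, 1, 1, 0) (0, 0, 1, 1, 0) 1 = 27 := by decide +kernel

set_option maxRecDepth 100000 in
theorem c2' : cnt true (0, 0, 1, 1, 0) (0, 0, 1, 1, 0) 2 = 27 := by decide +kernel

theorem main (hNF : NF.{u}) : LOCzz.{u} := by
  intro G _ _ T N x y a b w h f g om
  have key := locp_of_cnt hNF h f g om (0, 0, 1, 1, 0) (0, 0, 1, 1, 0) 27 27 c1 c2 c1' c2'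
  have e1 : E x y a b w (0, 0, 1, 1, 0) = a * b := by simp [E]
  have e2 : E x y a b w (0, 0, 1, 1, 0) = a * b := by simp [E]
  rw [e1] at key
  norm_num at key
  exact key

end Cfsg.Agent.Lib.Helper97.D8LOCzz
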