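import Mathlib
import Cfsg.Agent.Lib.Helper44.MFldStmt
import Cfsg.Agent.Lib.Helper44.OTyp3
import Cfsg.Agent.Lib.Helper45.MinusInndiag

/-!
# S2737 piece MB (helper97): basics of the minus form
`minusInv`, `sepMinus`, `isoMinus`, `inndiagLeRange`; also `sep_of_disc` (any field) and
`disc_ne_all` (finite field, any characteristic).
-/

set_option autoImplicit false

namespace Cfsg.Agent.Lib.Helper97.MFldMB

open Matrix Module QuadraticMap
open Cfsg.Agent.Lib.Helper45.OmegaAut Cfsg.Agent.Lib.Helper43.H90Fin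
open Cfsg.Agent.Lib.Helper44.MFld0 Cfsg.Agent.Lib.Helper44.MaxTS
  Cfsg.Agent.Lib.Helper44.NegPairs Cfsg.Agent.Lib.Helper44.QSpace
  Cfsg.Agent.Lib.Helper44.QClass Cfsg.Agent.Lib.Helper44.OMat
open Cfsg.Agent.Lib.Helper44.MFldStmt

universe u

theorem minusInv : MinusInv.{u} := by
  intro F _ m a b σ ha hb v
  unfold Cfsg.quadFormMinus
  simp only [map_add, map_sum, map_mul, map_pow, ha, hb]

/-- nondegeneracy of the minus-type form from the discriminant, in any characteristic -/
theorem sep_of_disc {K : Type*} [Field K] (m : ℕ) (a b : K) (hD : a ^ 2 - 4 * b ≠ 0) :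
    Sep (minusQ m K a b) := by
  apply sep_of_H1 (minusQ m K a b) Sum.inl (minus_H1 m a b)
  intro x hx k hk
  have h0 := hx (Pi.single (Sum.inr 0) 1)
  have h1 := hx (Pi.single (Sum.inr 1) 1)
  have e0 : polar (minusQ m K a b) x (Pi.single (Sum.inr 0) 1)
      = 2 * x (Sum.inr 0) + a * x (Sum.inr 1) := by
    show polar (Cfsg.quadFormMinus m K a b) x (Pi.single (Sum.inr 0) 1) = _
    unfold polar Cfsg.quadFormMinus
    simp
    ring
  have e1 : polar (minusQ m K a b) x (Pi.single (Sum.inr 1) 1)
      = a * x (Sum.inr 0) + 2 * b * x (Sum.inr 1) := by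
    show polar (Cfsg.quadFormMinus m K a b) x (Pi.single (Sum.inr 1) 1) = _
    unfold polar Cfsg.quadFormMinus
    simp
    ring
  rw [e0] at h0
  rw [e1] at h1
  have hx1 : x (Sum.inr 1) = 0 := by
    have : (a ^ 2 - 4 * b) * x (Sum.inr 1) = 0 := by linear_combination a * h0 - 2 * h1
    exact (mul_eq_zero.mp this).resolve_left hD
  have hx0 : x (Sum.inr 0) = 0 := by
    have : (a ^ 2 - 4 * b) * x (Sum.inr 0) = 0 := by linear_combination a * h1 - 2 * b * h0
    exact (mul_eq_zero.mp this).resolve_left hD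
  rcases k with c | t
  · exact absurd ⟨c, rfl⟩ hk
  · fin_cases t
    · exact hx0
    · exact hx1

/-- the discriminant of an anisotropic binary form over a finite field is nonzero -/
theorem disc_ne_all {F : Type u} [Field F] [Fintype F] {a b : F} (hab : Aniso a b) :
    a ^ 2 - 4 * b ≠ 0 := by
  by_cases h2 : (2 : F) = 0
  · have h4 : (4 : F) = 0 := by
      have : (4 : F) = 2 * 2 := by norm_num
      rw [this, h2, mul_zero]
    rw [h4, zero_mul, sub_zero]
    intro ha
    have ha0 : a = 0 := by simpa using ha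
    have : CharP F 2 := CharTwo.of_one_ne_zero_of_two_eq_zero one_ne_zero h2
    obtain ⟨c, hc⟩ := FiniteField.isSquare_of_char_two (ringChar.eq F 2) b
    have := (hab c 1 (by rw [ha0, hc]; linear_combination c ^ 2 * h2)).2
    exact one_ne_zero this
  · exact Cfsg.Agent.Lib.Helper45.MinusInndiag.disc_ne h2 hab

theorem sepMinus : SepMinus.{u} := by
  intro F _ _ m a b hab
  exact sep_of_disc m a b (disc_ne_all hab)

theorem isoMinus : IsoMinus.{u} := by
  intro F _ _ m a b a' b' hab hab'
  classical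
  have hS := sepMinus F m a b hab
  have hS' := sepMinus F m a' b' hab'
  have hfr : finrank F (MI m → F) = 2 * (m + 1) := by
    rw [Module.finrank_fintype_fun_eq_card]
    simp only [Fintype.card_sum, Fintype.card_fin]
    ring
  have hc : Nat.card {v : MI m → F // minusQ m F a b v = 0} =
      Nat.card {v : MI m → F // minusQ m F a' b' v = 0} := by
    have h1 := Cfsg.Agent.Lib.Helper44.OTyp3.sing_minus m a b hab
    have h2 := Cfsg.Agent.Lib.Helper44.OTyp3.sing_minus m a' b' hab'
    have hq : 0 < Fintype.card F := Fintype.card_pos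
    exact Nat.eq_of_mul_eq_mul_right hq (h1.trans h2.symm)
  obtain ⟨j, hj⟩ := Cfsg.Agent.Lib.Helper44.OTyp1.exists_iso (minusQ m F a b) (minusQ m F a' b')
    hS hS' hfr hfr hc
  have hpol : ∀ x y, polar (minusQ m F a' b') (j x) (j y) = polar (minusQ m F a b) x y := by
    intro x y
    unfold polar
    rw [← map_add, hj, hj, hj]
  have hinj : Function.Injective j := by
    rw [injective_iff_map_eq_zero]
    intro v hv
    apply hS
    intro y
    rw [← hpol, hv, polar_zero_left]
  refine ⟨glEquiv.symm (LinearEquiv.ofInjectiveEndo j hinj), fun v => ?_⟩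
  rw [glEquiv_symm_mulVec]
  exact hj v

theorem inndiagLeRange : InndiagLeRange.{u} := by
  intro F _ m a b
  unfold Cfsg.inndiagPOmegaMinus Cfsg.autSubgroupOf
  rw [Subgroup.closure_le]
  rintro β ⟨g, hg, -, hind⟩
  exact ⟨⟨g, hg⟩, ((induced_iff (Cfsg.quadFormMinus m F a b) g hg β).1 hind).symm⟩

end Cfsg.Agent.Lib.Helper97.MFldMB
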