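import Mathlib
import Cfsg.Agent.Lib.Helper43.SPStmt

/-!
# S2720 (SPIN), piece MINSUB

A nonsingular vector `w` whose cyclic submodule `cyc s w` has minimal dimension: the submodule
is generated by each of its nonsingular vectors, and it is nondegenerate (its radical has an
`s`-stable complement, as `s` is semisimple, and the component of `w` in the complement is a
nonsingular vector of `cyc s w`).
-/

set_option autoImplicit false

namespace Cfsg.Agent.Lib.Helper97.SPMINSUB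

open Module QuadraticMap Polynomial
open Cfsg.Agent.Lib.Helper44.QSpace Cfsg.Agent.Lib.Helper44.OGroup
open Cfsg.Agent.Lib.Helper43.SPStmt

universe u

variable {F : Type u} [Field F] {V : Type u} [AddCommGroup V] [Module F V]

theorem coe_pow_apply (s : V ≃ₗ[F] V) (n : ℕ) (x : V) :
    ((s : V →ₗ[F] V) ^ n) x = (s ^ n) x := by
  induction n generalizing x with
  | zero => rfl
  | succ n ih =>
    rw [pow_succ, pow_succ, Module.End.mul_apply, LinearEquiv.mul_apply, ih]
    rfl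

theorem mem_cyc_self (s : V ≃ₗ[F] V) (w : V) : w ∈ cyc s w :=
  Submodule.subset_span ⟨0, rfl⟩

/-- a submodule stable under `s` is stable under the powers of `s` -/
theorem pow_mem_of_stable (s : V ≃ₗ[F] V) (C : Submodule F V) (hC : ∀ x ∈ C, s x ∈ C) (n : ℕ) :
    ∀ x ∈ C, (s ^ n) x ∈ C := by
  induction n with
  | zero => intro x hx; exact hx
  | succ n ih =>
    intro x hx
    rw [pow_succ, LinearEquiv.mul_apply]
    exact ih _ (hC x hx)

theorem cyc_stable (s : V ≃ₗ[F] V) (w : V) : ∀ x ∈ cyc s w, s x ∈ cyc s w := by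
  intro x hx
  have hle : cyc s w ≤ (cyc s w).comap (s : V →ₗ[F] V) := by
    unfold cyc
    rw [Submodule.span_le]
    rintro _ ⟨i, rfl⟩
    show s ((s ^ i) w) ∈ Submodule.span F (Set.range fun i : ℕ => (s ^ i) w)
    refine Submodule.subset_span ⟨i + 1, ?_⟩
    show (s ^ (i + 1)) w = s ((s ^ i) w)
    rw [pow_succ', LinearEquiv.mul_apply]
  exact hle hx

theorem cyc_le (s : V ≃ₗ[F] V) (w : V) (C : Submodule F V) (hC : ∀ x ∈ C, s x ∈ C)
    (hw : w ∈ C) : cyc s w ≤ C := by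
  unfold cyc
  rw [Submodule.span_le]
  rintro _ ⟨i, rfl⟩
  exact pow_mem_of_stable s C hC i w hw

theorem main : MinSub.{u} := by
  intro F _ V _ _ _ Q h2 hS s r hsO hrF hsr hV
  classical
  have hnt : Nontrivial V := by
    obtain ⟨v, hv⟩ := hV
    exact ⟨⟨v, 0, hv⟩⟩
  obtain ⟨v₀, hv₀⟩ := exists_ne_zero hS
  -- a nonsingular vector with cyclic submodule of minimal dimension
  have hex : ∃ n : ℕ, ∃ w : V, Q w ≠ 0 ∧ finrank F (cyc s w) = n := ⟨_, v₀, hv₀, rfl⟩
  obtain ⟨w, hw, hwn⟩ := Nat.find_spec hex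
  have hmin : ∀ w' : V, Q w' ≠ 0 → finrank F (cyc s w) ≤ finrank F (cyc s w') := by
    intro w' hw'
    rw [hwn]
    exact Nat.find_min' hex ⟨w', hw', rfl⟩
  have hA : ∀ w' ∈ cyc s w, Q w' ≠ 0 → cyc s w ≤ cyc s w' := by
    intro w' hw'mem hw'
    have hle : cyc s w' ≤ cyc s w := cyc_le s w' _ (cyc_stable s w) hw'mem
    exact (Submodule.eq_of_le_of_finrank_le hle (hmin w' hw')).ge
  refine ⟨w, hw, ?_, hA⟩
  -- `s` is semisimple
  have hpow : (s : V →ₗ[F] V) ^ r = 1 := by
    ext x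
    rw [coe_pow_apply, hsr]
    rfl
  have hss : Module.End.IsSemisimple (s : V →ₗ[F] V) := by
    apply Module.End.isSemisimple_of_squarefree_aeval_eq_zero (p := X ^ r - C (1 : F))
    · exact (Polynomial.separable_X_pow_sub_C (1 : F) hrF one_ne_zero).squarefree
    · rw [map_sub, map_pow, aeval_X, aeval_C, map_one, hpow, sub_self]
  -- the inverse of `s` is a power of `s`
  have hr0 : r ≠ 0 := by
    rintro rfl
    exact hrF Nat.cast_zero
  have hinv : ∀ x : V, (s ^ (r - 1)) (s x) = x := by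
    intro x
    have h1 : (s ^ (r - 1) * s) x = x := by
      rw [← pow_succ, Nat.sub_add_cancel (Nat.one_le_iff_ne_zero.2 hr0), hsr]
      rfl
    exact h1
  have hinv' : ∀ x : V, s ((s ^ (r - 1)) x) = x := by
    intro x
    have h1 : (s * s ^ (r - 1)) x = x := by
      rw [← pow_succ', Nat.sub_add_cancel (Nat.one_le_iff_ne_zero.2 hr0), hsr]
      rfl
    exact h1
  -- the radical of `cyc s w`
  obtain ⟨rad, hrad⟩ : ∃ rad : Submodule F V,
      ∀ x, x ∈ rad ↔ x ∈ cyc s w ∧ ∀ y ∈ cyc s w, polar Q x y = 0 := by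
    refine ⟨{ carrier := {x | x ∈ cyc s w ∧ ∀ y ∈ cyc s w, polar Q x y = 0}
              add_mem' := ?_
              zero_mem' := ?_
              smul_mem' := ?_ }, fun x => Iff.rfl⟩
    · rintro a b ⟨ha, ha'⟩ ⟨hb, hb'⟩
      refine ⟨Submodule.add_mem _ ha hb, fun y hy => ?_⟩
      rw [polar_add_left, ha' y hy, hb' y hy, add_zero]
    · refine ⟨Submodule.zero_mem _, fun y _ => ?_⟩
      have h := polar_smul_l Q 0 0 y
      rw [zero_smul, zero_mul] at h
      exact h
    · rintro c a ⟨ha, ha'⟩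
      refine ⟨Submodule.smul_mem _ c ha, fun y hy => ?_⟩
      rw [polar_smul_l, ha' y hy, mul_zero]
  have hrad_st : rad ∈ Module.End.invtSubmodule (s : V →ₗ[F] V) := by
    rw [Module.End.mem_invtSubmodule_iff_forall_mem_of_mem]
    intro x hx
    obtain ⟨hx1, hx2⟩ := (hrad x).1 hx
    show s x ∈ rad
    refine (hrad _).2 ⟨cyc_stable s w x hx1, fun y hy => ?_⟩
    have hy' : (s ^ (r - 1)) y ∈ cyc s w := pow_mem_of_stable s _ (cyc_stable s w) (r - 1) y hy
    have h1 := polar_of_mem_O hsO x ((s ^ (r - 1)) y)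
    rw [hinv' y] at h1
    rw [h1]
    exact hx2 _ hy'
  obtain ⟨Cc, hCc, hcompl⟩ := (Module.End.isSemisimple_iff.1 hss) rad hrad_st
  have hCst : ∀ x ∈ Cc, s x ∈ Cc := fun x hx => hCc hx
  -- decompose `w`
  have hwsup : w ∈ rad ⊔ Cc := by
    rw [hcompl.sup_eq_top]
    exact Submodule.mem_top
  obtain ⟨w₁, hw₁, w₂, hw₂, hsum⟩ := Submodule.mem_sup.1 hwsup
  obtain ⟨hw₁c, hw₁r⟩ := (hrad w₁).1 hw₁
  have hw₂c : w₂ ∈ cyc s w := by
    have : w₂ = w - w₁ := by rw [← hsum]; abel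
    rw [this]
    exact Submodule.sub_mem _ (mem_cyc_self s w) hw₁c
  have hQw₁ : Q w₁ = 0 := by
    have h := hw₁r w₁ hw₁c
    rw [polar_self'] at h
    exact (mul_eq_zero.1 h).resolve_left h2
  have hQw₂ : Q w₂ ≠ 0 := by
    have h := q_add Q w₁ w₂
    rw [hsum, hQw₁, hw₁r w₂ hw₂c, zero_add, add_zero] at h
    rw [← h]
    exact hw
  have hle : cyc s w ≤ Cc := (hA w₂ hw₂c hQw₂).trans (cyc_le s w₂ Cc hCst hw₂)
  -- nondegeneracy
  intro x hx
  have hxr : (x : V) ∈ rad := by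
    refine (hrad _).2 ⟨x.2, fun y hy => ?_⟩
    exact hx ⟨y, hy⟩
  have hx0 : (x : V) = 0 := by
    have h := Submodule.disjoint_def.1 hcompl.disjoint (x : V) hxr (hle x.2)
    exact h
  exact Subtype.ext hx0

end Cfsg.Agent.Lib.Helper97.SPMINSUB
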