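import Mathlib
import Cfsg.Agent.Lib.Helper44.MCentStmt
import Cfsg.Agent.Lib.Helper45.MinusInndiag

/-!
# S2716 piece CO (helper97): `Inndiag` corresponds under base change, odd characteristic
-/

set_option autoImplicit false

namespace Cfsg.Agent.Lib.Helper97.MCentCO

open Matrix Module QuadraticMap
open Cfsg.Agent.Lib.Helper45.OmegaAut Cfsg.Agent.Lib.Helper43.H90Fin
open Cfsg.Agent.Lib.Helper44.MFld0 Cfsg.Agent.Lib.Helper44.MaxTS
  Cfsg.Agent.Lib.Helper44.NegPairs Cfsg.Agent.Lib.Helper44.QSpace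
  Cfsg.Agent.Lib.Helper44.QClass Cfsg.Agent.Lib.Helper44.MFldStmt
  Cfsg.Agent.Lib.Helper44.MCentStmt Cfsg.Agent.Lib.Helper44.OMat
  Cfsg.Agent.Lib.Helper45.MinusInndiag Cfsg.Agent.Lib.Helper45.PlusInndiag
  Cfsg.Agent.Lib.Helper45.OmegaAutPsi Cfsg.Agent.Lib.Helper45.OmegaAutMain
  Cfsg.Agent.Lib.Helper45.OmegaInndiag

universe u v

theorem mem_D0_iff {F : Type u} [Field F] [Fintype F] (h2 : (2 : F) ≠ 0) (m : ℕ) (hm : 3 ≤ m)
    {a b : F} (hab : Aniso a b) {v₀ : MI m → F} (hv₀ : minusQ m F a b v₀ ≠ 0)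
    (g : ↥(Cfsg.Geo.quadSimilarityGroup (F := F) ⇑(minusQ m F a b))) :
    Phi ⇑(minusQ m F a b) g ∈ D0 (minusQ m F a b) hv₀ (m + 1) ↔
      dl (minusQ m F a b) hv₀ (m + 1) g = 1 := by
  have hS := sep_minusQ h2 m a b hab
  have hcard : Fintype.card (MI m) = 2 * (m + 1) := by
    simp only [Fintype.card_sum, Fintype.card_fin]
    ring
  constructor
  · rintro ⟨g', hg', heq⟩
    have hker : g'⁻¹ * g ∈ (Phi ⇑(minusQ m F a b)).ker := by
      rw [MonoidHom.mem_ker, map_mul, map_inv, heq, inv_mul_cancel]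
    have h1 := ker_le_G0 (minusQ m F a b) h2 hS hv₀ hcard (by rw [hcard]; omega) hker
    have h3 : g = g' * (g'⁻¹ * g) := by group
    rw [← mem_G0, h3]
    exact Subgroup.mul_mem _ hg' h1
  · intro h
    exact ⟨g, (mem_G0 _ hv₀ _ g).2 h, rfl⟩

theorem main : CompatOdd.{u, v} := by
  intro F₀ _ _ F _ _ j m hm a₀ b₀ hab₀ hab h2 g₀ g hmat
  have h2₀ : (2 : F₀) ≠ 0 := by
    intro h
    apply h2
    have h' := congrArg j h
    rw [map_ofNat, map_zero] at h'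
    exact h'
  obtain ⟨v₀, hv₀def⟩ : ∃ v₀ : MI m → F₀, v₀ = Pi.single (Sum.inr 0) 1 := ⟨_, rfl⟩
  have hQ₀ : minusQ m F₀ a₀ b₀ v₀ = 1 := by
    show Cfsg.quadFormMinus m F₀ a₀ b₀ v₀ = 1
    rw [hv₀def]
    unfold Cfsg.quadFormMinus
    simp
  have hv₀ : minusQ m F₀ a₀ b₀ v₀ ≠ 0 := by rw [hQ₀]; exact one_ne_zero
  have hQ : minusQ m F (j a₀) (j b₀) (j ∘ v₀) = 1 := by rw [minus_map, hQ₀, map_one]
  have hv : minusQ m F (j a₀) (j b₀) (j ∘ v₀) ≠ 0 := by rw [hQ]; exact one_ne_zero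
  have e1 : Phi (Cfsg.quadFormMinus m F₀ a₀ b₀) g₀ ∈ Cfsg.inndiagPOmegaMinus m F₀ a₀ b₀ ↔
      dl (minusQ m F₀ a₀ b₀) hv₀ (m + 1) g₀ = 1 := by
    rw [inndiag_minus_eq h2₀ m hab₀ hv₀]
    exact mem_D0_iff h2₀ m hm hab₀ hv₀ g₀
  have e2 : Phi (Cfsg.quadFormMinus m F (j a₀) (j b₀)) g ∈
      Cfsg.inndiagPOmegaMinus m F (j a₀) (j b₀) ↔
      dl (minusQ m F (j a₀) (j b₀)) hv (m + 1) g = 1 := by
    rw [inndiag_minus_eq h2 m hab hv]
    exact mem_D0_iff h2 m hm hab hv g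
  have d1 := dl_eq_one_iff (minusQ m F₀ a₀ b₀) hv₀ (m + 1) g₀
  have d2 := dl_eq_one_iff (minusQ m F (j a₀) (j b₀)) hv (m + 1) g
  have hμ : (mu (minusQ m F (j a₀) (j b₀)) g : F) = j (mu (minusQ m F₀ a₀ b₀) g₀ : F₀) := by
    have h1 := mu_spec (minusQ m F (j a₀) (j b₀)) g (j ∘ v₀)
    have h3 : ((g : GL (MI m) F) : Matrix (MI m) (MI m) F) *ᵥ (j ∘ v₀) =
        j ∘ (((g₀ : GL (MI m) F₀) : Matrix (MI m) (MI m) F₀) *ᵥ v₀) := by
      rw [hmat]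
      funext i
      exact (RingHom.map_mulVec j ((g₀ : GL (MI m) F₀) : Matrix (MI m) (MI m) F₀) v₀ i).symm
    have h4 := mu_spec (minusQ m F₀ a₀ b₀) g₀ v₀
    rw [h3, minus_map, h4, hQ₀, hQ, mul_one, mul_one] at h1
    exact h1.symm
  have hdet : ((g : GL (MI m) F) : Matrix (MI m) (MI m) F).det =
      j (((g₀ : GL (MI m) F₀) : Matrix (MI m) (MI m) F₀).det) := by
    rw [hmat, RingHom.map_det]
    rfl
  have key : (((g₀ : GL (MI m) F₀) : Matrix (MI m) (MI m) F₀).det =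
      (mu (minusQ m F₀ a₀ b₀) g₀ : F₀) ^ (m + 1)) ↔
      (((g : GL (MI m) F) : Matrix (MI m) (MI m) F).det =
        (mu (minusQ m F (j a₀) (j b₀)) g : F) ^ (m + 1)) := by
    rw [hμ, hdet, ← map_pow]
    exact ⟨fun h => by rw [h], fun h => j.injective h⟩
  exact e1.trans (d1.trans (key.trans (d2.symm.trans e2.symm)))

end Cfsg.Agent.Lib.Helper97.MCentCO
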