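import Mathlib
import Cfsg.Agent.Lib.Helper18.ReeHallStmt

/-!
# S1158 / S2358, piece CONJH

Two cyclic subgroups of the same order `d ∣ (q - 1) / 2` are conjugate: `d` is odd, a generator
is conjugate into the cyclic group `H` (piece `OddHC`), and a cyclic group has only one subgroup
of each order.
-/

set_option autoImplicit false

namespace Cfsg.Agent.Lib.Helper97.RHCONJH

open Cfsg.Agent.Lib.Helper42.ReeSpStmt Cfsg.Agent.Lib.Helper18.ReeHallStmt

universe u v

variable {G : Type u} [Group G]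

/-- `q = 3 ^ (2 m + 1)` is `3` modulo `8` -/
theorem qq_mod_eight (m : ℕ) : qq m % 8 = 3 := by
  show 3 ^ (2 * m + 1) % 8 = 3
  rw [pow_succ, pow_mul, Nat.mul_mod, Nat.pow_mod]
  norm_num

/-- in a cyclic subgroup `H` at most `d` elements have `d`-th power `1` -/
theorem ncard_pow_eq_one_le (H : Subgroup G) [Finite H] (hH : IsCyclic H) (d : ℕ) (hd : 0 < d) :
    {x : G | x ∈ H ∧ x ^ d = 1}.ncard ≤ d := by
  classical
  have hfin : Fintype H := Fintype.ofFinite H
  have h1 := IsCyclic.card_pow_eq_one_le (α := H) hd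
  have h2 : {x : G | x ∈ H ∧ x ^ d = 1} = (fun a : H => (a : G)) ''
      ((Finset.univ.filter (fun a : H => a ^ d = 1) : Finset H) : Set H) := by
    ext x
    constructor
    · rintro ⟨hx, hxd⟩
      refine ⟨⟨x, hx⟩, ?_, rfl⟩
      rw [Finset.mem_coe, Finset.mem_filter]
      exact ⟨Finset.mem_univ _, Subtype.ext hxd⟩
    · rintro ⟨a, ha, rfl⟩
      rw [Finset.mem_coe, Finset.mem_filter] at ha
      refine ⟨a.2, ?_⟩
      have h3 := congrArg (fun s : H => (s : G)) ha.2
      simpa using h3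
  rw [h2]
  refine (Set.ncard_image_le (Set.toFinite _)).trans ?_
  rw [Set.ncard_coe_finset]
  exact h1

/-- a cyclic subgroup has at most one subgroup of each order -/
theorem eq_of_card_eq_of_le_cyclic [Finite G] (H K₁ K₂ : Subgroup G) (hH : IsCyclic H)
    (h1 : K₁ ≤ H) (h2 : K₂ ≤ H) (d : ℕ) (hd : 0 < d) (hc1 : Nat.card K₁ = d)
    (hc2 : Nat.card K₂ = d) : K₁ = K₂ := by
  have key : ∀ K : Subgroup G, K ≤ H → Nat.card K = d →
      (K : Set G) = {x : G | x ∈ H ∧ x ^ d = 1} := by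
    intro K hK hc
    apply Set.eq_of_subset_of_ncard_le
    · intro x hx
      refine ⟨hK hx, ?_⟩
      have h3 : (⟨x, hx⟩ : K) ^ Nat.card K = 1 := pow_card_eq_one'
      rw [hc] at h3
      have h4 := congrArg (fun s : K => (s : G)) h3
      simpa using h4
    · have h5 : (K : Set G).ncard = d := by
        rw [← Nat.card_coe_set_eq]
        exact hc
      rw [h5]
      exact ncard_pow_eq_one_le H hH d hd
    · exact Set.toFinite _
  exact SetLike.coe_injective ((key K₁ h1 hc1).trans (key K₂ h2 hc2).symm)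

/-- if a generator of the cyclic subgroup `C` is conjugate into `H` under `x`, so is `C` -/
theorem map_conj_le (C H : Subgroup G) (c : C) (hc : ∀ y : C, y ∈ Subgroup.zpowers c) (x : G)
    (hx : x * (c : G) * x⁻¹ ∈ H) : C.map (MulAut.conj x).toMonoidHom ≤ H := by
  rintro _ ⟨z, hz, rfl⟩
  obtain ⟨k, hk⟩ := Subgroup.mem_zpowers_iff.1 (hc ⟨z, hz⟩)
  have hz' : z = (c : G) ^ k := by
    have h1 := congrArg (fun s : C => (s : G)) hk
    simpa using h1.symm
  show MulAut.conj x z ∈ H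
  rw [hz', map_zpow]
  exact H.zpow_mem hx k

/-- two subgroups with the same conjugate image are conjugate -/
theorem conj_of_map_eq (A B : Subgroup G) (x y : G)
    (h : A.map (MulAut.conj x).toMonoidHom = B.map (MulAut.conj y).toMonoidHom) :
    ∃ g : G, B = A.map (MulAut.conj g).toMonoidHom := by
  refine ⟨y⁻¹ * x, ?_⟩
  ext z
  constructor
  · intro hz
    have h1 : y * z * y⁻¹ ∈ B.map (MulAut.conj y).toMonoidHom := ⟨z, hz, rfl⟩
    rw [← h] at h1
    obtain ⟨a, ha, hax⟩ := h1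
    refine ⟨a, ha, ?_⟩
    have h2 : x * a * x⁻¹ = y * z * y⁻¹ := hax
    show y⁻¹ * x * a * (y⁻¹ * x)⁻¹ = z
    calc y⁻¹ * x * a * (y⁻¹ * x)⁻¹ = y⁻¹ * (x * a * x⁻¹) * y := by group
      _ = z := by rw [h2]; group
  · rintro ⟨a, ha, rfl⟩
    have h1 : x * a * x⁻¹ ∈ A.map (MulAut.conj x).toMonoidHom := ⟨a, ha, rfl⟩
    rw [h] at h1
    obtain ⟨b, hb, hbx⟩ := h1
    have h2 : y * b * y⁻¹ = x * a * x⁻¹ := hbx
    have h3 : (MulAut.conj (y⁻¹ * x)).toMonoidHom a = b := by
      show y⁻¹ * x * a * (y⁻¹ * x)⁻¹ = b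
      calc y⁻¹ * x * a * (y⁻¹ * x)⁻¹ = y⁻¹ * (x * a * x⁻¹) * y := by group
        _ = b := by rw [← h2]; group
    rw [h3]
    exact hb

/-- the general argument: if every element of odd order `d > 1` (with the prime divisors of `d`
dividing `n`) is conjugate into the cyclic subgroup `H`, cyclic subgroups of order `d` are
conjugate -/
theorem conjP_of_cyclic [Finite G] (H : Subgroup G) (hH : IsCyclic H) (d : ℕ) (hd : 0 < d)
    (hconj : ∀ c : G, orderOf c = d → d ≠ 1 → ∃ x : G, x * c * x⁻¹ ∈ H) : ConjP G d := by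
  intro A B hA hB hcA hcB
  have key : ∀ C : Subgroup G, IsCyclic C → Nat.card C = d →
      ∃ x : G, C.map (MulAut.conj x).toMonoidHom ≤ H := by
    intro C hC hcC
    by_cases hd1 : d = 1
    · refine ⟨1, ?_⟩
      have h1 : C = ⊥ := Subgroup.card_eq_one.1 (hcC.trans hd1)
      rw [h1, Subgroup.map_bot]
      exact bot_le
    · obtain ⟨c, hc⟩ := IsCyclic.exists_generator (α := C)
      have hoc : orderOf (c : G) = d := by
        rw [Subgroup.orderOf_coe, orderOf_eq_card_of_forall_mem_zpowers hc, hcC]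
      obtain ⟨x, hx⟩ := hconj (c : G) hoc hd1
      exact ⟨x, map_conj_le C H c hc x hx⟩
  obtain ⟨x, hx⟩ := key A hA hcA
  obtain ⟨y, hy⟩ := key B hB hcB
  have hcx : Nat.card (A.map (MulAut.conj x).toMonoidHom) = d := by
    rw [Subgroup.card_map_of_injective (MulAut.conj x).injective, hcA]
  have hcy : Nat.card (B.map (MulAut.conj y).toMonoidHom) = d := by
    rw [Subgroup.card_map_of_injective (MulAut.conj y).injective, hcB]
  exact conj_of_map_eq A B x y (eq_of_card_eq_of_le_cyclic H _ _ hH hx hy d hd hcx hcy)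

theorem main : ConjH.{u, v} := by
  intro G _ _ U H A K _ _ m hAx hOdd d hd
  have hq8 := qq_mod_eight m
  have hodd : Odd ((qq m - 1) / 2) := by
    rw [Nat.odd_iff]
    omega
  have hdodd : Odd d := Odd.of_dvd_nat hodd hd
  have hdq : d ∣ qq m - 1 := hd.trans (Nat.div_dvd_of_dvd (by omega))
  refine conjP_of_cyclic H hAx.cycH d hdodd.pos ?_
  intro c hc hd1
  have hp : (d.minFac).Prime := Nat.minFac_prime hd1
  have hp2 : d.minFac ≠ 2 := by
    intro h2
    have h3 : 2 ∣ d := h2 ▸ Nat.minFac_dvd d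
    exact (Nat.not_even_iff_odd.2 hdodd) (even_iff_two_dvd.2 h3)
  exact hOdd c d.minFac hp hp2 (hc ▸ Nat.minFac_dvd d) ((Nat.minFac_dvd d).trans hdq)

end Cfsg.Agent.Lib.Helper97.RHCONJH
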