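import Mathlib
import Cfsg.Agent.Lib.Helper18.ReeHallStmt
import Cfsg.Agent.Lib.Helper97.RHCONJH

/-!
# S1158 / S2358, piece CONJA

Two cyclic subgroups of the same order `d ∣ (q + 1) / 4` are conjugate: `d` is odd, a generator
is conjugate into `C(A)` (piece `OddAC`), hence into `A` (which has index `4` in the abelian group
`C(A)`), and the cyclic group `A` has only one subgroup of each order.
-/

set_option autoImplicit false

namespace Cfsg.Agent.Lib.Helper97.RHCONJA

open Cfsg.Agent.Lib.Helper42.ReeSpStmt Cfsg.Agent.Lib.Helper18.ReeHallStmt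
open Cfsg.Agent.Lib.Helper97.RHCONJH

universe u v

/-- an element whose order is prime to the index of a normal subgroup lies in it -/
theorem mem_of_coprime_index {M : Type u} [Group M] [Finite M] (N : Subgroup M) [N.Normal]
    (x : M) (hcop : (orderOf x).Coprime N.index) : x ∈ N := by
  have h1 : orderOf (QuotientGroup.mk' N x) ∣ orderOf x := orderOf_map_dvd (QuotientGroup.mk' N) x
  have h2 : orderOf (QuotientGroup.mk' N x) ∣ N.index := by
    have h := orderOf_dvd_natCard (QuotientGroup.mk' N x)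
    rwa [← Subgroup.index_eq_card] at h
  have h3 : orderOf (QuotientGroup.mk' N x) = 1 := Nat.eq_one_of_dvd_coprimes hcop h1 h2
  rw [orderOf_eq_one_iff] at h3
  rw [← QuotientGroup.eq_one_iff]
  exact h3

/-- the elements of odd order of `C(A)` lie in `A` -/
theorem mem_A_of_odd {G : Type u} [Group G] [Finite G] {U H A : Subgroup G} {K : Type v}
    [Field K] [Fintype K] {m : ℕ} (hAx : Ax G U H A K m) (z : G)
    (hz : z ∈ Subgroup.centralizer (A : Set G)) (hodd : Odd (orderOf z)) : z ∈ A := by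
  have hq8 := qq_mod_eight m
  -- `A ≤ C(A)`
  have hAle : A ≤ Subgroup.centralizer (A : Set G) := by
    have hcyc : IsCyclic A := hAx.cycA
    obtain ⟨g, hg⟩ := IsCyclic.exists_generator (α := A)
    intro a ha
    rw [Subgroup.mem_centralizer_iff]
    intro b hb
    obtain ⟨i, hi⟩ := Subgroup.mem_zpowers_iff.1 (hg ⟨a, ha⟩)
    obtain ⟨j, hj⟩ := Subgroup.mem_zpowers_iff.1 (hg ⟨b, hb⟩)
    have hcomm : (⟨b, hb⟩ : A) * ⟨a, ha⟩ = ⟨a, ha⟩ * ⟨b, hb⟩ := by
      rw [← hi, ← hj]
      exact ((Commute.refl g).zpow_zpow j i).eq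
    exact congrArg (fun s : A => (s : G)) hcomm
  obtain ⟨N, hN⟩ : ∃ N : Subgroup ↥(Subgroup.centralizer (A : Set G)),
      N = A.subgroupOf (Subgroup.centralizer (A : Set G)) := ⟨_, rfl⟩
  have hNn : N.Normal := by
    constructor
    intro n hn g
    have h1 : g * n * g⁻¹ = n := by
      apply Subtype.ext
      show (g : G) * (n : G) * (g : G)⁻¹ = (n : G)
      rw [hAx.commCA (g : G) g.2 (n : G) n.2, mul_inv_cancel_right]
    rw [h1]
    exact hn
  have hNcard : Nat.card N = Nat.card A := by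
    rw [hN]
    exact Nat.card_congr (Subgroup.subgroupOfEquivOfLe hAle).toEquiv
  have hidx : N.index = 4 := by
    have h2 := Subgroup.card_mul_index N
    rw [hNcard, hAx.cardCA, hAx.cardA] at h2
    obtain ⟨t, ht⟩ : ∃ t : ℕ, (qq m + 1) / 4 = t := ⟨_, rfl⟩
    rw [ht] at h2
    have h3 : 0 < t := by omega
    have h4 : qq m + 1 = t * 4 := by omega
    rw [h4] at h2
    exact Nat.eq_of_mul_eq_mul_left h3 h2
  have hmem : (⟨z, hz⟩ : ↥(Subgroup.centralizer (A : Set G))) ∈ N := by
    refine mem_of_coprime_index N _ ?_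
    rw [hidx, Subgroup.orderOf_mk]
    have h5 : Nat.Coprime (orderOf z) 2 := Nat.coprime_two_right.2 hodd
    exact Nat.Coprime.pow_right 2 h5
  rw [hN] at hmem
  exact Subgroup.mem_subgroupOf.1 hmem

theorem main : ConjA.{u, v} := by
  intro G _ _ U H A K _ _ m hAx hOdd d hd
  have hq8 := qq_mod_eight m
  have hodd : Odd ((qq m + 1) / 4) := by
    rw [Nat.odd_iff]
    omega
  have hdodd : Odd d := Odd.of_dvd_nat hodd hd
  have hdq : d ∣ qq m + 1 := hd.trans (Nat.div_dvd_of_dvd (by omega))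
  refine conjP_of_cyclic A hAx.cycA d hdodd.pos ?_
  intro c hc hd1
  have hp : (d.minFac).Prime := Nat.minFac_prime hd1
  have hp2 : d.minFac ≠ 2 := by
    intro h2
    have h3 : 2 ∣ d := h2 ▸ Nat.minFac_dvd d
    exact (Nat.not_even_iff_odd.2 hdodd) (even_iff_two_dvd.2 h3)
  obtain ⟨x, hx⟩ := hOdd c d.minFac hp hp2 (hc ▸ Nat.minFac_dvd d) ((Nat.minFac_dvd d).trans hdq)
  refine ⟨x, mem_A_of_odd hAx _ hx ?_⟩
  have hconj : x * c * x⁻¹ = MulAut.conj x c := rfl
  rw [hconj, MulEquiv.orderOf_eq, hc]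
  exact hdodd

end Cfsg.Agent.Lib.Helper97.RHCONJA
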