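import Mathlib
import Cfsg.Agent.Lib.Helper25.ACStmt

/-!
# S3912 / LIFTCRIT (call by helper25; helper97)
-/

set_option autoImplicit false

universe u

namespace Cfsg.Agent.Lib.Helper97.ACLIFTCRIT

open Cfsg.Agent.Lib.Helper25.ACStmt

theorem main : LiftCrit.{u} := by
  intro G _ N _ hB hf A B hA hB' hcard
  obtain ⟨f, hf⟩ := hf
  obtain ⟨A₀, hA₀, hA₀m, hA₀c⟩ := hf A hA
  obtain ⟨B₀, hB₀, hB₀m, hB₀c⟩ := hf B hB'
  have hc : Nat.card ↥A₀ = Nat.card ↥B₀ := by rw [hA₀c, hB₀c, hcard]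
  obtain ⟨g, hg⟩ := hB A₀ B₀ hA₀ hB₀ hc
  refine ⟨QuotientGroup.mk' N g, ?_⟩
  rw [← hB₀m, ← hA₀m, hg, Subgroup.map_map, Subgroup.map_map]
  congr 1

end Cfsg.Agent.Lib.Helper97.ACLIFTCRIT
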