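import Mathlib
import Cfsg.Agent.Lib.Helper25.ACStmt

/-!
# S3912 / PREIM (call by helper25; helper97)
-/

set_option autoImplicit false

universe u

namespace Cfsg.Agent.Lib.Helper97.ACPREIM

open Cfsg.Agent.Lib.Helper25.ACStmt

/-- the order of a preimage. -/
theorem card_comap {G : Type u} [Group G] [Finite G] (N : Subgroup G) [N.Normal]
    (A : Subgroup (G ⧸ N)) :
    Nat.card ↥(A.comap (QuotientGroup.mk' N)) = Nat.card ↥N * Nat.card ↥A := by
  have h1 : (A.comap (QuotientGroup.mk' N)).index = A.index :=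
    Subgroup.index_comap_of_surjective A (QuotientGroup.mk'_surjective N)
  have h2 := Subgroup.card_mul_index (A.comap (QuotientGroup.mk' N))
  have h3 := Subgroup.card_mul_index A
  have h4 : Nat.card G = Nat.card (G ⧸ N) * Nat.card ↥N :=
    Subgroup.card_eq_card_quotient_mul_card_subgroup N
  have h5 : A.index ≠ 0 := Subgroup.index_ne_zero_of_finite
  rw [h1] at h2
  have h6 : Nat.card ↥(A.comap (QuotientGroup.mk' N)) * A.index =
      (Nat.card ↥N * Nat.card ↥A) * A.index := by
    rw [h2, h4, ← h3]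
    ring
  exact Nat.eq_of_mul_eq_mul_right (Nat.pos_of_ne_zero h5) h6

theorem main : Preim.{u} := by
  intro G _ _ N _ A hA
  refine ⟨?_, ?_, card_comap N A, ?_⟩
  · intro n hn
    show QuotientGroup.mk' N n ∈ A
    have : QuotientGroup.mk' N n = 1 := (QuotientGroup.eq_one_iff n).2 hn
    rw [this]
    exact A.one_mem
  · exact Subgroup.map_comap_eq_self_of_surjective (QuotientGroup.mk'_surjective N) A
  · intro a ha b hb
    have ha' : QuotientGroup.mk' N a ∈ A := ha
    have hb' : QuotientGroup.mk' N b ∈ A := hb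
    have hc := setLike_mul_comm (s := A) ha' hb'
    apply (QuotientGroup.eq_one_iff _).1
    have h1 : ((a * b * a⁻¹ * b⁻¹ : G) : G ⧸ N) =
        QuotientGroup.mk' N a * QuotientGroup.mk' N b * (QuotientGroup.mk' N a)⁻¹ *
          (QuotientGroup.mk' N b)⁻¹ := rfl
    rw [h1, hc]
    group

end Cfsg.Agent.Lib.Helper97.ACPREIM
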