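import Mathlib
import Cfsg.Agent.Lib.Helper25.ACStmt

/-!
# S3912 / TRANSFER (call by helper25; helper97)
-/

set_option autoImplicit false

universe u

namespace Cfsg.Agent.Lib.Helper97.ACTRANSFER

open Cfsg.Agent.Lib.Helper25.ACStmt

theorem main : Transfer.{u} := by
  intro G H _ _ e hB A B hA hB' hcard
  have hA' : IsMulCommutative ↥(A.comap e.toMonoidHom) :=
    Subgroup.comap_injective_isMulCommutative (H := A) (f := e.toMonoidHom) e.injective
  have hB'' : IsMulCommutative ↥(B.comap e.toMonoidHom) :=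
    Subgroup.comap_injective_isMulCommutative (H := B) (f := e.toMonoidHom) e.injective
  have hcc : ∀ C : Subgroup H, Nat.card ↥(C.comap e.toMonoidHom) = Nat.card ↥C := by
    intro C
    refine Nat.card_congr ⟨fun x => ⟨e x.1, x.2⟩, fun y => ⟨e.symm y.1, ?_⟩, ?_, ?_⟩
    · show e (e.symm y.1) ∈ C
      rw [e.apply_symm_apply]
      exact y.2
    · intro x
      apply Subtype.ext
      exact e.symm_apply_apply x.1
    · intro y
      apply Subtype.ext
      exact e.apply_symm_apply y.1
  have hc : Nat.card ↥(A.comap e.toMonoidHom) = Nat.card ↥(B.comap e.toMonoidHom) := by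
    rw [hcc A, hcc B]
    exact hcard
  obtain ⟨g, hg⟩ := hB _ _ hA' hB'' hc
  refine ⟨e g, ?_⟩
  ext h
  constructor
  · intro hh
    have h1 : e.symm h ∈ B.comap e.toMonoidHom := by
      show e (e.symm h) ∈ B
      rw [e.apply_symm_apply]
      exact hh
    rw [hg] at h1
    obtain ⟨a', ha', hah⟩ := h1
    refine ⟨e a', ha', ?_⟩
    have h2 : g * a' * g⁻¹ = e.symm h := hah
    show e g * e a' * (e g)⁻¹ = h
    rw [← map_inv, ← map_mul, ← map_mul, h2, e.apply_symm_apply]
  · rintro ⟨a, ha, rfl⟩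
    have h1 : g * e.symm a * g⁻¹ ∈ B.comap e.toMonoidHom := by
      rw [hg]
      refine ⟨e.symm a, ?_, rfl⟩
      show e (e.symm a) ∈ A
      rw [e.apply_symm_apply]
      exact ha
    have h2 : e (g * e.symm a * g⁻¹) ∈ B := h1
    rw [map_mul, map_mul, map_inv, e.apply_symm_apply] at h2
    exact h2

end Cfsg.Agent.Lib.Helper97.ACTRANSFER
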