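import Mathlib
import Cfsg.Agent.Lib.Helper30.CTIStmt

set_option autoImplicit false

namespace Cfsg.Agent.Lib.Helper97.CTIARITH1

open Cfsg.Agent.Lib.Helper30.CTIStmt

/-- uniqueness of the decomposition `2 ^ a * odd` -/
theorem two_pow_mul_odd_inj {a b A B : ℕ} (hA : Odd A) (hB : Odd B)
    (h : 2 ^ a * A = 2 ^ b * B) : a = b ∧ A = B := by
  have key : ∀ {a b A B : ℕ}, Odd A → Odd B → a ≤ b → 2 ^ a * A = 2 ^ b * B → a = b ∧ A = B := by
    intro a b A B hA hB hab h
    obtain ⟨d, rfl⟩ := Nat.exists_eq_add_of_le hab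
    rw [pow_add, mul_assoc] at h
    have h1 : A = 2 ^ d * B := Nat.eq_of_mul_eq_mul_left (by positivity) h
    rcases Nat.eq_zero_or_pos d with rfl | hd
    · simp at h1; exact ⟨by omega, h1⟩
    · exfalso
      have : 2 ∣ A := by
        rw [h1]; exact Dvd.dvd.mul_right (dvd_pow_self 2 hd.ne') _
      obtain ⟨i, hi⟩ := hA
      omega
  rcases Nat.le_total a b with hab | hab
  · exact key hA hB hab h
  · obtain ⟨h1, h2⟩ := key hB hA hab h.symm
    exact ⟨h1.symm, h2.symm⟩

theorem odd_two_pow_sub_one {k : ℕ} (hk : 1 ≤ k) : Odd (2 ^ k - 1) := by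
  obtain ⟨j, rfl⟩ := Nat.exists_eq_add_of_le hk
  have : 2 ^ (1 + j) = 2 * 2 ^ j := by rw [pow_add, pow_one]
  have hpos : 0 < 2 ^ j := by positivity
  exact ⟨2 ^ j - 1, by omega⟩

theorem odd_two_pow_add_one {k : ℕ} (hk : 1 ≤ k) : Odd (2 ^ k + 1) := by
  obtain ⟨j, rfl⟩ := Nat.exists_eq_add_of_le hk
  have : 2 ^ (1 + j) = 2 * 2 ^ j := by rw [pow_add, pow_one]
  exact ⟨2 ^ j, by omega⟩

/-- the odd case, `N ∣ q - 1` (`x = q - 1`, `n = 2 ^ k - 1`) -/
theorem caseB (N n x c : ℕ) (hN : 4 ≤ N) (hn : n + 1 ≤ N) (hx : x = N * c) (hc : 1 ≤ c)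
    (h : (N + 1) * (N * n) * 2 = (x + 1) * (x * (x + 2))) : 2 * (n + 1) = N + 4 := by
  subst hx
  have h1 : (N + 1) * n * 2 = (N * c + 1) * (c * (N * c + 2)) := by
    have : N * ((N + 1) * n * 2) = N * ((N * c + 1) * (c * (N * c + 2))) := by
      calc N * ((N + 1) * n * 2) = (N + 1) * (N * n) * 2 := by ring
        _ = _ := h
        _ = _ := by ring
    exact Nat.eq_of_mul_eq_mul_left (by omega) this
  rcases Nat.lt_or_ge c 2 with hc2 | hc2
  · have hc1 : c = 1 := by omega
    subst hc1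
    have h2 : (N + 1) * (n * 2) = (N + 1) * (N + 2) := by
      calc (N + 1) * (n * 2) = (N + 1) * n * 2 := by ring
        _ = _ := h1
        _ = _ := by ring
    have h3 := Nat.eq_of_mul_eq_mul_left (by omega) h2
    omega
  · exfalso
    have e1 : (N + 1) * n * 2 ≤ (N + 1) * N * 2 :=
      Nat.mul_le_mul_right 2 (Nat.mul_le_mul_left _ (by omega))
    have e2 : N * 2 ≤ N * c := Nat.mul_le_mul_left N hc2
    have e3 : (N * 2 + 1) * (2 * (N * 2 + 2)) ≤ (N * c + 1) * (c * (N * c + 2)) :=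
      Nat.mul_le_mul (by omega) (Nat.mul_le_mul hc2 (by omega))
    have e4 : (N + 1) * N * 2 < (N * 2 + 1) * (2 * (N * 2 + 2)) := by nlinarith
    omega

/-- the odd case, `N ∣ q + 1` -/
theorem caseC (N n x c : ℕ) (hN : 4 ≤ N) (hN5 : N ≠ 5) (hn : n + 1 ≤ N) (hx : x + 2 = N * c)
    (hc : 1 ≤ c) (h : (N + 1) * (N * n) * 2 = (x + 1) * (x * (x + 2))) : False := by
  rw [hx] at h
  have h1 : (N + 1) * n * 2 = (x + 1) * (x * c) := by
    have : N * ((N + 1) * n * 2) = N * ((x + 1) * (x * c)) := by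
      calc N * ((N + 1) * n * 2) = (N + 1) * (N * n) * 2 := by ring
        _ = _ := h
        _ = _ := by ring
    exact Nat.eq_of_mul_eq_mul_left (by omega) this
  rcases Nat.lt_or_ge c 2 with hc2 | hc2
  · have hc1 : c = 1 := by omega
    subst hc1
    obtain ⟨y, rfl⟩ := Nat.exists_eq_add_of_le hN
    have hxy : x = y + 2 := by omega
    subst hxy
    have h2 : (y + 5) * (n * 2) = (y + 5) * y + 6 := by
      calc (y + 5) * (n * 2) = (4 + y + 1) * n * 2 := by ring
        _ = _ := h1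
        _ = _ := by ring
    have h3 : (y + 5) ∣ 6 := by
      have : (y + 5) ∣ (y + 5) * y + 6 := by rw [← h2]; exact dvd_mul_right _ _
      exact (Nat.dvd_add_right (dvd_mul_right _ _)).mp this
    have h4 := Nat.le_of_dvd (by norm_num) h3
    have hy : y = 0 ∨ y = 1 := by omega
    rcases hy with rfl | rfl
    · omega
    · omega
  · have e1 : (N + 1) * n * 2 ≤ (N + 1) * N * 2 :=
      Nat.mul_le_mul_right 2 (Nat.mul_le_mul_left _ (by omega))
    have e2 : N * 2 ≤ N * c := Nat.mul_le_mul_left N hc2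
    have e3 : (N * 2 - 1) * ((N * 2 - 2) * 2) ≤ (x + 1) * (x * c) :=
      Nat.mul_le_mul (by omega) (Nat.mul_le_mul (by omega) hc2)
    obtain ⟨y, rfl⟩ := Nat.exists_eq_add_of_le hN
    have e5 : (4 + y) * 2 - 1 = 2 * y + 7 := by omega
    have e6 : (4 + y) * 2 - 2 = 2 * y + 6 := by omega
    rw [e5, e6] at e3
    have e4 : (4 + y + 1) * (4 + y) * 2 < (2 * y + 7) * ((2 * y + 6) * 2) := by nlinarith
    omega

theorem main : Cfsg.Agent.Lib.Helper30.CTIStmt.ARITH1 := by
  intro a k q hk hka hq h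
  have hq2 : 2 ≤ q := hq.two_le
  have hK4 : 4 ≤ 2 ^ k := by
    calc 4 = 2 ^ 2 := by norm_num
      _ ≤ 2 ^ k := Nat.pow_le_pow_right (by norm_num) hk
  have hKN : 2 ^ k ≤ 2 ^ a := Nat.pow_le_pow_right (by norm_num) hka
  rcases Nat.even_or_odd q with hqe | hqo
  · obtain ⟨p, j, hp, hj, rfl⟩ := hq
    have hp2 : p = 2 := by
      have h1 : 2 ∣ p ^ j := hqe.two_dvd
      have h2 := Nat.prime_two.dvd_of_dvd_pow h1
      exact ((Nat.prime_dvd_prime_iff_eq Nat.prime_two hp.nat_prime).mp h2).symm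
    subst hp2
    have hodd : Odd (2 ^ j - 1) := odd_two_pow_sub_one hj
    have hg : Nat.gcd 2 (2 ^ j - 1) = 1 := Nat.coprime_two_left.mpr hodd
    rw [hg, mul_one] at h
    have hB : Odd ((2 ^ j) ^ 2 - 1) := by
      rw [← pow_mul]; exact odd_two_pow_sub_one (by omega)
    have hA : Odd ((2 ^ a + 1) * (2 ^ k - 1)) :=
      (odd_two_pow_add_one (by omega)).mul (odd_two_pow_sub_one (by omega))
    obtain ⟨h1, h2⟩ := two_pow_mul_odd_inj hA hB (by rw [← h]; ring)
    subst h1
    have h3 : (2 ^ a) ^ 2 - 1 = (2 ^ a + 1) * (2 ^ a - 1) := by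
      obtain ⟨N, hN⟩ : ∃ N, N = 2 ^ a := ⟨_, rfl⟩
      rw [← hN]
      have hN1 : 1 ≤ N := by rw [hN]; exact Nat.one_le_two_pow
      obtain ⟨y, rfl⟩ := Nat.exists_eq_add_of_le hN1
      have : (1 + y) ^ 2 = (1 + y + 1) * y + 1 := by ring
      rw [this]; simp
    rw [h3] at h2
    have h4 : 2 ^ k - 1 = 2 ^ a - 1 := Nat.eq_of_mul_eq_mul_left (by positivity) h2
    have h5 : 2 ^ k = 2 ^ a := by omega
    exact (Nat.pow_right_injective (le_refl 2) h5).symm
  · have hg : Nat.gcd 2 (q - 1) = 2 := by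
      apply Nat.gcd_eq_left
      obtain ⟨i, hi⟩ := hqo
      exact ⟨i, by omega⟩
    rw [hg] at h
    obtain ⟨x, hx⟩ : ∃ x, q = x + 1 := ⟨q - 1, by omega⟩
    subst hx
    have hx1 : 1 ≤ x := by omega
    obtain ⟨n, hn⟩ : ∃ n, 2 ^ k = n + 1 := ⟨2 ^ k - 1, by omega⟩
    obtain ⟨N, hN⟩ : ∃ N, N = 2 ^ a := ⟨_, rfl⟩
    have hN4 : 4 ≤ N := by omega
    have hnN : n + 1 ≤ N := by omega
    have hN5 : N ≠ 5 := by
      rw [hN]
      intro h5
      have : Odd (2 ^ a) := by rw [h5]; decide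
      have h2 : Even (2 ^ a) := (Nat.even_pow' (by omega)).mpr even_two
      exact (Nat.not_even_iff_odd.mpr this) h2
    have hqq : (x + 1) ^ 2 - 1 = x * (x + 2) := by
      have : (x + 1) ^ 2 = x * (x + 2) + 1 := by ring
      rw [this]; simp
    have hkn : 2 ^ k - 1 = n := by omega
    rw [hqq, hkn, ← hN] at h
    -- N divides x or x + 2
    have hxeven : Even x := by
      obtain ⟨i, hi⟩ := hqo
      exact ⟨i, by omega⟩
    have hcop : ∀ m : ℕ, Odd m → Nat.Coprime N m := by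
      intro m hm
      rw [hN]
      exact Nat.Coprime.pow_left a (Nat.coprime_two_left.mpr hm)
    have hdvd : N ∣ x ∨ N ∣ x + 2 := by
      obtain ⟨i, hi⟩ := hxeven
      rcases Nat.even_or_odd i with hie | hio
      · -- x = 2 i, i even; x + 2 = 2 (i + 1), i + 1 odd
        left
        have hodd1 : Odd ((x + 1) * (i + 1)) := by
          refine Odd.mul ?_ hie.add_one
          exact ⟨i, by omega⟩
        have e : N * ((N + 1) * n) = x * ((x + 1) * (i + 1)) := by
          have e2 : x + 2 = 2 * (i + 1) := by omega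
          rw [e2] at h
          have : 2 * (N * ((N + 1) * n)) = 2 * (x * ((x + 1) * (i + 1))) := by
            calc 2 * (N * ((N + 1) * n)) = (N + 1) * (N * n) * 2 := by ring
              _ = _ := h
              _ = _ := by ring
          exact Nat.eq_of_mul_eq_mul_left (by norm_num) this
        exact (hcop _ hodd1).dvd_of_dvd_mul_right (Dvd.intro _ e)
      · right
        have hodd1 : Odd ((x + 1) * i) := by
          refine Odd.mul ?_ hio
          exact ⟨i, by omega⟩
        have e : N * ((N + 1) * n) = (x + 2) * ((x + 1) * i) := by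
          have e2 : (x + 1) * (x * (x + 2)) = 2 * ((x + 2) * ((x + 1) * i)) := by
            have e3 : x = 2 * i := by omega
            rw [e3]; ring
          rw [e2] at h
          have : 2 * (N * ((N + 1) * n)) = 2 * ((x + 2) * ((x + 1) * i)) := by
            calc 2 * (N * ((N + 1) * n)) = (N + 1) * (N * n) * 2 := by ring
              _ = _ := h
          exact Nat.eq_of_mul_eq_mul_left (by norm_num) this
        exact (hcop _ hodd1).dvd_of_dvd_mul_right (Dvd.intro _ e)
    rcases hdvd with hd | hd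
    · obtain ⟨c, hc⟩ := hd
      have hc1 : 1 ≤ c := by
        rcases Nat.eq_zero_or_pos c with rfl | hc0
        · omega
        · exact hc0
      have h7 := caseB N n x c hN4 hnN hc hc1 h
      -- 2 * 2^k = 2^a + 4
      by_contra hne
      have hlt : k + 1 ≤ a := by omega
      have h8 : 2 ^ (k + 1) ≤ 2 ^ a := Nat.pow_le_pow_right (by norm_num) hlt
      rw [pow_succ] at h8
      omega
    · obtain ⟨c, hc⟩ := hd
      have hc1 : 1 ≤ c := by
        rcases Nat.eq_zero_or_pos c with rfl | hc0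
        · omega
        · exact hc0
      exact (caseC N n x c hN4 hN5 hnN hc hc1 h).elim

end Cfsg.Agent.Lib.Helper97.CTIARITH1
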