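import Mathlib
import Cfsg.Agent.Lib.Helper30.CTIStmt

set_option autoImplicit false

namespace Cfsg.Agent.Lib.Helper97.CTIARITH2

open Cfsg.Agent.Lib.Helper30.CTIStmt

/-- uniqueness of the decomposition `2 ^ a * odd` -/
theorem two_pow_mul_odd_inj {a b A B : ℕ} (hA : Odd A) (hB : Odd B)
    (h : 2 ^ a * A = 2 ^ b * B) : a = b ∧ A = B := by
  have key : ∀ {a b A B : ℕ}, Odd A → Odd B → a ≤ b → 2 ^ a * A = 2 ^ b * B → a = b ∧ A = B := by
    intro a b A B hA hB hab h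
    obtain ⟨d, rfl⟩ := Nat.exists_eq_add_of_le hab
    rw [pow_add, mul_assoc] at h
    have h1 : A = 2 ^ d * B := Nat.eq_of_mul_eq_mul_left (by positivity) h
    rcases Nat.eq_zero_or_pos d with rfl | hd
    · simp at h1; exact ⟨by omega, h1⟩
    · exfalso
      have : 2 ∣ A := by
        rw [h1]; exact Dvd.dvd.mul_right (dvd_pow_self 2 hd.ne') _
      obtain ⟨i, hi⟩ := hA
      omega
  rcases Nat.le_total a b with hab | hab
  · exact key hA hB hab h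
  · obtain ⟨h1, h2⟩ := key hB hA hab h.symm
    exact ⟨h1.symm, h2.symm⟩

theorem odd_two_pow_sub_one {k : ℕ} (hk : 1 ≤ k) : Odd (2 ^ k - 1) := by
  obtain ⟨j, rfl⟩ := Nat.exists_eq_add_of_le hk
  have : 2 ^ (1 + j) = 2 * 2 ^ j := by rw [pow_add, pow_one]
  have hpos : 0 < 2 ^ j := by positivity
  exact ⟨2 ^ j - 1, by omega⟩

theorem odd_two_pow_add_one {k : ℕ} (hk : 1 ≤ k) : Odd (2 ^ k + 1) := by
  obtain ⟨j, rfl⟩ := Nat.exists_eq_add_of_le hk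
  have : 2 ^ (1 + j) = 2 * 2 ^ j := by rw [pow_add, pow_one]
  exact ⟨2 ^ j, by omega⟩

theorem main : Cfsg.Agent.Lib.Helper30.CTIStmt.ARITH2 := by
  intro a k m hk hka h
  obtain ⟨s, hs⟩ : ∃ s, s = 2 * m + 1 := ⟨_, rfl⟩
  rw [← hs] at h
  have hs1 : 1 ≤ s := by omega
  have hA : Odd ((2 ^ a + 1) * (2 ^ k - 1)) :=
    (odd_two_pow_add_one (by omega)).mul (odd_two_pow_sub_one (by omega))
  have hB : Odd (((2 ^ s) ^ 2 + 1) * (2 ^ s - 1)) := by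
    have e : (2 ^ s) ^ 2 = 2 ^ (2 * s) := by rw [← pow_mul, mul_comm]
    rw [e]
    exact (odd_two_pow_add_one (by omega)).mul (odd_two_pow_sub_one hs1)
  have h' : 2 ^ a * ((2 ^ a + 1) * (2 ^ k - 1)) = 2 ^ (2 * s) * (((2 ^ s) ^ 2 + 1) * (2 ^ s - 1)) := by
    have e : (2 ^ s) ^ 2 = 2 ^ (2 * s) := by rw [← pow_mul, mul_comm]
    rw [← e]
    calc 2 ^ a * ((2 ^ a + 1) * (2 ^ k - 1)) = (2 ^ a + 1) * (2 ^ a * (2 ^ k - 1)) := by ring
      _ = _ := h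
      _ = _ := by ring
  obtain ⟨h1, h2⟩ := two_pow_mul_odd_inj hA hB h'
  have e : (2 ^ s) ^ 2 = 2 ^ a := by rw [h1, ← pow_mul, mul_comm]
  rw [e] at h2
  have h3 : 2 ^ k - 1 = 2 ^ s - 1 := Nat.eq_of_mul_eq_mul_left (by positivity) h2
  have hk1 : 1 ≤ 2 ^ k := Nat.one_le_two_pow
  have hs2 : 1 ≤ 2 ^ s := Nat.one_le_two_pow
  have h4 : 2 ^ k = 2 ^ s := by omega
  have h5 : k = s := Nat.pow_right_injective (le_refl 2) h4
  omega

end Cfsg.Agent.Lib.Helper97.CTIARITH2
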