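import Mathlib
import Cfsg.Agent.Lib.Helper30.CTIStmt

set_option autoImplicit false

namespace Cfsg.Agent.Lib.Helper97.CTIDEG

open Cfsg.Agent.Lib.Helper30.CTIStmt

universe u

/-- the degree count: `H` transitive on the points other than `↑1`, with point stabilizer
`H ∩ w H w⁻¹` of order `i`, and `|H| = m * i`. -/
theorem deg_aux {G : Type u} [Group G] [Finite G] (H : Subgroup G) (m i : ℕ) (w : G)
    (hw : w ∉ H) (hcard : Nat.card ↥H = m * i) (hi : 0 < i) (hD : Nat.card ↥(DU H w) = i)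
    (hZ2 : Z2c G H) : Nat.card (G ⧸ H) = m + 1 := by
  have hx0 : ∀ h : G, h ∈ H → (h : G ⧸ H) = ((1 : G) : G ⧸ H) := by
    intro h hh
    rw [QuotientGroup.eq]
    simpa using hh
  have hwx : (w : G ⧸ H) ≠ ((1 : G) : G ⧸ H) := by
    intro h
    rw [QuotientGroup.eq] at h
    apply hw
    have := H.inv_mem h
    simpa using this
  -- the orbit
  have horb : MulAction.orbit ↥H (w : G ⧸ H) = Set.univ \ {((1 : G) : G ⧸ H)} := by
    ext y
    constructor
    · rintro ⟨h, rfl⟩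
      refine ⟨Set.mem_univ _, ?_⟩
      intro hy
      rw [Set.mem_singleton_iff] at hy
      have hy' : h • (w : G ⧸ H) = ((1 : G) : G ⧸ H) := hy
      apply hwx
      have h1 : (h⁻¹ : ↥H) • (h • (w : G ⧸ H)) = (h⁻¹ : ↥H) • ((1 : G) : G ⧸ H) := by
        rw [hy']
      rw [inv_smul_smul] at h1
      rw [h1]
      have h2 : (h⁻¹ : ↥H) • ((1 : G) : G ⧸ H) = (((h⁻¹ : ↥H) : G) * 1 : G) := rfl
      rw [h2, mul_one]
      exact hx0 _ (h⁻¹).2
    · rintro ⟨-, hy⟩
      obtain ⟨h, hh, hhy⟩ := hZ2 (w : G ⧸ H) y hwx hy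
      exact ⟨⟨h, hh⟩, hhy⟩
  -- the stabilizer
  have hstab : (MulAction.stabilizer ↥H (w : G ⧸ H)).map H.subtype = DU H w := by
    ext h
    constructor
    · rintro ⟨⟨k, hk⟩, hks, rfl⟩
      have hks' := MulAction.mem_stabilizer_iff.mp (SetLike.mem_coe.mp hks)
      have h1 : ((k * w : G) : G ⧸ H) = (w : G ⧸ H) := hks'
      rw [QuotientGroup.eq] at h1
      refine ⟨hk, ⟨w⁻¹ * k * w, ?_, ?_⟩⟩
      · have := H.inv_mem h1
        have e : ((k * w)⁻¹ * w)⁻¹ = w⁻¹ * k * w := by group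
        rw [e] at this
        exact this
      · simp [MulAut.conj_apply]
        group
    · rintro ⟨hh, ⟨k, hk, hkh⟩⟩
      refine ⟨⟨h, hh⟩, ?_, rfl⟩
      apply SetLike.mem_coe.mpr
      apply MulAction.mem_stabilizer_iff.mpr
      change ((h * w : G) : G ⧸ H) = (w : G ⧸ H)
      rw [QuotientGroup.eq]
      have e : (h * w)⁻¹ * w = k⁻¹ := by
        have : h = w * k * w⁻¹ := by
          rw [← hkh]; simp [MulAut.conj_apply]
        rw [this]; group
      rw [e]
      exact H.inv_mem hk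
  have hScard : Nat.card ↥(MulAction.stabilizer ↥H (w : G ⧸ H)) = i := by
    rw [← hD, ← hstab]
    exact (Subgroup.card_map_of_injective (Subgroup.subtype_injective H)).symm
  have hidx : (MulAction.stabilizer ↥H (w : G ⧸ H)).index
      = (MulAction.orbit ↥H (w : G ⧸ H)).ncard := MulAction.index_stabilizer ↥H (w : G ⧸ H)
  have hmul := Subgroup.card_mul_index (MulAction.stabilizer ↥H (w : G ⧸ H))
  rw [hScard, hidx, hcard, horb] at hmul
  have hO : (Set.univ \ {((1 : G) : G ⧸ H)}).ncard = m := by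
    have : i * (Set.univ \ {((1 : G) : G ⧸ H)}).ncard = i * m := by rw [hmul]; ring
    exact Nat.eq_of_mul_eq_mul_left hi this
  have h3 := Set.ncard_sdiff_singleton_of_mem (Set.mem_univ ((1 : G) : G ⧸ H))
  rw [Set.ncard_univ] at h3
  have hpos : 0 < Nat.card (G ⧸ H) := Nat.card_pos
  omega

theorem main : Cfsg.Agent.Lib.Helper30.CTIStmt.DEG.{u} := by
  intro G _ _ M hZ hZ2
  have hne : NM M ≠ ⊤ := hZ.se.1
  obtain ⟨g, hg⟩ : ∃ g : G, g ∉ NM M := by
    by_contra hcon
    push Not at hcon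
    exact hne (eq_top_iff.mpr (fun x _ => hcon x))
  have hxy : ((1 : G) : G ⧸ NM M) ≠ (g : G ⧸ NM M) := by
    intro h
    rw [QuotientGroup.eq] at h
    apply hg
    simpa using h
  obtain ⟨w, hw2, hw⟩ := hZ.swap _ _ hxy
  have hwH : w ∉ NM M := by
    intro hwH
    apply hxy
    rw [← hw]
    have h2 : w • ((1 : G) : G ⧸ NM M) = ((w * 1 : G) : G ⧸ NM M) := rfl
    rw [h2, mul_one, eq_comm, QuotientGroup.eq]
    simpa using hwH
  exact deg_aux (NM M) (Nat.card ↥M) (nInv (NM M)) w hwH hZ.hcard (by have := hZ.i2; omega)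
    (hZ.dcard w hw2 hwH) hZ2

end Cfsg.Agent.Lib.Helper97.CTIDEG
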