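import Mathlib
import Cfsg.Agent.Lib.Helper30.CTIStmt

set_option autoImplicit false

namespace Cfsg.Agent.Lib.Helper97.CTIQC1

open Cfsg.Agent.Lib.Helper30.CTIStmt

universe u

theorem main : Cfsg.Agent.Lib.Helper30.CTIStmt.QC1.{u} := by
  intro G _ _ E C Q hE hcomm hcyc hodd ⟨e⟩
  refine ⟨Nat.card C, hodd, ?_⟩
  have hQ8 : Nat.card ↥Q = 8 := by
    rw [Nat.card_congr e.toEquiv, Nat.card_eq_fintype_card, QuaternionGroup.card]
  have hcop : Nat.Coprime (Nat.card ↥C) (Nat.card ↥Q) := by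
    rw [hQ8]
    have h2 : Nat.Coprime (Nat.card ↥C) 2 := Nat.coprime_two_right.mpr hodd
    exact Nat.Coprime.pow_right 3 h2
  have hdisj : Disjoint C Q := Subgroup.disjoint_of_coprime_natCard hcop
  have hcomm' : ∀ (m : ↥C) (n : ↥Q), Commute (C.subtype m) (Q.subtype n) :=
    fun c q => hcomm c.1 c.2 q.1 q.2
  obtain ⟨φ, hφ⟩ : ∃ φ : ↥C × ↥Q →* G, φ = MonoidHom.noncommCoprod C.subtype Q.subtype
      hcomm' := ⟨_, rfl⟩
  have hinj : Function.Injective φ := by
    rw [hφ, MonoidHom.noncommCoprod_injective]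
    refine ⟨Subgroup.subtype_injective C, Subgroup.subtype_injective Q, ?_⟩
    rw [Subgroup.range_subtype, Subgroup.range_subtype]
    exact hdisj
  have hrange : φ.range = E := by
    rw [hφ, MonoidHom.noncommCoprod_range, Subgroup.range_subtype, Subgroup.range_subtype, hE]
  have e1 : ↥C × ↥Q ≃* ↥φ.range := MonoidHom.ofInjective hinj
  have e2 : ↥φ.range ≃* ↥E := MulEquiv.subgroupCongr hrange
  have e3 : Multiplicative (ZMod (Nat.card ↥C)) ≃* ↥C := zmodCyclicMulEquiv hcyc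
  exact ⟨(e2.symm.trans e1.symm).trans (MulEquiv.prodCongr e3.symm e)⟩

end Cfsg.Agent.Lib.Helper97.CTIQC1
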