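import Mathlib
import Cfsg.Agent.Lib.Helper44.GAStmt
import Cfsg.Agent.Lib.Helper45.PlusInndiag
import Cfsg.Agent.Lib.Helper45.OmegaInndiag
import Cfsg.Agent.Lib.Helper44.FinSq
import Cfsg.Agent.S2725

/-!
# S2718 piece IDX (helper97): the index of `Inn` in `Inndiag` for the plus form
-/

set_option autoImplicit false

namespace Cfsg.Agent.Lib.Helper97.GAIDX

open Matrix Module QuadraticMap
open Cfsg.Agent.Lib.Helper43.OPlAut Cfsg.Agent.Lib.Helper45.OmegaAut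
open Cfsg.Agent.Lib.Helper44.OFld0 Cfsg.Agent.Lib.Helper44.OFld1
  Cfsg.Agent.Lib.Helper44.OFldStmt Cfsg.Agent.Lib.Helper44.GFStmt
  Cfsg.Agent.Lib.Helper44.GAStmt
open Cfsg.Agent.Lib.Helper44.NegPairs Cfsg.Agent.Lib.Helper45.PlusInndiag
  Cfsg.Agent.Lib.Helper45.OmegaInndiag Cfsg.Agent.Lib.Helper45.OmegaAutMain

universe u

theorem relIndex_of_hom {X : Type*} [Group X] (H K : Subgroup X) {A : Type*} [Group A]
    [Finite A] (φ : ↥K →* A) (hs : Function.Surjective φ) (hk : φ.ker = H.subgroupOf K) :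
    H.relIndex K = Nat.card A := by
  show (H.subgroupOf K).index = Nat.card A
  rw [← hk, Subgroup.index_ker, MonoidHom.range_eq_top.mpr hs, Subgroup.card_top]

theorem main : IndexInndiag.{u} := by
  intro F _ _ m hm hodd
  have h2 : (2 : F) ≠ 0 := Cfsg.Agent.Lib.Helper44.FinSq.two_ne_zero_of_odd_card hodd
  have h0 : 0 < m := by omega
  obtain ⟨v₀, hv₀def⟩ : ∃ v₀ : Fin m ⊕ Fin m → F,
      v₀ = Pi.single (Sum.inl (⟨0, h0⟩ : Fin m)) 1 + Pi.single (Sum.inr (⟨0, h0⟩ : Fin m)) 1 :=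
    ⟨_, rfl⟩
  have hQ : plusQ m F v₀ = 1 := by
    show Cfsg.quadFormPlus m F v₀ = 1
    rw [hv₀def]
    unfold Cfsg.quadFormPlus
    simp [Pi.single_apply]
  have hv₀ : plusQ m F v₀ ≠ 0 := by rw [hQ]; exact one_ne_zero
  have hle : Cfsg.Inn (Cfsg.POmega F (Cfsg.quadFormPlus m F)) ≤ Cfsg.inndiagPOmegaPlus m F := by
    rw [inndiag_plus_eq h2 (by omega) hv₀]
    exact inn_le_D0 (plusQ m F) hv₀ m
  obtain ⟨r1, r2, r3⟩ := Cfsg.Agent.S2725.result hodd hm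
  refine ⟨hle, ?_, ?_⟩
  · intro h
    obtain ⟨φ, hs, hk⟩ := r1 h
    rw [relIndex_of_hom _ _ φ hs hk, Nat.card_eq_fintype_card]
    rfl
  · intro h
    rcases Nat.even_or_odd m with hev | hod
    · obtain ⟨φ, hs, hk⟩ := r3 hev
      rw [relIndex_of_hom _ _ φ hs hk, Nat.card_eq_fintype_card]
      rfl
    · have hq : Fintype.card F % 4 = 1 := by
        have h3 : ¬ Fintype.card F % 4 = 3 := fun h4 => h ⟨hod, h4⟩
        have h5 : Fintype.card F % 2 = 1 := Nat.odd_iff.1 hodd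
        omega
      obtain ⟨φ, hs, hk⟩ := r2 ⟨hod, hq⟩
      rw [relIndex_of_hom _ _ φ hs hk, Nat.card_eq_fintype_card]
      rfl

end Cfsg.Agent.Lib.Helper97.GAIDX
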