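import Mathlib
import Cfsg.Agent.Lib.Helper44.GFStmt
import Cfsg.Agent.Lib.Helper44.GFHs

/-!
# S2717 piece MU (helper97): the multiplier of the conjugate by `Hs`
-/

set_option autoImplicit false

namespace Cfsg.Agent.Lib.Helper97.GFMU

open Matrix Module QuadraticMap
open Cfsg.Agent.Lib.Helper43.OPlAut Cfsg.Agent.Lib.Helper45.OmegaAut
  Cfsg.Agent.Lib.Helper43.H90Fin Cfsg.Agent.Lib.Helper45.MinusInndiag
open Cfsg.Agent.Lib.Helper44.OFld0 Cfsg.Agent.Lib.Helper44.OFld1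
  Cfsg.Agent.Lib.Helper44.OFldStmt Cfsg.Agent.Lib.Helper44.MFld0
  Cfsg.Agent.Lib.Helper44.MFldStmt Cfsg.Agent.Lib.Helper44.MCentStmt
  Cfsg.Agent.Lib.Helper44.GFStmt

universe u v

/-- `Q⁺ (Hs (j ∘ v)) = j (Q⁻ v)` -/
theorem plus_Hs_comp {F₀ : Type v} [Field F₀] {F : Type u} [Field F] (j : F₀ →+* F) (k : ℕ)
    (a₀ b₀ : F₀) (ω ω' : F) (hs : ω + ω' = j a₀) (hp : ω * ω' = j b₀) (v : MI k → F₀) :
    Cfsg.quadFormPlus (k + 1) F (Hs k ω ω' *ᵥ (j ∘ v)) =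
      j (Cfsg.quadFormMinus k F₀ a₀ b₀ v) := by
  have hiso := Cfsg.Agent.Lib.Helper44.GFHs.hsIso F k ω ω' (j ∘ v)
  rw [hs, hp] at hiso
  rw [hiso]
  exact minus_map j k a₀ b₀ v

/-- `g (Hs (j ∘ v)) = Hs (j ∘ (g₀ v))` -/
theorem mulVec_Hs_comp {F₀ : Type v} [Field F₀] {F : Type u} [Field F] (j : F₀ →+* F) (k : ℕ)
    (ω ω' : F) (A : Matrix (PI k) (PI k) F) (A₀ : Matrix (MI k) (MI k) F₀)
    (hmat : A * Hs k ω ω' = Hs k ω ω' * A₀.map j) (v : MI k → F₀) :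
    A *ᵥ (Hs k ω ω' *ᵥ (j ∘ v)) = Hs k ω ω' *ᵥ (j ∘ (A₀ *ᵥ v)) := by
  rw [Matrix.mulVec_mulVec, hmat, ← Matrix.mulVec_mulVec]
  congr 1
  funext i
  exact (RingHom.map_mulVec j A₀ v i).symm

theorem main : MultHs.{u, v} := by
  intro F₀ _ _ F _ _ j k a₀ b₀ ω ω' hs hp hne g₀ g hmat μ₀ hμ₀ w
  obtain ⟨c, hc⟩ := g.2
  obtain ⟨v₀, hv₀def⟩ : ∃ v₀ : MI k → F₀, v₀ = Pi.single (Sum.inr 0) 1 := ⟨_, rfl⟩
  have hQ₀ : Cfsg.quadFormMinus k F₀ a₀ b₀ v₀ = 1 := by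
    rw [hv₀def]
    unfold Cfsg.quadFormMinus
    simp
  have h3 := mulVec_Hs_comp j k ω ω' _ _ hmat v₀
  have h4 := hc (Hs k ω ω' *ᵥ (j ∘ v₀))
  rw [h3, plus_Hs_comp j k a₀ b₀ ω ω' hs hp, plus_Hs_comp j k a₀ b₀ ω ω' hs hp, hμ₀, hQ₀,
    mul_one, map_one, mul_one] at h4
  rw [hc w, ← h4]

end Cfsg.Agent.Lib.Helper97.GFMU
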