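import Mathlib
import Cfsg.Agent.Lib.Helper44.GFStmt
import Cfsg.Agent.Lib.Helper44.GFHs
import Cfsg.Agent.Lib.Helper45.PlusInndiag
import Cfsg.Agent.Lib.Helper97.MCentCO
import Cfsg.Agent.Lib.Helper97.GFMU

/-!
# S2717 piece CPO (helper97): `Inndiag` of the minus form over `F₀` against the class character,
odd characteristic
-/

set_option autoImplicit false

namespace Cfsg.Agent.Lib.Helper97.GFCPO

open Matrix Module QuadraticMap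
open Cfsg.Agent.Lib.Helper43.OPlAut Cfsg.Agent.Lib.Helper45.OmegaAut
  Cfsg.Agent.Lib.Helper43.H90Fin Cfsg.Agent.Lib.Helper45.MinusInndiag
open Cfsg.Agent.Lib.Helper44.OFld0 Cfsg.Agent.Lib.Helper44.OFld1
  Cfsg.Agent.Lib.Helper44.OFldStmt Cfsg.Agent.Lib.Helper44.MFld0
  Cfsg.Agent.Lib.Helper44.MFldStmt Cfsg.Agent.Lib.Helper44.MCentStmt
  Cfsg.Agent.Lib.Helper44.GFStmt
open Cfsg.Agent.Lib.Helper44.NegPairs Cfsg.Agent.Lib.Helper45.PlusInndiag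
  Cfsg.Agent.Lib.Helper45.OmegaAutPsi Cfsg.Agent.Lib.Helper45.OmegaAutMain

universe u v

theorem main (hInv : HsInv.{u}) : Compat2Odd.{u, v} := by
  intro F₀ _ _ F _ _ j k hk a₀ b₀ hab₀ h2 ω ω' hs hp hne ε hε g₀ g hmat
  have h2₀ : (2 : F₀) ≠ 0 := by
    intro h
    apply h2
    have h' := congrArg j h
    rw [map_ofNat, map_zero] at h'
    exact h'
  obtain ⟨v₀, hv₀def⟩ : ∃ v₀ : MI k → F₀, v₀ = Pi.single (Sum.inr 0) 1 := ⟨_, rfl⟩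
  have hQ₀ : minusQ k F₀ a₀ b₀ v₀ = 1 := by
    show Cfsg.quadFormMinus k F₀ a₀ b₀ v₀ = 1
    rw [hv₀def]
    unfold Cfsg.quadFormMinus
    simp
  have hv₀ : minusQ k F₀ a₀ b₀ v₀ ≠ 0 := by rw [hQ₀]; exact one_ne_zero
  obtain ⟨w₀, hw₀def⟩ : ∃ w₀ : PI k → F, w₀ = Hs k ω ω' *ᵥ (j ∘ v₀) := ⟨_, rfl⟩
  have hQ : plusQ (k + 1) F w₀ = 1 := by
    show Cfsg.quadFormPlus (k + 1) F w₀ = 1
    rw [hw₀def, Cfsg.Agent.Lib.Helper97.GFMU.plus_Hs_comp j k a₀ b₀ ω ω' hs hp]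
    have : Cfsg.quadFormMinus k F₀ a₀ b₀ v₀ = 1 := hQ₀
    rw [this, map_one]
  have hw₀ : plusQ (k + 1) F w₀ ≠ 0 := by rw [hQ]; exact one_ne_zero
  have e1 : Phi (Cfsg.quadFormMinus k F₀ a₀ b₀) g₀ ∈ Cfsg.inndiagPOmegaMinus k F₀ a₀ b₀ ↔
      dl (minusQ k F₀ a₀ b₀) hv₀ (k + 1) g₀ = 1 := by
    rw [inndiag_minus_eq h2₀ k hab₀ hv₀]
    exact Cfsg.Agent.Lib.Helper97.MCentCO.mem_D0_iff h2₀ k hk hab₀ hv₀ g₀
  have d1 := dl_eq_one_iff (minusQ k F₀ a₀ b₀) hv₀ (k + 1) g₀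
  have e2 : ε g = 1 ↔ dl (plusQ (k + 1) F) hw₀ (k + 1) g = 1 :=
    (hε.pres g).trans (plus_preserves_iff h2 (by omega) hw₀ g)
  have d2 := dl_eq_one_iff (plusQ (k + 1) F) hw₀ (k + 1) g
  have hμ : (mu (plusQ (k + 1) F) g : F) = j (mu (minusQ k F₀ a₀ b₀) g₀ : F₀) := by
    have h1 := mu_spec (plusQ (k + 1) F) g w₀
    have h4 := Cfsg.Agent.Lib.Helper97.GFMU.main F₀ F j k a₀ b₀ ω ω' hs hp hne g₀ g hmat
      (mu (minusQ k F₀ a₀ b₀) g₀ : F₀) (fun v => mu_spec (minusQ k F₀ a₀ b₀) g₀ v) w₀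
    have h5 : (mu (plusQ (k + 1) F) g : F) * plusQ (k + 1) F w₀ =
        j (mu (minusQ k F₀ a₀ b₀) g₀ : F₀) * plusQ (k + 1) F w₀ := h1.symm.trans h4
    rw [hQ, mul_one, mul_one] at h5
    exact h5
  have hdet : ((g : GL (PI k) F) : Matrix (PI k) (PI k) F).det =
      j (((g₀ : GL (MI k) F₀) : Matrix (MI k) (MI k) F₀).det) := by
    obtain ⟨H', h1, h2'⟩ := hInv F k ω ω' hne
    have h3 : ((g : GL (PI k) F) : Matrix (PI k) (PI k) F) =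
        Hs k ω ω' * ((g₀ : GL (MI k) F₀) : Matrix (MI k) (MI k) F₀).map j * H' := by
      rw [← hmat, Matrix.mul_assoc, h1, Matrix.mul_one]
    rw [h3, Matrix.det_conj_of_mul_eq_one h1 h2', RingHom.map_det]
    rfl
  have key : (((g₀ : GL (MI k) F₀) : Matrix (MI k) (MI k) F₀).det =
      (mu (minusQ k F₀ a₀ b₀) g₀ : F₀) ^ (k + 1)) ↔
      (((g : GL (PI k) F) : Matrix (PI k) (PI k) F).det =
        (mu (plusQ (k + 1) F) g : F) ^ (k + 1)) := by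
    rw [hμ, hdet, ← map_pow]
    exact ⟨fun h => by rw [h], fun h => j.injective h⟩
  exact e1.trans (d1.trans (key.trans (d2.symm.trans e2.symm)))

end Cfsg.Agent.Lib.Helper97.GFCPO
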