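import Mathlib
import Cfsg.Agent.Lib.Helper44.GFStmt
import Cfsg.Agent.Lib.Helper44.GFHs

/-!
# S2717 piece TH (helper97): conjugating a rational similarity of the minus form by `Hs`
-/

set_option autoImplicit false

namespace Cfsg.Agent.Lib.Helper97.GFTH

open Matrix Module QuadraticMap
open Cfsg.Agent.Lib.Helper43.OPlAut Cfsg.Agent.Lib.Helper45.OmegaAut
  Cfsg.Agent.Lib.Helper43.H90Fin Cfsg.Agent.Lib.Helper45.MinusInndiag
open Cfsg.Agent.Lib.Helper44.OFld0 Cfsg.Agent.Lib.Helper44.OFld1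
  Cfsg.Agent.Lib.Helper44.OFldStmt Cfsg.Agent.Lib.Helper44.MFld0
  Cfsg.Agent.Lib.Helper44.MFldStmt Cfsg.Agent.Lib.Helper44.MCentStmt
  Cfsg.Agent.Lib.Helper44.GFStmt

universe u v

theorem main (hInv : HsInv.{u}) (hMS : MapSim.{u, v}) : ThetaExists.{u, v} := by
  intro F₀ _ _ F _ _ j k a₀ b₀ ω ω' hs hp hne g₀
  obtain ⟨H', h1, h2⟩ := hInv F k ω ω' hne
  obtain ⟨M, hM⟩ : ∃ M : Matrix (MI k) (MI k) F,
      M = ((g₀ : GL (MI k) F₀) : Matrix (MI k) (MI k) F₀).map j := ⟨_, rfl⟩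
  obtain ⟨M', hM'⟩ : ∃ M' : Matrix (MI k) (MI k) F,
      M' = (((g₀ : GL (MI k) F₀)⁻¹ : GL (MI k) F₀) : Matrix (MI k) (MI k) F₀).map j := ⟨_, rfl⟩
  have hMM' : M * M' = 1 := by
    rw [hM, hM', ← Matrix.map_mul, ← Units.val_mul, mul_inv_cancel, Units.val_one,
      Matrix.map_one _ j.map_zero j.map_one]
  have hM'M : M' * M = 1 := by
    rw [hM, hM', ← Matrix.map_mul, ← Units.val_mul, inv_mul_cancel, Units.val_one,
      Matrix.map_one _ j.map_zero j.map_one]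
  have hconj : ∀ A B : Matrix (MI k) (MI k) F, A * B = 1 →
      (Hs k ω ω' * A * H') * (Hs k ω ω' * B * H') = 1 := by
    intro A B hAB
    calc (Hs k ω ω' * A * H') * (Hs k ω ω' * B * H')
        = Hs k ω ω' * (A * ((H' * Hs k ω ω') * B)) * H' := by
          simp only [Matrix.mul_assoc]
      _ = 1 := by rw [h2, Matrix.one_mul, hAB, Matrix.mul_one, h1]
  obtain ⟨g', hg'⟩ : ∃ g' : GL (PI k) F,
      ((g' : GL (PI k) F) : Matrix (PI k) (PI k) F) = Hs k ω ω' * M * H' :=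
    ⟨⟨Hs k ω ω' * M * H', Hs k ω ω' * M' * H', hconj M M' hMM', hconj M' M hM'M⟩, rfl⟩
  have hsim : g' ∈ Cfsg.Geo.quadSimilarityGroup (F := F) (Cfsg.quadFormPlus (k + 1) F) := by
    obtain ⟨c, hc⟩ := hMS F₀ F j k a₀ b₀ (g₀ : GL (MI k) F₀) g₀.2
    refine ⟨c, fun w => ?_⟩
    have hiso : ∀ u : MI k → F, Cfsg.quadFormPlus (k + 1) F (Hs k ω ω' *ᵥ u) =
        Cfsg.quadFormMinus k F (j a₀) (j b₀) u := by
      intro u
      have h := Cfsg.Agent.Lib.Helper44.GFHs.hsIso F k ω ω' u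
      rw [hs, hp] at h
      exact h
    have hw : w = Hs k ω ω' *ᵥ (H' *ᵥ w) := by
      rw [Matrix.mulVec_mulVec, h1, Matrix.one_mulVec]
    have h3 : ((g' : GL (PI k) F) : Matrix (PI k) (PI k) F) *ᵥ w =
        Hs k ω ω' *ᵥ (M *ᵥ (H' *ᵥ w)) := by
      rw [hg', Matrix.mulVec_mulVec, Matrix.mulVec_mulVec, Matrix.mul_assoc]
    have h4 := hc (H' *ᵥ w)
    have h5 : ((Matrix.GeneralLinearGroup.map j (g₀ : GL (MI k) F₀) : GL (MI k) F) :
        Matrix (MI k) (MI k) F) = M := by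
      rw [hM]
      rfl
    rw [h5] at h4
    rw [h3, hiso, h4]
    conv_rhs => rw [hw, hiso]
  refine ⟨⟨g', hsim⟩, ?_⟩
  show ((g' : GL (PI k) F) : Matrix (PI k) (PI k) F) * Hs k ω ω' = Hs k ω ω' * _
  rw [hg', ← hM, Matrix.mul_assoc, h2, Matrix.mul_one]

end Cfsg.Agent.Lib.Helper97.GFTH
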