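import Mathlib
import Cfsg.Agent.Lib.Helper44.MCentStmt
import Cfsg.Agent.Lib.Helper45.MinusInndiag
import Cfsg.Agent.Lib.Helper97.MFldMB

/-!
# S2716 piece MR (helper97): multipliers are rational up to squares
-/

set_option autoImplicit false

namespace Cfsg.Agent.Lib.Helper97.MCentMR

open Matrix Module QuadraticMap
open Cfsg.Agent.Lib.Helper45.OmegaAut Cfsg.Agent.Lib.Helper43.H90Fin
open Cfsg.Agent.Lib.Helper44.MFld0 Cfsg.Agent.Lib.Helper44.MaxTS
  Cfsg.Agent.Lib.Helper44.NegPairs Cfsg.Agent.Lib.Helper44.QSpace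
  Cfsg.Agent.Lib.Helper44.QClass Cfsg.Agent.Lib.Helper44.MFldStmt
  Cfsg.Agent.Lib.Helper44.MCentStmt Cfsg.Agent.Lib.Helper44.OMat
  Cfsg.Agent.Lib.Helper45.MinusInndiag Cfsg.Agent.Lib.Helper45.PlusInndiag

universe u

theorem Tm_map {K : Type*} [Field K] (σ : K ≃+* K) (m : ℕ) (μ s t a b : K) (hμ : σ μ = μ)
    (hs : σ s = s) (ht : σ t = t) (ha : σ a = a) (hb : σ b = b) :
    (Tm m μ s t a b).map σ = Tm m μ s t a b := by
  unfold Tm
  rw [Matrix.fromBlocks_map, Matrix.fromBlocks_map]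
  congr 1
  · congr 1
    · ext i j; simp
    · ext i j
      simp only [Matrix.map_apply, Matrix.one_apply]
      split_ifs <;> simp
    · ext i j
      simp only [Matrix.map_apply, Matrix.smul_apply, Matrix.one_apply, smul_eq_mul]
      split_ifs <;> simp [hμ]
    · ext i j; simp
  · ext i j; simp
  · ext i j; simp
  · ext i j
    fin_cases i <;> fin_cases j <;> simp [hs, ht, ha, hb]

theorem main (hSQ : SqClass.{u}) : MultRat.{u} := by
  intro F _ _ m hm a b hab h2 σ ha hb hodd g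
  obtain ⟨μ, hμ⟩ := g.2
  obtain ⟨e, c, he0, hc0, hσe, hy⟩ := hSQ F h2 σ hodd (μ : F) μ.ne_zero
  letI : Fintype ↥(fixF σ) := Fintype.ofFinite _
  have haE : a ∈ fixF σ := (mem_fixF σ a).2 ha
  have hbE : b ∈ fixF σ := (mem_fixF σ b).2 hb
  have heE : e ∈ fixF σ := (mem_fixF σ e).2 hσe
  have h2E : (2 : ↥(fixF σ)) ≠ 0 := by
    intro h
    apply h2
    have h1 : ((1 + 1 : ↥(fixF σ)) : F) = 0 := by
      rw [one_add_one_eq_two, h]
      rfl
    rw [← one_add_one_eq_two]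
    simpa only [Subfield.coe_add, Subfield.coe_one] using h1
  have habE : ∀ z₁ z₂ : ↥(fixF σ),
      z₁ ^ 2 + (⟨a, haE⟩ : ↥(fixF σ)) * z₁ * z₂ + (⟨b, hbE⟩ : ↥(fixF σ)) * z₂ ^ 2 = 0 →
        z₁ = 0 ∧ z₂ = 0 := by
    intro z₁ z₂ h
    have h' := congrArg (Subtype.val) h
    simp only [Subfield.coe_add, Subfield.coe_mul, SubmonoidClass.coe_pow, ZeroMemClass.coe_zero] at h'
    obtain ⟨h1, h2'⟩ := hab (z₁ : F) (z₂ : F) h'
    exact ⟨Subtype.ext h1, Subtype.ext h2'⟩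
  obtain ⟨s, t, hst⟩ := Cfsg.Agent.Lib.Helper45.MinusInndiag.exists_norm h2E habE ⟨e, heE⟩
  have hst' : (s : F) ^ 2 + a * (s : F) * (t : F) + b * (t : F) ^ 2 = e := by
    have h' := congrArg (Subtype.val) hst
    simpa only [Subfield.coe_add, Subfield.coe_mul, SubmonoidClass.coe_pow] using h'
  have hσs : σ (s : F) = s := (mem_fixF σ _).1 s.2
  have hσt : σ (t : F) = t := (mem_fixF σ _).1 t.2
  have hS := Cfsg.Agent.Lib.Helper97.MFldMB.sepMinus F m a b hab
  have hL : ∀ v, minusQ m F a b (Matrix.toLin' (Tm m e (s : F) (t : F) a b) v)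
      = ((Units.mk0 e he0 : Fˣ) : F) * minusQ m F a b v := by
    intro v
    rw [Matrix.toLin'_apply, Units.val_mk0]
    have h := Tm_sim m (s : F) (t : F) a b v
    rw [hst'] at h
    exact h
  obtain ⟨g₁, hg₁⟩ := exists_sim_mulVec (minusQ m F a b) hS _ (Units.mk0 e he0) hL
  have hmat : ((g₁ : GL (MI m) F) : Matrix (MI m) (MI m) F) = Tm m e (s : F) (t : F) a b :=
    matrix_ext_mulVec (fun x => by rw [hg₁, Matrix.toLin'_apply])
  refine ⟨g₁, c, hc0, ?_, fun v => ?_⟩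
  · rw [hmat]
    exact Tm_map σ m e s t a b hσe hσs hσt ha hb
  · rw [hμ v, hg₁ v]
    have h := hL v
    rw [Units.val_mk0] at h
    have h' : Cfsg.quadFormMinus m F a b (Matrix.toLin' (Tm m e (s : F) (t : F) a b) v)
        = e * Cfsg.quadFormMinus m F a b v := h
    rw [h', hy]
    ring

end Cfsg.Agent.Lib.Helper97.MCentMR
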