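import Mathlib
import Cfsg.Agent.Lib.Helper88.ORStmt
import Cfsg.Agent.H85.PPowNormal
import Cfsg.Agent.Lib.Helper87.FSBasic

/-!
# S5202, piece BASE: at the bottom of the series `S' = T C_S(T)`

If `Aut_{F'}(T) ≤ Aut_E(T)` then conjugation by `x ∈ S'` on `T` is a `p`-element of `Aut_E(T)`,
hence inner (`Inn(T)` is a normal Sylow `p`-subgroup of `Aut_E(T)`), so `x ∈ T C_S(T)`.
-/

set_option autoImplicit false

namespace Cfsg.Agent.Lib.Helper97.ORBASE

open Cfsg Cfsg.FusionSystem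
open Cfsg.Agent.Lib.Helper87.FSBasic

universe u

/-- the inner automorphisms of `T` form a normal subgroup of `Aut(T)` -/
theorem autInducedBy_self_normal {Ω : Type*} [Group Ω] (T : Subgroup Ω) :
    (autInducedBy T T).Normal := by
  constructor
  intro α hα β
  obtain ⟨g, hg, hgα⟩ := (mem_autInducedBy_iff α).1 hα
  rw [mem_autInducedBy_iff]
  refine ⟨((β ⟨g, hg⟩ : T) : Ω), (β ⟨g, hg⟩).2, fun x => ?_⟩
  have h1 : α (β⁻¹ x) = ⟨g, hg⟩ * β⁻¹ x * (⟨g, hg⟩ : T)⁻¹ := by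
    apply Subtype.ext
    rw [hgα]
    rfl
  show ((β (α (β⁻¹ x)) : T) : Ω) = _
  rw [h1, map_mul, map_mul, map_inv, MulAut.apply_inv_self]
  rfl

/-- a subgroup strongly closed in a fusion system over `S` is normalized by `S` -/
theorem mem_normalizer_of_stronglyClosed {Ω : Type*} [Group Ω] {S : Subgroup Ω}
    (F : FusionSystem S) {T : Subgroup Ω} (hT : F.StronglyClosed T) {s : Ω} (hs : s ∈ S) :
    s ∈ Subgroup.normalizer (T : Set Ω) := by
  rw [Subgroup.mem_normalizer_iff]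
  intro t
  constructor
  · intro ht
    exact hT.2 T le_rfl (conjHom T s) (F.conj_mem hT.1 hs) ⟨t, ht⟩
  · intro ht
    have h := hT.2 T le_rfl (conjHom T s⁻¹) (F.conj_mem hT.1 (S.inv_mem hs)) ⟨s * t * s⁻¹, ht⟩
    have h2 : conjHom T s⁻¹ ⟨s * t * s⁻¹, ht⟩ = t := by
      show s⁻¹ * (s * t * s⁻¹) * s⁻¹⁻¹ = t
      group
    rwa [h2] at h

theorem main : Cfsg.Agent.Lib.Helper88.ORStmt.BaseCase.{u} := by
  intro Ω _ S _ p _ hS F hF T E S' F' hEN hF'F hle hAut
  have hp : p.Prime := Fact.out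
  have hE : E.IsSaturated p := hEN.1.1
  have hT : F.StronglyClosed T := hEN.1.2.2.2.1
  have hTS : T ≤ S := hT.1
  have hTS' : T ≤ S' := le_sup_left.trans hle
  have hS'S : S' ≤ S := dom_le F (hF'F S' (subtype_mem F' le_rfl))
  have hfinT : Finite T :=
    Finite.of_injective (Subgroup.inclusion hTS) (Subgroup.inclusion_injective hTS)
  refine le_antisymm ?_ hle
  intro x hx
  have hxS : x ∈ S := hS'S hx
  have hxN : x ∈ Subgroup.normalizer (T : Set Ω) := mem_normalizer_of_stronglyClosed F hT hxS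
  obtain ⟨c, hcx⟩ : ∃ c : MulAut T, ∀ t : T, ((c t : T) : Ω) = x * t * x⁻¹ :=
    ⟨T.normalizerMonoidHom ⟨x, hxN⟩, fun t => rfl⟩
  have hcF' : c ∈ F'.autGroup T := by
    rw [mem_autGroup_iff F' hTS']
    exact mem_of_eq F' (F'.conj_mem hTS' hx) fun t => hcx t
  have hcE : c ∈ E.autGroup T := hAut hcF'
  obtain ⟨k, hk⟩ := hS ⟨x, hxS⟩
  have hxk : x ^ p ^ k = 1 := by
    have := congrArg (fun s : S => (s : Ω)) hk
    simpa using this
  have hcpow : ∀ n : ℕ, ∀ t : T, (((c ^ n) t : T) : Ω) = x ^ n * t * (x ^ n)⁻¹ := by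
    intro n
    induction n with
    | zero => intro t; simp
    | succ n ih =>
      intro t
      rw [pow_succ, MulAut.mul_apply, ih, hcx, pow_succ]
      group
  have hck : c ^ p ^ k = 1 := by
    ext t
    rw [hcpow, hxk]
    simp
  have hETcl : E.StronglyClosed T := ⟨le_rfl, fun R _ φ hφ y => (E.le_of_mem hφ).2 y⟩
  obtain ⟨-, R, hR⟩ := (Cfsg.Agent.H85.far_of_stronglyClosed E hE hETcl).1
  have hRn : (R : Subgroup (E.autGroup T)).Normal := by
    rw [hR]
    have := autInducedBy_self_normal T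
    infer_instance
  have hzp : IsPGroup p (Subgroup.zpowers (⟨c, hcE⟩ : E.autGroup T)) := by
    rintro ⟨y, hy⟩
    obtain ⟨n, rfl⟩ := Subgroup.mem_zpowers_iff.1 hy
    refine ⟨k, ?_⟩
    apply Subtype.ext
    have hc1 : (⟨c, hcE⟩ : E.autGroup T) ^ p ^ k = 1 := Subtype.ext hck
    show ((⟨c, hcE⟩ : E.autGroup T) ^ n) ^ p ^ k = 1
    rw [← zpow_natCast, ← zpow_mul, mul_comm, zpow_mul, zpow_natCast, hc1, one_zpow]
  obtain ⟨Q, hQ⟩ := hzp.exists_le_sylow
  have hsub : Subsingleton (Sylow p (E.autGroup T)) :=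
    (Sylow.unique_of_normal R hRn).instSubsingleton
  have hQR : Q = R := Subsingleton.elim _ _
  have hcR : (⟨c, hcE⟩ : E.autGroup T) ∈ (R : Subgroup (E.autGroup T)) := by
    rw [← hQR]
    exact hQ (Subgroup.mem_zpowers _)
  rw [hR, Subgroup.mem_subgroupOf] at hcR
  obtain ⟨t, ht, hct⟩ := (mem_autInducedBy_iff c).1 hcR
  have hcent : t⁻¹ * x ∈ centralizerIn S T := by
    refine ⟨S.mul_mem (S.inv_mem (hTS ht)) hxS, ?_⟩
    show t⁻¹ * x ∈ Subgroup.centralizer (T : Set Ω)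
    rw [Subgroup.mem_centralizer_iff]
    intro s hs
    have h1 := hct ⟨s, hs⟩
    have h2 := hcx ⟨s, hs⟩
    have h3 : t * s * t⁻¹ = x * s * x⁻¹ := h1.symm.trans h2
    have h4 : s = t⁻¹ * (x * s * x⁻¹) * t := by
      rw [← h3]
      group
    calc s * (t⁻¹ * x) = t⁻¹ * (x * s * x⁻¹) * t * (t⁻¹ * x) := by rw [← h4]
      _ = t⁻¹ * x * s := by group
  have hx' : x = t * (t⁻¹ * x) := by group
  rw [hx']
  exact Subgroup.mul_mem _ (Subgroup.mem_sup_left ht) (Subgroup.mem_sup_right hcent)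

end Cfsg.Agent.Lib.Helper97.ORBASE
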