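import Mathlib
import Cfsg.Agent.Lib.Helper88.ORStmt
import Cfsg.Agent.H85.PPowNormal
import Cfsg.Agent.H85.PrimeIdx
import Cfsg.Agent.Lib.Helper87.FSBasic
import Cfsg.Agent.Lib.Helper87.FSSat
import Cfsg.Agent.Lib.Helper87.ChainStab
import Cfsg.Agent.Lib.Helper88.FSBase
import Cfsg.Agent.Lib.Helper97.ORBASE

/-!
# S5202, piece AUTQ: the automizer of `T` in a subsystem of index prime to `p`

`A = Aut_{F''}(T)`, `N` the subgroup generated by its `p`-elements, `R = Aut_S(T)`: by the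
Frattini argument `α = n ν` with `n ∈ N` and `ν` normalizing `R`; `N ≤ Γ`, and `ν` extends to an
automorphism of `S` in `F''` (as `T` is receptive in `F''`), so `ν ∈ Γ`.
-/

set_option autoImplicit false

namespace Cfsg.Agent.Lib.Helper97.ORAUTQ

open Cfsg Cfsg.FusionSystem
open Cfsg.Agent.Lib.Helper87.FSBasic
open Cfsg.Agent.Lib.Helper88.ORStmt

universe u

theorem main : AutQStep.{u} := by
  intro Ω _ S _ p _ hS F hF T hTS F'' Γ hT hF'' hsub hΓp hΓres
  have hT'' : F''.StronglyClosed T := ⟨hTS, fun R hR φ hφ x => hT.2 R hR φ (hsub R hφ) x⟩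
  obtain ⟨hfa, hrec⟩ := Cfsg.Agent.H85.far_of_stronglyClosed F'' hF'' hT''
  have hfinT : Finite T :=
    Finite.of_injective (Subgroup.inclusion hTS) (Subgroup.inclusion_injective hTS)
  have hmono : F''.autGroup T ≤ F.autGroup T := Subgroup.closure_mono (fun _ hα => hsub T hα)
  obtain ⟨N, hNdef⟩ : ∃ N : Subgroup (MulAut T),
      N = (Cfsg.Agent.H85.ppGen p (F''.autGroup T)).map (F''.autGroup T).subtype := ⟨_, rfl⟩
  have hNA : N ≤ F''.autGroup T := by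
    rw [hNdef]
    rintro _ ⟨b, -, rfl⟩
    exact b.2
  have hnorm : ∀ a ∈ F''.autGroup T, ∀ n ∈ N, a * n * a⁻¹ ∈ N := by
    intro a ha n hn
    rw [hNdef] at hn ⊢
    obtain ⟨b, hb, rfl⟩ := hn
    exact ⟨⟨a, ha⟩ * b * ⟨a, ha⟩⁻¹, Cfsg.Agent.H85.ppGen_conj_mem p ⟨a, ha⟩ hb, rfl⟩
  have hNΓ : N ≤ Γ := by
    rw [hNdef, Subgroup.map_le_iff_le_comap]
    refine (Subgroup.closure_le _).mpr ?_
    rintro g ⟨k, hk⟩
    show ((g : F''.autGroup T) : MulAut T) ∈ Γ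
    refine hΓp _ (hmono g.2) ⟨k, ?_⟩
    rw [Subgroup.orderOf_coe]
    exact hk
  intro α hα
  obtain ⟨n, hn, ν, hν, hαnν, hνd⟩ :=
    Cfsg.Agent.Lib.Helper87.ChainStab.frattini_decomp (F''.autGroup T) N
      (autInducedBy S T) hNA hnorm (isPGroup_autInducedBy hS T)
      (fun K hK hKp => Cfsg.Agent.Lib.Helper87.FSSat.exists_conj_le_autS F'' hfa K hKp hK) α hα
  have hRN : autInducedBy S T ≤ N := by
    intro c hc
    rw [hNdef]
    obtain ⟨k, hk⟩ := (IsPGroup.iff_orderOf.mp (isPGroup_autInducedBy hS T)) ⟨c, hc⟩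
    refine ⟨⟨c, autInducedBy_le_autGroup F'' hTS hc⟩, Subgroup.subset_closure ⟨k, ?_⟩, rfl⟩
    rw [← hk, ← Subgroup.orderOf_coe, ← Subgroup.orderOf_coe]
  have hνΓ : ν ∈ Γ := by
    have hφ : T.subtype.comp ν.toMonoidHom ∈ F''.Hom T := (mem_autGroup_iff F'' hTS ν).1 hν
    have hrange : (T.subtype.comp ν.toMonoidHom).range = T := range_autHom ν
    obtain ⟨ψ, hψ, hψext⟩ := hrec.2 T _ hφ hrange
    have hSext : S ≤ extender S T (T.subtype.comp ν.toMonoidHom) := by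
      intro g hg
      rw [Cfsg.Agent.Lib.Helper88.FSBase.mem_extender_iff]
      have hgN : g ∈ Subgroup.normalizer (T : Set Ω) :=
        Cfsg.Agent.Lib.Helper97.ORBASE.mem_normalizer_of_stronglyClosed F hT hg
      refine ⟨hg, hgN, ?_⟩
      have hc : T.normalizerMonoidHom ⟨g, hgN⟩ ∈ autInducedBy S T ⊓ N :=
        ⟨conj_mem_autInducedBy hg hgN, hRN (conj_mem_autInducedBy hg hgN)⟩
      obtain ⟨h, hh, hhc⟩ := (mem_autInducedBy_iff _).1 (hνd _ hc).1
      refine ⟨h, hh, fun x hx => ?_⟩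
      have h1 := hhc (ν x)
      rw [MulAut.mul_apply, MulAut.mul_apply, MulAut.inv_apply_self] at h1
      show ((ν ⟨g * x * g⁻¹, hx⟩ : T) : Ω) = h * ((ν x : T) : Ω) * h⁻¹
      rw [← h1]
      rfl
    have hψS : ψ.comp (Subgroup.inclusion hSext) ∈ F''.Hom S := restrict_mem F'' hψ hSext
    have hψr : (ψ.comp (Subgroup.inclusion hSext)).range = S :=
      Cfsg.Agent.Lib.Helper88.FSBase.range_eq_of_finite F'' hψS
        (fun x => (F''.le_of_mem hψS).2 x)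
    obtain ⟨a, ha, hax⟩ := Cfsg.Agent.Lib.Helper88.FSBase.exists_aut_of_mem F'' hψS hψr
    obtain ⟨g, hgΓ, hres⟩ := hΓres a ha
    have hgν : g = ν := by
      ext t
      rw [hres t, hax]
      exact hψext (t : Ω) t.2 (hSext (hTS t.2))
    rw [← hgν]
    exact hgΓ
  rw [hαnν]
  exact Γ.mul_mem (hNΓ hn) hνΓ

end Cfsg.Agent.Lib.Helper97.ORAUTQ
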