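import Mathlib
import Cfsg.Agent.Lib.Helper88.ORStmt

/-!
# S5202, piece COPIDX: a normal subgroup containing the `p`-elements has index prime to `p`
-/

set_option autoImplicit false

namespace Cfsg.Agent.Lib.Helper97.ORCOPIDX

universe u

theorem main : Cfsg.Agent.Lib.Helper88.ORStmt.CoprimeIdx.{u} := by
  intro G _ _ p _ K _ hK
  have hp : p.Prime := Fact.out
  obtain ⟨P⟩ : Nonempty (Sylow p G) := inferInstance
  have hPK : (P : Subgroup G) ≤ K := by
    intro x hx
    apply hK
    obtain ⟨k, hk⟩ := P.isPGroup' ⟨x, hx⟩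
    have hk' : x ^ p ^ k = 1 := by
      have := congrArg (fun s : (P : Subgroup G) => (s : G)) hk
      simpa using this
    obtain ⟨m, -, hm⟩ := (Nat.dvd_prime_pow hp).1 (orderOf_dvd_of_pow_eq_one hk')
    exact ⟨m, hm⟩
  have h1 : K.index ∣ (P : Subgroup G).index := Subgroup.index_dvd_of_le hPK
  have h2 : ¬ p ∣ (P : Subgroup G).index := P.not_dvd_index
  have h3 : ¬ p ∣ K.index := fun h => h2 (h.trans h1)
  rw [← Subgroup.index_eq_card]
  exact ((Nat.Prime.coprime_iff_not_dvd hp).2 h3).symm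

end Cfsg.Agent.Lib.Helper97.ORCOPIDX
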