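import Mathlib
import Cfsg.Agent.Lib.Helper88.ORStmt
import Cfsg.Agent.S5198

/-!
# S5202, piece HYPS: the hyperfocal subgroup acts on a strongly closed subgroup through `Γ`

By S5198 an element of `hyp(F)` acts on `T` as an element of `O^p(Aut_F(T)) Inn(T)`, and that
subgroup lies in `Γ`.
-/

set_option autoImplicit false

namespace Cfsg.Agent.Lib.Helper97.ORHYPS

open Cfsg Cfsg.FusionSystem
open Cfsg.Agent.Lib.Helper88.ORStmt

universe u

theorem main : Cfsg.Agent.Lib.Helper88.ORStmt.HypAct.{u} := by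
  intro Ω _ S _ p _ hS F hF T Γ hT hΓ hInn x hx
  obtain ⟨α, hα, hαx⟩ := Cfsg.Agent.S5198.result p hS F hF T hT x hx
  refine ⟨α, ?_, hαx⟩
  have hle : ((Cfsg.pResidual p ↥(F.autGroup T)).map (F.autGroup T).subtype ⊔ Cfsg.Inn ↥T :
      Subgroup (MulAut ↥T)) ≤ Γ := by
    refine sup_le ?_ ?_
    · rw [Subgroup.map_le_iff_le_comap]
      unfold Cfsg.pResidual
      rw [Subgroup.closure_le]
      intro g hg
      have hg' : Nat.Coprime (orderOf g) p := hg
      show ((g : F.autGroup T) : MulAut T) ∈ Γ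
      refine hΓ _ g.2 ?_
      rw [Subgroup.orderOf_coe]
      exact hg'
    · rintro _ ⟨t, rfl⟩
      obtain ⟨g, hg, hgt⟩ := hInn (t : Ω) t.2
      have : g = MulAut.conj t := by
        ext s
        rw [hgt s]
        rfl
      rw [← this]
      exact hg
  exact hle hα

end Cfsg.Agent.Lib.Helper97.ORHYPS
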