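import Mathlib
import Cfsg.Agent.Lib.Helper88.ORStmt

/-!
# S5202, piece SERIES: elements of a section of `p`-power order or of order prime to `p`
-/

set_option autoImplicit false

namespace Cfsg.Agent.Lib.Helper97.ORSERIES

universe u

/-- an element of `K` whose order is prime to the index of the normal subgroup `H` in `K` lies
in `H` -/
theorem mem_of_coprime_relIndex {G : Type u} [Group G] [Finite G] (H K : Subgroup G) [H.Normal]
    (x : G) (hx : x ∈ K) (hcop : (orderOf x).Coprime (H.relIndex K)) : x ∈ H := by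
  have h1 : orderOf (QuotientGroup.mk' (H.subgroupOf K) ⟨x, hx⟩) ∣ orderOf x := by
    have h := orderOf_map_dvd (QuotientGroup.mk' (H.subgroupOf K)) (⟨x, hx⟩ : K)
    rwa [Subgroup.orderOf_mk] at h
  have h2 : orderOf (QuotientGroup.mk' (H.subgroupOf K) ⟨x, hx⟩) ∣ H.relIndex K := by
    have h := orderOf_dvd_natCard (QuotientGroup.mk' (H.subgroupOf K) ⟨x, hx⟩)
    rwa [← Subgroup.index_eq_card] at h
  have h3 : orderOf (QuotientGroup.mk' (H.subgroupOf K) ⟨x, hx⟩) = 1 :=
    Nat.eq_one_of_dvd_coprimes hcop h1 h2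
  rw [orderOf_eq_one_iff] at h3
  have h4 : (⟨x, hx⟩ : K) ∈ H.subgroupOf K := by
    rw [← QuotientGroup.eq_one_iff]
    exact h3
  exact Subgroup.mem_subgroupOf.1 h4

theorem main : Cfsg.Agent.Lib.Helper88.ORStmt.SeriesElt.{u} := by
  intro G _ _ p _ H K _ _
  have hp : p.Prime := Fact.out
  refine ⟨?_, ?_⟩
  · rintro ⟨m, hm⟩ x hx hcop
    refine mem_of_coprime_relIndex H K x hx ?_
    rw [hm]
    exact Nat.Coprime.pow_right m hcop
  · rintro hcop x hx ⟨k, hk⟩
    refine mem_of_coprime_relIndex H K x hx ?_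
    rw [hk]
    exact (Nat.Coprime.pow_right k hcop).symm

end Cfsg.Agent.Lib.Helper97.ORSERIES
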