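import Mathlib
import Cfsg.Agent.Lib.Helper27.OzStmt

/-!
# S5388, piece OHOM: the homomorphism to the orthogonal group of plus type in dimension 8

A group acting on a set with an invariant symplectic form over the field of two elements, in
which every element is non-singular for the quadratic form `qr` in the coordinates of a
symplectic basis, maps to the orthogonal group: the matrix of `g` on the basis is symplectic and
its columns are non-singular, hence it preserves `qr`; conjugating by `pmat` gives an isometry of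
the standard form.
-/

set_option autoImplicit false

namespace Cfsg.Agent.Lib.Helper97.OzOHOM

open Matrix
open Cfsg.Agent.Lib.Helper27.OzStmt

theorem J_apply (i j : I8) :
    Matrix.J (Fin 4) (ZMod 2) i j = if j = i.swap then 1 else 0 := by
  have hneg : (-1 : ZMod 2) = 1 := by decide
  rcases i with a | a <;> rcases j with c | c
  · simp [Matrix.J]
  · by_cases h : a = c
    · subst h
      simp [Matrix.J, hneg]
    · have h' : ¬ c = a := fun h2 => h h2.symm
      simp [Matrix.J, h, h']
  · by_cases h : a = c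
    · subst h
      simp [Matrix.J]
    · have h' : ¬ c = a := fun h2 => h h2.symm
      simp [Matrix.J, h, h']
  · simp [Matrix.J]

theorem pmat_pinv : pmat * pinv = 1 := by decide +kernel

theorem pinv_pmat : pinv * pmat = 1 := by decide +kernel

theorem quad_pmat : ∀ c : V8, Cfsg.quadFormPlus 4 (ZMod 2) (pmat *ᵥ c) = qr c := by
  unfold Cfsg.quadFormPlus qr
  decide +kernel

theorem qr_single : ∀ j : I8, qr (Pi.single j 1) = 1 := by
  unfold qr
  decide +kernel

theorem qr_zero : qr 0 = 0 := by
  unfold qr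
  simp

/-- the polar form of `qr` -/
theorem qr_add (c d : V8) : qr (c + d) = qr c + qr d + ∑ i, c i * d i.swap := by
  unfold qr
  rw [Fintype.sum_sum_type (fun i => c i * d i.swap)]
  simp only [Pi.add_apply, Sum.swap_inl, Sum.swap_inr, Finset.sum_add_distrib, add_mul, mul_add]
  have h : ∑ a : Fin 4, d (Sum.inl a) * c (Sum.inr a) = ∑ a : Fin 4, c (Sum.inr a) * d (Sum.inl a) :=
    Finset.sum_congr rfl fun a _ => mul_comm _ _
  rw [h]
  ring

theorem J_mulVec (d : V8) (i : I8) : (Matrix.J (Fin 4) (ZMod 2) *ᵥ d) i = d i.swap := by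
  rw [Matrix.mulVec, dotProduct, Finset.sum_eq_single i.swap]
  · rw [J_apply, if_pos rfl, one_mul]
  · intro j _ hj
    rw [J_apply, if_neg hj, zero_mul]
  · intro h
    exact absurd (Finset.mem_univ _) h

/-- a symplectic matrix whose columns are non-singular preserves `qr` -/
theorem qr_mulVec (A : M8) (hA : A.transpose * Matrix.J (Fin 4) (ZMod 2) * A = Matrix.J (Fin 4) (ZMod 2))
    (hcol : ∀ j, qr (A *ᵥ Pi.single j 1) = 1) (c : V8) : qr (A *ᵥ c) = qr c := by
  have hpol : ∀ c d : V8, ∑ i, (A *ᵥ c) i * (A *ᵥ d) i.swap = ∑ i, c i * d i.swap := by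
    intro c d
    have h1 : ∀ x y : V8, ∑ i, x i * y i.swap = x ⬝ᵥ (Matrix.J (Fin 4) (ZMod 2) *ᵥ y) := by
      intro x y
      rw [dotProduct]
      refine Finset.sum_congr rfl fun i _ => ?_
      rw [J_mulVec]
    rw [h1, h1, ← Matrix.vecMul_transpose, ← Matrix.dotProduct_mulVec, Matrix.mulVec_mulVec,
      Matrix.mulVec_mulVec, hA]
  have hadd : ∀ c d : V8, qr (A *ᵥ c) = qr c → qr (A *ᵥ d) = qr d →
      qr (A *ᵥ (c + d)) = qr (c + d) := by
    intro c d hc hd
    rw [Matrix.mulVec_add, qr_add, qr_add, hc, hd, hpol]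
  have hsum : ∀ s : Finset I8, qr (A *ᵥ (∑ j ∈ s, Pi.single j (c j))) =
      qr (∑ j ∈ s, Pi.single j (c j)) := by
    intro s
    induction s using Finset.induction_on with
    | empty => simp [qr_zero]
    | insert a s ha ih =>
      rw [Finset.sum_insert ha]
      refine hadd _ _ ?_ ih
      have h01 : c a = 0 ∨ c a = 1 := by
        generalize c a = z
        revert z
        decide
      rcases h01 with h0 | h1
      · rw [h0]
        simp [qr_zero]
      · rw [h1, hcol, qr_single]
  have := hsum Finset.univ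
  rwa [Finset.univ_sum_single] at this

theorem main : OHom := by
  intro C R _ _ B b hinv hb hcomp hns
  have hcomp' : ∀ x y, B x y = ∑ i, B (b i) x * B (b i.swap) y := by
    intro x y
    rw [hcomp]
    refine Finset.sum_congr rfl fun i _ => ?_
    rw [Finset.sum_eq_single i.swap]
    · rw [J_apply, if_pos rfl, mul_one]
    · intro j _ hj
      rw [J_apply, if_neg hj, mul_zero, zero_mul]
    · intro h
      exact absurd (Finset.mem_univ _) h
  have hsymm : ∀ x y, B x y = B y x := by
    intro x y
    rw [hcomp' x y, hcomp' y x, ← Equiv.sum_comp (Equiv.sumComm (Fin 4) (Fin 4))]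
    refine Finset.sum_congr rfl fun i _ => ?_
    simp [mul_comm]
  have hkey : ∀ (g : C) (x : R) (i : I8),
      B (b i) (g • x) = ∑ k, B (b i) (g • b k) * B (b k.swap) x := by
    intro g x i
    have h1 : B (b i) (g • x) = B (g⁻¹ • b i) x := by
      have h := hinv g⁻¹ (b i) (g • x)
      rw [inv_smul_smul] at h
      exact h.symm
    rw [h1, hcomp']
    refine Finset.sum_congr rfl fun k _ => ?_
    have h2 : B (b k) (g⁻¹ • b i) = B (b i) (g • b k) := by
      have h := hinv g (b k) (g⁻¹ • b i)
      rw [smul_inv_smul] at h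
      rw [← h, hsymm]
    rw [h2]
  obtain ⟨A, hA⟩ : ∃ A : C → M8, ∀ g i j, A g i j = B (b i.swap) (g • b j) :=
    ⟨fun g => Matrix.of fun i j => B (b i.swap) (g • b j), fun _ _ _ => rfl⟩
  have hAeq : ∀ g, A g = Matrix.of (fun i j => B (b i.swap) (g • b j)) := by
    intro g
    ext i j
    rw [hA, Matrix.of_apply]
  have hmem : ∀ g : C, (A g).transpose * Matrix.J (Fin 4) (ZMod 2) * A g =
      Matrix.J (Fin 4) (ZMod 2) := by
    intro g
    have hAJ : ∀ i l, (Matrix.transpose (A g) * Matrix.J (Fin 4) (ZMod 2)) i l =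
        B (b l) (g • b i) := by
      intro i l
      rw [Matrix.mul_apply, Finset.sum_eq_single l.swap]
      · rw [J_apply, if_pos (Sum.swap_swap l).symm, mul_one, Matrix.transpose_apply, hA,
          Sum.swap_swap]
      · intro k _ hk
        have hk' : ¬ l = k.swap := by
          intro h
          apply hk
          rw [h, Sum.swap_swap]
        rw [J_apply, if_neg hk', mul_zero]
      · intro h
        exact absurd (Finset.mem_univ _) h
    ext i j
    rw [Matrix.mul_apply, ← hb i j, ← hinv g (b i) (b j), hcomp' (g • b i) (g • b j)]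
    refine Finset.sum_congr rfl fun k _ => ?_
    rw [hAJ, hA]
  have hone : A 1 = 1 := by
    ext i j
    rw [hA, one_smul, hb, J_apply, Matrix.one_apply]
    simp [eq_comm]
  have hmul : ∀ g h : C, A (g * h) = A g * A h := by
    intro g h
    ext i j
    rw [Matrix.mul_apply, hA, mul_smul, hkey]
    refine Finset.sum_congr rfl fun k _ => ?_
    rw [hA, hA]
  have hqr : ∀ (g : C) (c : V8), qr (A g *ᵥ c) = qr c := by
    intro g c
    refine qr_mulVec (A g) (hmem g) ?_ c
    intro j
    have : A g *ᵥ Pi.single j 1 = fun i => B (b i.swap) (g • b j) := by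
      funext i
      rw [Matrix.mulVec_single_one]
      exact hA g i j
    rw [this]
    exact hns _
  have hinvA : ∀ g : C, A g * A g⁻¹ = 1 := by
    intro g
    rw [← hmul, mul_inv_cancel, hone]
  have hinvA' : ∀ g : C, A g⁻¹ * A g = 1 := by
    intro g
    rw [← hmul, inv_mul_cancel, hone]
  have hconj : ∀ X Y : M8, pmat * X * pinv * (pmat * Y * pinv) = pmat * (X * Y) * pinv := by
    intro X Y
    calc pmat * X * pinv * (pmat * Y * pinv) = pmat * X * (pinv * pmat) * Y * pinv := by
          simp only [Matrix.mul_assoc]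
      _ = pmat * (X * Y) * pinv := by
          rw [pinv_pmat, Matrix.mul_one]
          simp only [Matrix.mul_assoc]
  have hconj1 : pmat * (1 : M8) * pinv = 1 := by
    rw [Matrix.mul_one, pmat_pinv]
  obtain ⟨U, hU⟩ : ∃ U : C → Matrix.GeneralLinearGroup I8 (ZMod 2),
      ∀ g, ((U g : Matrix.GeneralLinearGroup I8 (ZMod 2)) : M8) = pmat * A g * pinv :=
    ⟨fun g => ⟨pmat * A g * pinv, pmat * A g⁻¹ * pinv,
      by rw [hconj, hinvA, hconj1], by rw [hconj, hinvA', hconj1]⟩, fun _ => rfl⟩
  have hUmem : ∀ g, U g ∈ Cfsg.isometryGroup (ZMod 2) (Cfsg.quadFormPlus 4 (ZMod 2)) := by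
    intro g u v
    show Cfsg.quadFormPlus 4 (ZMod 2) (((U g : Matrix.GeneralLinearGroup I8 (ZMod 2)) : M8) *ᵥ u)
      = Cfsg.quadFormPlus 4 (ZMod 2) u
    have hu : u = pmat *ᵥ (pinv *ᵥ u) := by
      rw [Matrix.mulVec_mulVec, pmat_pinv, Matrix.one_mulVec]
    rw [hU, ← Matrix.mulVec_mulVec, ← Matrix.mulVec_mulVec, quad_pmat, hqr]
    conv_rhs => rw [hu]
    rw [quad_pmat]
  refine ⟨{ toFun := fun g => ⟨U g, hUmem g⟩, map_one' := ?_, map_mul' := ?_ }, ?_, ?_, ?_⟩
  · apply Subtype.ext
    apply Units.ext
    show ((U 1 : Matrix.GeneralLinearGroup I8 (ZMod 2)) : M8) = 1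
    rw [hU, hone, hconj1]
  · intro g h
    apply Subtype.ext
    apply Units.ext
    show ((U (g * h) : Matrix.GeneralLinearGroup I8 (ZMod 2)) : M8) =
      ((U g : Matrix.GeneralLinearGroup I8 (ZMod 2)) : M8) *
        ((U h : Matrix.GeneralLinearGroup I8 (ZMod 2)) : M8)
    rw [hU, hU, hU, hconj, hmul]
  · intro g
    show ((U g : Matrix.GeneralLinearGroup I8 (ZMod 2)) : M8) = _
    rw [hU, hAeq]
  · intro g hg x i
    have hU1 : ((U g : Matrix.GeneralLinearGroup I8 (ZMod 2)) : M8) = 1 := by
      have h := congrArg (fun s : O8 => ((s : Matrix.GeneralLinearGroup I8 (ZMod 2)) : M8)) hg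
      exact h
    have h0 : A g = 1 := by
      have h2 : pinv * (pmat * A g * pinv) * pmat = pinv * 1 * pmat := by
        rw [← hU, hU1]
      have h3 : pinv * (pmat * A g * pinv) * pmat = (pinv * pmat) * A g * (pinv * pmat) := by
        simp only [Matrix.mul_assoc]
      rw [h3, pinv_pmat, Matrix.one_mul, Matrix.mul_one, Matrix.mul_one, pinv_pmat] at h2
      exact h2
    have h1 : ∀ i j, B (b i.swap) (g • b j) = (1 : M8) i j := by
      intro i j
      rw [← hA, h0]
    rw [hkey, Finset.sum_eq_single i.swap]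
    · have h2 := h1 i.swap i.swap
      rw [Sum.swap_swap] at h2
      rw [h2, Matrix.one_apply_eq, one_mul, Sum.swap_swap]
    · intro k _ hk
      have h2 := h1 i.swap k
      rw [Sum.swap_swap] at h2
      rw [h2, Matrix.one_apply_ne (Ne.symm hk), zero_mul]
    · intro h
      exact absurd (Finset.mem_univ _) h
  · intro g hg
    apply Subtype.ext
    apply Units.ext
    show ((U g : Matrix.GeneralLinearGroup I8 (ZMod 2)) : M8) = 1
    have h0 : A g = 1 := by
      ext i j
      rw [hA, hg, hb, J_apply, Matrix.one_apply]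
      simp [eq_comm]
    rw [hU, h0, hconj1]

end Cfsg.Agent.Lib.Helper97.OzOHOM
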