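import Mathlib
import Cfsg.Agent.Lib.Helper87.PCStmt
import Cfsg.Agent.Lib.Helper87.FSLocal

/-!
# S5243 piece CS2 (helper97): `HasNormalPConj` passes from a conjugate to a fully automized
centric subgroup
-/

set_option autoImplicit false

namespace Cfsg.Agent.Lib.Helper97.PCCS2

open Cfsg Cfsg.FusionSystem Cfsg.Agent.H85 Cfsg.Agent.Lib.Helper87.PCStmt

universe u

theorem main : CS2.{u} := by
  intro Ω _ S _ p _ hS F Y P' hfa hcen hconj hP'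
  obtain ⟨φ, hφ, hr⟩ := hconj
  obtain ⟨B', hB'p, hB'le, hB'n, g', hg'S, hg'N, hg'P, hg'B⟩ := hP'
  obtain ⟨e, he⟩ : ∃ e : Y ≃* P', IsIso F e := ⟨isoOf F hφ hr, isIso_isoOf F hφ hr⟩
  have he' : IsIso F e.symm := isIso_symm F he
  obtain ⟨c, hc⟩ : ∃ c : MulAut P' →* MulAut Y, ∀ β : MulAut P', ∀ y : Y,
      c β y = e.symm (β (e y)) := ⟨(MulAut.congr e.symm).toMonoidHom, fun β y => rfl⟩
  have hcc : ∀ χ : MulAut Y, c (MulAut.congr e χ) = χ := by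
    intro χ
    ext y
    rw [hc]
    show ((e.symm (e (χ (e.symm (e y)))) : Y) : Ω) = χ y
    rw [e.symm_apply_apply, e.symm_apply_apply]
  have hceq : ∀ β : MulAut P', c β = MulAut.congr e.symm β := by
    intro β
    ext y
    rw [hc]
    rfl
  have hB1 : B'.map c ≤ F.autGroup Y := by
    rintro _ ⟨β, hβ, rfl⟩
    rw [hceq]
    exact congr_mem_autGroup F he' (hB'le hβ)
  have hB2 : ∀ χ ∈ F.autGroup Y, ∀ β ∈ B'.map c, χ * β * χ⁻¹ ∈ B'.map c := by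
    rintro χ hχ _ ⟨β, hβ, rfl⟩
    refine ⟨MulAut.congr e χ * β * (MulAut.congr e χ)⁻¹,
      hB'n _ (congr_mem_autGroup F he hχ) β hβ, ?_⟩
    rw [map_mul, map_mul, map_inv, hcc]
  have hBp : IsPGroup p (B'.map c) := hB'p.map c
  have hBS := Cfsg.Agent.Lib.Helper87.FSLocal.normal_pSubgroup_le_autS F hfa (B'.map c) hBp hB1 hB2
  refine ⟨B'.map c, hBp, hB1, hB2, ?_⟩
  have hmem : c (P'.normalizerMonoidHom ⟨g', hg'N⟩) ∈ B'.map c := ⟨_, hg'B, rfl⟩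
  obtain ⟨n, hnS, hn⟩ := (mem_autInducedBy_iff_normalizer S Y _).mp (hBS hmem)
  refine ⟨(n : Ω), hnS, n.2, ?_, ?_⟩
  · intro hnY
    apply hg'P
    -- the element y' = e ⟨n, hnY⟩ of P' induces the same automorphism of P' as g'
    have key : ∀ x' : P', g' * (x' : Ω) * g'⁻¹ =
        ((e ⟨(n : Ω), hnY⟩ : P') : Ω) * (x' : Ω) * ((e ⟨(n : Ω), hnY⟩ : P') : Ω)⁻¹ := by
      intro x'
      have h1 : ((e (Y.normalizerMonoidHom n (e.symm x')) : P') : Ω) =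
          ((e (c (P'.normalizerMonoidHom ⟨g', hg'N⟩) (e.symm x')) : P') : Ω) := by rw [hn]
      rw [hc, e.apply_symm_apply, e.apply_symm_apply] at h1
      have h2 : Y.normalizerMonoidHom n (e.symm x') =
          (⟨(n : Ω), hnY⟩ : Y) * e.symm x' * (⟨(n : Ω), hnY⟩ : Y)⁻¹ := Subtype.ext rfl
      rw [h2, map_mul, map_mul, map_inv, e.apply_symm_apply] at h1
      exact h1.symm
    have hcent : ((e ⟨(n : Ω), hnY⟩ : P') : Ω)⁻¹ * g' ∈ centralizerIn S P' := by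
      have hP'S : P' ≤ S := by
        rw [← hr]
        rintro _ ⟨x, rfl⟩
        exact (F.le_of_mem hφ).2 x
      refine ⟨S.mul_mem (S.inv_mem (hP'S (e ⟨(n : Ω), hnY⟩).2)) hg'S, ?_⟩
      show _ ∈ Subgroup.centralizer (P' : Set Ω)
      rw [Subgroup.mem_centralizer_iff]
      intro x' hx'
      have h3 : g' * x' * g'⁻¹ = ((e ⟨(n : Ω), hnY⟩ : P') : Ω) * x' *
          ((e ⟨(n : Ω), hnY⟩ : P') : Ω)⁻¹ := key ⟨x', hx'⟩
      have h4 : x' * (((e ⟨(n : Ω), hnY⟩ : P') : Ω)⁻¹ * g') =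
          ((e ⟨(n : Ω), hnY⟩ : P') : Ω)⁻¹ * (((e ⟨(n : Ω), hnY⟩ : P') : Ω) * x' *
            ((e ⟨(n : Ω), hnY⟩ : P') : Ω)⁻¹) * g' := by group
      rw [h4, ← h3]
      group
    have h5 := hcen.2 P' ⟨φ, hφ, hr⟩ hcent
    have h6 : g' = ((e ⟨(n : Ω), hnY⟩ : P') : Ω) * (((e ⟨(n : Ω), hnY⟩ : P') : Ω)⁻¹ * g') := by
      group
    rw [h6]
    exact P'.mul_mem (e ⟨(n : Ω), hnY⟩).2 h5
  · rw [show (⟨(n : Ω), n.2⟩ : ↥(Subgroup.normalizer (Y : Set Ω))) = n from Subtype.ext rfl, hn]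
    exact hmem

end Cfsg.Agent.Lib.Helper97.PCCS2
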