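import Mathlib
import Cfsg.Agent.Lib.Helper87.PCStmt
import Cfsg.Agent.H85.ResAut

/-!
# S5243 piece PPH (helper97): for `P` in `famH F E`, the elements of `p`-power order of
`Aut_F(P)` lie in `Aut_D(P)`
-/

set_option autoImplicit false

namespace Cfsg.Agent.Lib.Helper97.PCPPH

open Cfsg Cfsg.FusionSystem Cfsg.Agent.H85 Cfsg.Agent.Lib.Helper87.PCStmt

universe u

theorem main : PPH.{u} := by
  intro Ω _ S T _ p _ F E K c hPK P hP
  have hPS : P ≤ S := hP.1.1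
  have hNT : P ⊓ T ≤ T := inf_le_right
  have hNP : P ⊓ T ≤ P := inf_le_left
  have hstab : ∀ a ∈ F.autGroup P, ∀ x : P, (x : Ω) ∈ P ⊓ T → ((a x : P) : Ω) ∈ P ⊓ T := by
    intro a ha x hx
    refine ⟨(a x).2, ?_⟩
    have h1 := restrict_mem F ((mem_autGroup_iff F hPS a).mp ha) hNP
    exact c.hT.2 (P ⊓ T) hNT _ h1 ⟨x, hx⟩
  have key : ppGen p (F.autGroup P) ≤ (c.D.autGroup P).comap (F.autGroup P).subtype := by
    refine (Subgroup.closure_le _).mpr ?_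
    rintro a ⟨k, hk⟩
    show (a : MulAut P) ∈ c.D.autGroup P
    refine Subgroup.subset_closure ?_
    show P.subtype.comp (a : MulAut P).toMonoidHom ∈ c.D.Hom P
    refine c.mem_D_of_mem_B hP ?_
    rw [c.mem_B_iff]
    refine ⟨(mem_autGroup_iff F hPS a.1).mp a.2, fun R hRP hRT => ?_⟩
    have hRN : R ≤ P ⊓ T := le_inf hRP hRT
    obtain ⟨b, hb⟩ : ∃ b : F.autGroup (P ⊓ T), b = resAutHom F hPS hNP hstab a := ⟨_, rfl⟩
    have hdvd : orderOf b ∣ p ^ k := by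
      rw [hb, ← hk]
      exact orderOf_map_dvd _ _
    obtain ⟨j, -, hj⟩ := (Nat.dvd_prime_pow (Fact.out : p.Prime)).mp hdvd
    have hbo : orderOf (b : MulAut ↥(P ⊓ T)) = p ^ j := by
      rw [Subgroup.orderOf_coe]; exact hj
    have h2 := hPK (P ⊓ T) hNT (b : MulAut ↥(P ⊓ T)) b.2 j hbo
    have h3 : GoodA E K ((P ⊓ T).subtype.comp (b : MulAut ↥(P ⊓ T)).toMonoidHom) :=
      (c.mem_KS_iff _).mp ((mem_autGroup_iff c.KS hNT _).mp h2)
    refine (h3.restrict hRN).congr (fun x => ?_)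
    rw [hb]
    rfl
  rintro _ ⟨a, ha, rfl⟩
  exact key ha

end Cfsg.Agent.Lib.Helper97.PCPPH
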