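import Mathlib
import Cfsg.Agent.Lib.Helper32.PglG

/-!
# S5890 piece EV (helper97): for even `q`, `PSL(2,q)` is all of `PGL(2,q)`
-/

set_option autoImplicit false

namespace Cfsg.Agent.Lib.Helper97.PglEV

open Matrix MatrixGroups Cfsg.Agent.Lib.Helper32.PglG

theorem Lg_eq_top {F : Type*} [Field F] [Fintype F] (heven : Even (Fintype.card F)) :
    Lg F = ⊤ := by
  rw [range_eq, MonoidHom.range_eq_top]
  apply Matrix.ProjectiveSpecialLinearGroup.toPGL_surj_of_roots
  intro r
  have hchar : ringChar F = 2 :=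
    FiniteField.even_card_iff_char_two.2 (Nat.even_iff.1 heven)
  obtain ⟨c, hc⟩ := FiniteField.isSquare_of_char_two hchar (r : F)
  have hc0 : c ≠ 0 := by
    rintro rfl
    rw [mul_zero] at hc
    exact r.ne_zero hc
  refine ⟨Units.mk0 c hc0, Units.ext ?_⟩
  rw [Fintype.card_fin, Units.val_pow_eq_pow_val, Units.val_mk0, hc, sq]

theorem coatom_of_top {G : Type*} [Group G] (M L : Subgroup G) (hL : L = ⊤) (hM : IsCoatom M) :
    IsCoatom ((M ⊓ L).subgroupOf L) := by
  subst hL
  rw [inf_top_eq]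
  have h : M.subgroupOf ⊤ = (Subgroup.topEquiv (G := G)).comapSubgroup M := rfl
  rw [h, OrderIso.isCoatom_iff]
  exact hM

theorem even_case {F : Type*} [Field F] [Fintype F] (heven : Even (Fintype.card F))
    (M : Subgroup (Matrix.ProjGenLinGroup (Fin 2) F)) (hM : IsCoatom M) :
    IsCoatom ((M ⊓ Lg F).subgroupOf (Lg F)) :=
  coatom_of_top M (Lg F) (Lg_eq_top heven) hM

end Cfsg.Agent.Lib.Helper97.PglEV
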