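import Mathlib
import Cfsg.Agent.Lib.Helper42.ReeDegStmt

set_option autoImplicit false

namespace Cfsg.Agent.Lib.Helper97.ReeDegKER

open Cfsg.Agent.Lib.Helper42.ReeDegStmt

universe u

theorem main : Cfsg.Agent.Lib.Helper42.ReeDegStmt.KerP.{u} := by
  intro G _ hG k ρ hirr hk g hg hρg
  have hker : (MonoidHom.ker ρ) = ⊤ := by
    rcases hG.eq_bot_or_eq_top_of_normal (MonoidHom.ker ρ) inferInstance with h | h
    · exfalso
      apply hg
      have h1 : g ∈ MonoidHom.ker ρ := MonoidHom.mem_ker.mpr hρg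
      rw [h] at h1
      exact Subgroup.mem_bot.mp h1
    · exact h
  have hall : ∀ h : G, ρ h = 1 := by
    intro h
    apply MonoidHom.mem_ker.mp
    rw [hker]
    exact Subgroup.mem_top h
  obtain ⟨i0, hi0⟩ : ∃ i0 : Fin k, i0.val = 0 := ⟨⟨0, by omega⟩, rfl⟩
  obtain ⟨i1, hi1⟩ : ∃ i1 : Fin k, i1.val = 1 := ⟨⟨1, by omega⟩, rfl⟩
  have h01 : i1 ≠ i0 := by
    intro h
    rw [h] at hi1
    omega
  obtain ⟨W, hW⟩ : ∃ W : Subrepresentation ρ,
      W.toSubmodule = Submodule.span ℂ {(Pi.single i0 (1 : ℂ) : Fin k → ℂ)} :=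
    ⟨⟨Submodule.span ℂ {(Pi.single i0 (1 : ℂ) : Fin k → ℂ)}, by
      intro h v hv
      rw [hall h]
      exact hv⟩, rfl⟩
  rcases hirr.eq_bot_or_eq_top W with h | h
  · have h1 : (Pi.single i0 (1 : ℂ) : Fin k → ℂ) ∈ W.toSubmodule := by
      rw [hW]; exact Submodule.subset_span rfl
    rw [h] at h1
    have h2 : (Pi.single i0 (1 : ℂ) : Fin k → ℂ) = 0 := h1
    have h3 := congrFun h2 i0
    simp at h3
  · have h1 : (Pi.single i1 (1 : ℂ) : Fin k → ℂ) ∈ W.toSubmodule := by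
      rw [h]; exact Submodule.mem_top
    rw [hW] at h1
    obtain ⟨c, hc⟩ := Submodule.mem_span_singleton.mp h1
    have h3 := congrFun hc i1
    simp [Pi.single_apply, h01] at h3

end Cfsg.Agent.Lib.Helper97.ReeDegKER
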