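import Mathlib
import Cfsg.Agent.Lib.Helper42.ReeDegStmt

set_option autoImplicit false

namespace Cfsg.Agent.Lib.Helper97.ReeDegPARS

open Cfsg.Agent.Lib.Helper42.ReeDegStmt

universe u v

section
variable {Γ : Type u} [Group Γ] {R : Subgroup Γ} {K : Type v} [Field K] [Fintype K]
  {φ : K →+* K} {x : K → K → K → Γ} {e : K → Γ}

theorem x_zero (hx : Par R K φ x e) : x 0 0 0 = 1 := by
  have h := hx.x_mul 0 0 0 0 0 0
  have h2 : x 0 0 0 * x 0 0 0 = x 0 0 0 := by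
    rw [h]; simp
  calc x 0 0 0 = x 0 0 0 * x 0 0 0 * (x 0 0 0)⁻¹ := by group
    _ = 1 := by rw [h2, mul_inv_cancel]

theorem x_inv (hx : Par R K φ x e) (t u w : K) :
    (x t u w)⁻¹ = x (-t) (-u - t * φ t ^ 3) (-w - u * t - 2 * t ^ 2 * φ t ^ 3) := by
  symm
  apply eq_inv_of_mul_eq_one_right
  rw [hx.x_mul, ← x_zero hx]
  have e1 : t + -t = 0 := by ring
  have e2 : u + (-u - t * φ t ^ 3) - t * φ (-t) ^ 3 = 0 := by
    rw [map_neg]; ring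
  have e3 : w + (-w - u * t - 2 * t ^ 2 * φ t ^ 3) - u * -t - t ^ 2 * φ (-t) ^ 3
      + t * -t * φ (-t) ^ 3 = 0 := by
    rw [map_neg]; ring
  rw [e1, e2, e3]

theorem x_inv_A (hx : Par R K φ x e) (u w : K) : (x 0 u w)⁻¹ = x 0 (-u) (-w) := by
  rw [x_inv hx]
  simp

/-- the subgroup `U` -/
def subU (hx : Par R K φ x e) : Subgroup ↥R where
  carrier := {g | ∃ t u w, (g : Γ) = x t u w}
  mul_mem' := by
    rintro a b ⟨t, u, w, ha⟩ ⟨t', u', w', hb⟩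
    exact ⟨_, _, _, by rw [Subgroup.coe_mul, ha, hb, hx.x_mul]⟩
  one_mem' := ⟨0, 0, 0, by rw [Subgroup.coe_one, x_zero hx]⟩
  inv_mem' := by
    rintro a ⟨t, u, w, ha⟩
    exact ⟨_, _, _, by rw [Subgroup.coe_inv, ha, x_inv hx]⟩

/-- the subgroup `A` -/
def subA (hx : Par R K φ x e) : Subgroup ↥R where
  carrier := {g | ∃ u w, (g : Γ) = x 0 u w}
  mul_mem' := by
    rintro a b ⟨u, w, ha⟩ ⟨u', w', hb⟩
    refine ⟨u + u', w + w', ?_⟩
    rw [Subgroup.coe_mul, ha, hb, hx.x_mul]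
    simp
  one_mem' := ⟨0, 0, by rw [Subgroup.coe_one, x_zero hx]⟩
  inv_mem' := by
    rintro a ⟨u, w, ha⟩
    exact ⟨_, _, by rw [Subgroup.coe_inv, ha, x_inv_A hx]⟩

/-- the subgroup `Z` -/
def subZ (hx : Par R K φ x e) : Subgroup ↥R where
  carrier := {g | ∃ w, (g : Γ) = x 0 0 w}
  mul_mem' := by
    rintro a b ⟨w, ha⟩ ⟨w', hb⟩
    refine ⟨w + w', ?_⟩
    rw [Subgroup.coe_mul, ha, hb, hx.x_mul]
    simp
  one_mem' := ⟨0, by rw [Subgroup.coe_one, x_zero hx]⟩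
  inv_mem' := by
    rintro a ⟨w, ha⟩
    refine ⟨-w, ?_⟩
    rw [Subgroup.coe_inv, ha, x_inv_A hx]
    simp

end

theorem main : Cfsg.Agent.Lib.Helper42.ReeDegStmt.ParSP.{u, v} := by
  intro Γ _ R K _ _ φ x e hx
  exact ⟨subZ hx, subA hx, subU hx, ⟨fun _ => Iff.rfl, fun _ => Iff.rfl, fun _ => Iff.rfl⟩⟩

end Cfsg.Agent.Lib.Helper97.ReeDegPARS
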