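import Mathlib
import Cfsg.Agent.Lib.Helper43.SPStmt
import Cfsg.Agent.Lib.Helper44.QClass

/-!
# S2720 (SPIN), piece FIXPAIR

If the semisimple isometry `s` of odd order fixes a nonzero vector of an even-dimensional
nondegenerate space, it fixes two nonsingular vectors whose values have non-square product:
the fixed space is nondegenerate of even positive dimension, so its form is universal.
-/

set_option autoImplicit false

namespace Cfsg.Agent.Lib.Helper97.SPFIXPAIR

open Module QuadraticMap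
open Cfsg.Agent.Lib.Helper44.QSpace Cfsg.Agent.Lib.Helper44.OGroup
open Cfsg.Agent.Lib.Helper44.Parity
open Cfsg.Agent.Lib.Helper43.SPStmt

universe u

theorem main : FixNd.{u} → FixPar.{u} → FixPair.{u} := by
  intro hNd hPar F _ _ V _ _ _ Q h2 hS s r hsO hodd hrF hsr hev hfix
  have hSepW : Sep (res Q (fixS s)) := hNd F V Q hS s r hsO hrF hsr
  have hEvenW : Even (finrank F (fixS s)) := hPar F V Q h2 hS s r hsO hodd hsr hev
  have hpos : 0 < finrank F (fixS s) := by
    rw [Module.finrank_pos_iff_exists_ne_zero]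
    obtain ⟨v, hv0, hv⟩ := hfix
    refine ⟨⟨v, mem_fixS.2 hv⟩, ?_⟩
    intro h
    exact hv0 (congrArg Subtype.val h)
  have hd : 2 ≤ finrank F (fixS s) := by
    obtain ⟨m, hm⟩ := hEvenW
    omega
  have hchar : ringChar F ≠ 2 := by
    intro h
    apply h2
    have h3 := CharP.cast_eq_zero F (ringChar F)
    rw [h] at h3
    exact_mod_cast h3
  obtain ⟨ζ, hζ⟩ := FiniteField.exists_nonsquare hchar
  obtain ⟨u, hu⟩ := Cfsg.Agent.Lib.Helper44.QClass.exists_q_eq hSepW hd 1
  obtain ⟨w, hw⟩ := Cfsg.Agent.Lib.Helper44.QClass.exists_q_eq hSepW hd ζ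
  have hu' : Q (u : V) = 1 := hu
  have hw' : Q (w : V) = ζ := hw
  refine ⟨(u : V), (w : V), mem_fixS.1 u.2, mem_fixS.1 w.2, ?_, ?_, ?_⟩
  · rw [hu']
    exact one_ne_zero
  · rw [hw']
    intro h0
    apply hζ
    rw [h0]
    exact ⟨0, by simp⟩
  · rw [hu', hw', one_mul]
    exact hζ

end Cfsg.Agent.Lib.Helper97.SPFIXPAIR
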