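import Mathlib

set_option autoImplicit false

namespace Cfsg.Agent.Lib.Helper97.T64Aux

universe u

variable {T : Type u} [Group T]

theorem x_sq {x : MulAut T} (hx : orderOf x = 2) (t : T) : x (x t) = t := by
  have h1 : x ^ 2 = 1 := by rw [← hx]; exact pow_orderOf_eq_one x
  have h2 : (x ^ 2) t = t := by rw [h1]; rfl
  rw [pow_two] at h2
  exact h2

theorem rho_cube {ρ : MulAut T} (hρ : orderOf ρ = 3) (t : T) : ρ (ρ (ρ t)) = t := by
  have h1 : ρ ^ 3 = 1 := by rw [← hρ]; exact pow_orderOf_eq_one ρ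
  have h2 : (ρ ^ 3) t = t := by rw [h1]; rfl
  have e : ρ ^ 3 = ρ * ρ * ρ := by rw [pow_succ, pow_two]
  rw [e] at h2
  exact h2

/-- `x ρ = ρ² x` -/
theorem x_rho {ρ x : MulAut T} (hρ : orderOf ρ = 3)
    (hxρ : x * ρ * x⁻¹ = ρ⁻¹) (t : T) : x (ρ t) = ρ (ρ (x t)) := by
  have h1 : (x * ρ * x⁻¹) (x t) = ρ⁻¹ (x t) := by rw [hxρ]
  have h2 : (x * ρ * x⁻¹) (x t) = x (ρ t) := by
    show x (ρ (x⁻¹ (x t))) = x (ρ t)
    rw [MulAut.inv_apply_self]
  rw [h2] at h1
  rw [h1]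
  have h3 : ρ (ρ⁻¹ (x t)) = x t := MulAut.apply_inv_self _ ρ (x t)
  have h4 := rho_cube hρ (ρ⁻¹ (x t))
  rw [h3] at h4
  exact h4.symm

/-- automorphisms preserve the centre -/
theorem aut_center (σ : MulAut T) {z : T} (hz : z ∈ Subgroup.center T) :
    σ z ∈ Subgroup.center T := by
  rw [Subgroup.mem_center_iff] at hz ⊢
  intro g
  have h1 := hz (σ⁻¹ g)
  have h2 := congrArg σ h1
  rw [map_mul, map_mul, MulAut.apply_inv_self] at h2
  exact h2

/-- a central element of a group with `ZExp` is its own inverse -/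
theorem inv_of_sq {z : T} (h : z * z = 1) : z⁻¹ = z := by
  exact inv_eq_of_mul_eq_one_left h

end Cfsg.Agent.Lib.Helper97.T64Aux
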