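import Mathlib
import Cfsg.Agent.Lib.Helper26.T64Stmt
import Cfsg.Agent.Lib.Helper97.T64Aux

set_option autoImplicit false

namespace Cfsg.Agent.Lib.Helper97.T64CXFACT

open Cfsg.Agent.Lib.Helper26.T64Stmt Cfsg.Agent.Lib.Helper97.T64Aux

universe u

/-- a group in which every square is trivial is commutative -/
theorem comm_of_sq {Q : Type u} [Group Q] (h : ∀ q : Q, q * q = 1) (a b : Q) :
    a * b = b * a := by
  have ha : a⁻¹ = a := inv_eq_of_mul_eq_one_left (h a)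
  have hb : b⁻¹ = b := inv_eq_of_mul_eq_one_left (h b)
  have hab : (a * b)⁻¹ = a * b := inv_eq_of_mul_eq_one_left (h (a * b))
  rw [mul_inv_rev, ha, hb] at hab
  exact hab.symm

/-- squares central ⟹ commutators central -/
theorem comm_central {T : Type u} [Group T] (hsq : SqCentral T) (s t : T) :
    s * t * s⁻¹ * t⁻¹ ∈ Subgroup.center T := by
  have h1 : (s * t) * (s * s)⁻¹ = (s * s)⁻¹ * (s * t) :=
    Subgroup.mem_center_iff.mp (Subgroup.inv_mem _ (hsq s)) (s * t)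
  have e : s * t * s⁻¹ * t⁻¹ = (s * t) * (s * t) * (s * s)⁻¹ * (t * t)⁻¹ := by
    calc s * t * s⁻¹ * t⁻¹ = s * t * ((s * s)⁻¹ * (s * t)) * (t * t)⁻¹ := by group
      _ = s * t * ((s * t) * (s * s)⁻¹) * (t * t)⁻¹ := by rw [h1]
      _ = _ := by group
  rw [e]
  exact Subgroup.mul_mem _ (Subgroup.mul_mem _ (hsq (s * t)) (Subgroup.inv_mem _ (hsq s)))
    (Subgroup.inv_mem _ (hsq t))

theorem main : Cfsg.Agent.Lib.Helper26.T64Stmt.CXFACT.{u} := by
  intro T _ _ ρ x hρ hx hxρ hfpf hff hZ4 hZexp hsq hXZ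
  obtain ⟨z₀, w, hz₀Z, hwZ, hz₀1, hxz₀, hxw, hfix⟩ := hXZ
  have hc : ∀ {z : T}, z ∈ Subgroup.center T → ∀ g : T, g * z = z * g :=
    fun hz g => Subgroup.mem_center_iff.mp hz g
  have hinv : ∀ {z : T}, z ∈ Subgroup.center T → z⁻¹ = z := fun hz => inv_of_sq (hZexp _ hz)
  -- core
  have hcore : ∀ g : T, g⁻¹ * x g ∈ Subgroup.center T → x g = g ∨ x g = g * z₀ := by
    intro g hg
    obtain ⟨z, hzdef⟩ : ∃ z, z = g⁻¹ * x g := ⟨_, rfl⟩
    have hzZ : z ∈ Subgroup.center T := by rw [hzdef]; exact hg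
    have hxg : x g = g * z := by rw [hzdef]; group
    have hxz : x z = z := by
      have h1 : x (g * z) = g := by rw [← hxg, x_sq hx]
      rw [map_mul, hxg] at h1
      have h2 : z * x z = 1 := by
        have : g * (z * x z) = g * 1 := by rw [mul_one, ← mul_assoc]; exact h1
        exact mul_left_cancel this
      have h3 : x z = z⁻¹ := eq_inv_of_mul_eq_one_right h2
      rw [h3, hinv hzZ]
    rcases hfix z hzZ hxz with h | h
    · left; rw [hxg, h, mul_one]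
    · right; rw [hxg, h]
  -- lift
  have hlift : ∀ g : T, g⁻¹ * x g ∈ Subgroup.center T →
      ∃ c ζ : T, x c = c ∧ ζ ∈ Subgroup.center T ∧ g = c * ζ := by
    intro g hg
    rcases hcore g hg with h | h
    · exact ⟨g, 1, h, Subgroup.one_mem _, (mul_one g).symm⟩
    · refine ⟨g * w, w, ?_, hwZ, ?_⟩
      · rw [map_mul, h, hxw]
        calc g * z₀ * (w * z₀) = g * (z₀ * w) * z₀ := by group
          _ = g * (w * z₀) * z₀ := by rw [← hc hz₀Z w]
          _ = g * w * (z₀ * z₀) := by group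
          _ = g * w := by rw [hZexp z₀ hz₀Z, mul_one]
      · rw [mul_assoc, hZexp w hwZ, mul_one]
  have hlift2 : ∀ u : T, ∃ c ζ : T, x c = c ∧ ζ ∈ Subgroup.center T ∧ u * x u = c * ζ := by
    intro u
    apply hlift
    have e : (u * x u)⁻¹ * x (u * x u) = (x u)⁻¹ * u⁻¹ * (x u)⁻¹⁻¹ * u⁻¹⁻¹ := by
      rw [map_mul, x_sq hx]; group
    rw [e]
    exact comm_central hsq _ _
  -- decomposition of the centre
  have hZdec : ∀ ζ : T, ζ ∈ Subgroup.center T → ∃ d1 d2 : T, d1 ∈ Subgroup.center T ∧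
      x d1 = d1 ∧ x d2 = d2 ∧ ζ = d1 * ρ d2 := by
    intro ζ hζ
    have hρz₀ : ρ z₀ ∈ Subgroup.center T := aut_center ρ hz₀Z
    have hg : ζ⁻¹ * x ζ ∈ Subgroup.center T :=
      Subgroup.mul_mem _ (Subgroup.inv_mem _ hζ) (aut_center x hζ)
    rcases hcore ζ hg with h | h
    · exact ⟨ζ, 1, hζ, h, map_one x, by rw [map_one, mul_one]⟩
    · refine ⟨ζ * ρ z₀, z₀, Subgroup.mul_mem _ hζ hρz₀, ?_, hxz₀, ?_⟩
      · -- x (ζ * ρ z₀) = ζ z₀ * ρ (ρ z₀), and ρ (ρ z₀) = z₀ * ρ z₀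
        have h1 : ρ (ρ z₀) = z₀ * ρ z₀ := by
          have h2 := (hff z₀).1
          have h3 : ρ (ρ z₀) = (z₀ * ρ z₀)⁻¹ := eq_inv_of_mul_eq_one_right h2
          rw [h3, hinv (Subgroup.mul_mem _ hz₀Z hρz₀)]
        rw [map_mul, h, x_rho hρ hxρ, hxz₀, h1]
        calc ζ * z₀ * (z₀ * ρ z₀) = ζ * (z₀ * z₀) * ρ z₀ := by group
          _ = ζ * ρ z₀ := by rw [hZexp z₀ hz₀Z, mul_one]
      · rw [mul_assoc, hZexp _ hρz₀, mul_one]
  -- the quotient
  have hQsq : ∀ q : T ⧸ Subgroup.center T, q * q = 1 := by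
    intro q
    induction q using QuotientGroup.induction_on with
    | H a =>
      rw [← QuotientGroup.mk_mul]
      exact (QuotientGroup.eq_one_iff _).mpr (hsq a)
  have hQc := comm_of_sq hQsq
  have hxρρ : ∀ s : T, x (ρ (ρ s)) = ρ (x s) := by
    intro s
    rw [x_rho hρ hxρ (ρ s), x_rho hρ hxρ s, rho_cube hρ]
  intro t
  obtain ⟨s, hs⟩ : ∃ s : T, s = ρ (ρ t) := ⟨_, rfl⟩
  obtain ⟨c1, ζ1, hc1, hζ1, hg1⟩ := hlift2 s
  obtain ⟨c2, ζ2, hc2, hζ2, hg2⟩ := hlift2 t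
  have hcong : ((s * x s * ρ (t * x t) : T) : T ⧸ Subgroup.center T) = (t : T ⧸ Subgroup.center T) := by
    have e1 : ρ (x t) = x s := by rw [hs, hxρρ]
    rw [map_mul, e1]
    simp only [QuotientGroup.mk_mul]
    have e2 : (ρ t : T ⧸ Subgroup.center T) * (s : T ⧸ Subgroup.center T) = (t : T ⧸ Subgroup.center T) := by
      rw [← QuotientGroup.mk_mul]
      have h1 := (hff t).1
      have h2 : ρ t * s = t⁻¹ := by
        rw [hs]
        apply eq_inv_of_mul_eq_one_right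
        rw [← mul_assoc]; exact h1
      rw [h2, QuotientGroup.mk_inv]
      exact inv_eq_of_mul_eq_one_left (hQsq _)
    calc (s : T ⧸ Subgroup.center T) * (x s : T ⧸ Subgroup.center T) *
          ((ρ t : T ⧸ Subgroup.center T) * (x s : T ⧸ Subgroup.center T))
        = (s : T ⧸ Subgroup.center T) * ((x s : T ⧸ Subgroup.center T) *
          (ρ t : T ⧸ Subgroup.center T)) * (x s : T ⧸ Subgroup.center T) := by group
      _ = (s : T ⧸ Subgroup.center T) * ((ρ t : T ⧸ Subgroup.center T) *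
          (x s : T ⧸ Subgroup.center T)) * (x s : T ⧸ Subgroup.center T) := by
          rw [hQc (x s : T ⧸ Subgroup.center T) (ρ t : T ⧸ Subgroup.center T)]
      _ = (s : T ⧸ Subgroup.center T) * (ρ t : T ⧸ Subgroup.center T) *
          ((x s : T ⧸ Subgroup.center T) * (x s : T ⧸ Subgroup.center T)) := by group
      _ = (ρ t : T ⧸ Subgroup.center T) * (s : T ⧸ Subgroup.center T) := by
          rw [hQsq, mul_one, hQc]
      _ = (t : T ⧸ Subgroup.center T) := e2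
  obtain ⟨ζ₀, hζ₀def⟩ : ∃ ζ₀ : T, ζ₀ = (s * x s * ρ (t * x t))⁻¹ * t := ⟨_, rfl⟩
  have hζ₀ : ζ₀ ∈ Subgroup.center T := by
    rw [hζ₀def]; exact QuotientGroup.eq.mp hcong
  have ht : t = s * x s * ρ (t * x t) * ζ₀ := by rw [hζ₀def]; group
  rw [hg1, hg2, map_mul] at ht
  have hρζ2 : ρ ζ2 ∈ Subgroup.center T := aut_center ρ hζ2
  have ht2 : t = c1 * ρ c2 * (ζ1 * ρ ζ2 * ζ₀) := by
    calc t = c1 * ζ1 * (ρ c2 * ρ ζ2) * ζ₀ := ht
      _ = c1 * (ζ1 * ρ c2) * ρ ζ2 * ζ₀ := by group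
      _ = c1 * (ρ c2 * ζ1) * ρ ζ2 * ζ₀ := by rw [hc hζ1 (ρ c2)]
      _ = c1 * ρ c2 * (ζ1 * ρ ζ2 * ζ₀) := by group
  obtain ⟨d1, d2, hd1Z, hd1, hd2, hζ⟩ := hZdec (ζ1 * ρ ζ2 * ζ₀)
    (Subgroup.mul_mem _ (Subgroup.mul_mem _ hζ1 hρζ2) hζ₀)
  refine ⟨c1 * d1, c2 * d2, by rw [map_mul, hc1, hd1], by rw [map_mul, hc2, hd2], ?_⟩
  rw [ht2, hζ, map_mul]
  calc c1 * ρ c2 * (d1 * ρ d2) = c1 * (ρ c2 * d1) * ρ d2 := by group
    _ = c1 * (d1 * ρ c2) * ρ d2 := by rw [hc hd1Z (ρ c2)]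
    _ = c1 * d1 * (ρ c2 * ρ d2) := by group

end Cfsg.Agent.Lib.Helper97.T64CXFACT
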