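import Mathlib
import Cfsg.Agent.Lib.Helper26.T64Stmt
import Cfsg.Agent.Lib.Helper97.T64Aux

set_option autoImplicit false

namespace Cfsg.Agent.Lib.Helper97.T64CXZ

open Cfsg.Agent.Lib.Helper26.T64Stmt Cfsg.Agent.Lib.Helper97.T64Aux

universe u

theorem main : Cfsg.Agent.Lib.Helper26.T64Stmt.CXZ.{u} := by
  intro T _ _ ρ x hρ hx hxρ hfpf hZ4 hZexp
  classical
  -- x is not the identity on Z
  have hnot : ∃ w ∈ Subgroup.center T, x w ≠ w := by
    by_contra hcon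
    push Not at hcon
    have hnt : Nontrivial ↥(Subgroup.center T) := by
      rw [← Finite.one_lt_card_iff_nontrivial, hZ4]; norm_num
    obtain ⟨⟨z, hz⟩, hz1⟩ := exists_ne (1 : ↥(Subgroup.center T))
    have hz1' : z ≠ 1 := by
      intro h
      apply hz1
      exact Subtype.ext h
    apply hz1'
    apply hfpf
    have h1 := x_rho hρ hxρ z
    rw [hcon z hz, hcon (ρ z) (aut_center ρ hz)] at h1
    -- h1 : ρ z = ρ (ρ z)
    have h2 := congrArg ρ h1
    rw [rho_cube hρ] at h2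
    -- h2 : ρ (ρ z) = z
    rw [h2] at h1
    exact h1
  obtain ⟨w, hw, hxw⟩ := hnot
  have hxwZ : x w ∈ Subgroup.center T := aut_center x hw
  have hwinv : w⁻¹ = w := inv_of_sq (hZexp w hw)
  have hxwinv : (x w)⁻¹ = x w := inv_of_sq (hZexp (x w) hxwZ)
  have hcomm : w * x w = x w * w := Subgroup.mem_center_iff.mp hxwZ w
  obtain ⟨z₀, hz₀def⟩ : ∃ z₀ : T, z₀ = w * x w := ⟨_, rfl⟩
  have hz₀Z : z₀ ∈ Subgroup.center T := by
    rw [hz₀def]; exact Subgroup.mul_mem _ hw hxwZ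
  have hz₀1 : z₀ ≠ 1 := by
    rw [hz₀def]
    intro h
    apply hxw
    have : x w = w⁻¹ := eq_inv_of_mul_eq_one_right h
    rw [this, hwinv]
  have hxz₀ : x z₀ = z₀ := by
    rw [hz₀def, map_mul, x_sq hx, hcomm]
  have hxw' : x w = w * z₀ := by
    rw [hz₀def, ← mul_assoc, hZexp w hw, one_mul]
  refine ⟨z₀, w, hz₀Z, hw, hz₀1, hxz₀, hxw', ?_⟩
  -- the fixed points of x in Z
  obtain ⟨F, hF⟩ : ∃ F : Subgroup T, ∀ z, z ∈ F ↔ z ∈ Subgroup.center T ∧ x z = z :=
    ⟨{ carrier := {z | z ∈ Subgroup.center T ∧ x z = z}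
       mul_mem' := by
         rintro a b ⟨ha, ha'⟩ ⟨hb, hb'⟩
         exact ⟨Subgroup.mul_mem _ ha hb, by rw [map_mul, ha', hb']⟩
       one_mem' := ⟨Subgroup.one_mem _, map_one x⟩
       inv_mem' := by
         rintro a ⟨ha, ha'⟩
         exact ⟨Subgroup.inv_mem _ ha, by rw [map_inv, ha']⟩ }, fun z => Iff.rfl⟩
  have hFle : F ≤ Subgroup.center T := fun z hz => ((hF z).mp hz).1
  have hFne : F ≠ Subgroup.center T := by
    intro h
    have : w ∈ F := by rw [h]; exact hw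
    exact hxw ((hF w).mp this).2
  have hFdvd : Nat.card ↥F ∣ 4 := by
    rw [← hZ4]; exact Subgroup.card_dvd_of_le hFle
  have hFne4 : Nat.card ↥F ≠ 4 := by
    intro h
    apply hFne
    exact Subgroup.eq_of_le_of_card_ge hFle (by rw [h, hZ4])
  have hzp : Subgroup.zpowers z₀ ≤ F := by
    rw [Subgroup.zpowers_le]
    exact (hF z₀).mpr ⟨hz₀Z, hxz₀⟩
  have hord : orderOf z₀ = 2 := by
    have h1 : z₀ ^ 2 = 1 := by rw [pow_two]; exact hZexp z₀ hz₀Z
    exact orderOf_eq_prime h1 hz₀1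
  have hzpcard : Nat.card ↥(Subgroup.zpowers z₀) = 2 := by
    rw [Nat.card_zpowers, hord]
  have h2dvd : 2 ∣ Nat.card ↥F := by
    rw [← hzpcard]; exact Subgroup.card_dvd_of_le hzp
  have hFcard : Nat.card ↥F = 2 := by
    have hle : Nat.card ↥F ≤ 4 := Nat.le_of_dvd (by norm_num) hFdvd
    obtain ⟨c, hc⟩ := h2dvd
    obtain ⟨d, hd⟩ := hFdvd
    have hpos : 0 < Nat.card ↥F := Nat.card_pos
    have : c = 1 ∨ c = 2 := by omega
    rcases this with rfl | rfl
    · omega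
    · omega
  have hFeq : Subgroup.zpowers z₀ = F :=
    Subgroup.eq_of_le_of_card_ge hzp (by rw [hFcard, hzpcard])
  intro z hz hxz
  have hzF : z ∈ Subgroup.zpowers z₀ := by
    rw [hFeq]; exact (hF z).mpr ⟨hz, hxz⟩
  have hfin : IsOfFinOrder z₀ := isOfFinOrder_of_finite z₀
  rw [hfin.mem_zpowers_iff_mem_range_orderOf, hord] at hzF
  simp only [Finset.mem_image, Finset.mem_range] at hzF
  obtain ⟨i, hi, rfl⟩ := hzF
  have : i = 0 ∨ i = 1 := by omega
  rcases this with rfl | rfl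
  · left; simp
  · right; simp

end Cfsg.Agent.Lib.Helper97.T64CXZ
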